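import Cfsg.Agent.CharInd.Clifford
import Cfsg.Agent.CharInd.GenChar
import Cfsg.Agent.CharInd.Linear
import Cfsg.Agent.Char.Product
import Cfsg.Agent.Char.InvolutionCount
import Cfsg.Agent.Char.Integrality
import Cfsg.Prelude.Def_DegreeGraph
import Mathlib.GroupTheory.SemidirectProduct
import Mathlib.GroupTheory.Solvable

/-!
# Irreducible characters of affine groups from regular orbits, and complete degree graphs
-/

set_option autoImplicit false
set_option linter.style.haveILetI false

noncomputable section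

namespace Cfsg.Agent.GKTools.AffineChar

open scoped ComplexConjugate

/-- A linear character of `V` in a regular `K`-orbit induces to an irreducible character of
`V ⋊ K` of degree `|K|`. -/
theorem exists_irr {V K : Type*} [CommGroup V] [Group K] [Finite V] [Finite K] (φ : K →* MulAut V)
    (μ : V →* ℂˣ) (hμ : ∀ k, (∀ v, μ (φ k v) = μ v) → k = 1) :
    ∃ χ : V ⋊[φ] K → ℂ, Cfsg.IsIrrCharacter (V ⋊[φ] K) χ ∧ χ 1 = Nat.card K := by
  classical
  haveI : Finite (V ⋊[φ] K) := Finite.of_equiv _ SemidirectProduct.equivProd.symm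
  letI := Fintype.ofFinite (V ⋊[φ] K)
  set N : Subgroup (V ⋊[φ] K) := (SemidirectProduct.rightHom : V ⋊[φ] K →* K).ker with hN
  have hr : ∀ n : N, (n : V ⋊[φ] K).right = 1 := fun n => n.2
  let ν : N →* V :=
    { toFun := fun n => (n : V ⋊[φ] K).left
      map_one' := rfl
      map_mul' := fun a b => by simp [SemidirectProduct.mul_left, hr a] }
  let θ : N → ℂ := fun n => ((μ.comp ν n : ℂˣ) : ℂ)
  have hθ : Cfsg.IsIrrCharacter N θ := CharInd.irr_of_linHom _
  have hinj : ∀ v : V, (SemidirectProduct.inl v : V ⋊[φ] K) ∈ N := fun v => by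
    show (SemidirectProduct.inl v : V ⋊[φ] K).right = 1
    simp
  have key : ∀ x : V ⋊[φ] K, CharInd.conjChar N x θ = θ ↔ x ∈ N := by
    intro x
    constructor
    · intro h
      refine hμ _ fun v => Units.ext ?_
      have := congrFun h ⟨_, hinj v⟩
      have e : (x * SemidirectProduct.inl v * x⁻¹).left = φ x.right v := by
        simp [SemidirectProduct.mul_left, SemidirectProduct.mul_right, SemidirectProduct.inv_left,
          mul_comm]
      simpa [θ, ν, CharInd.conjChar_apply, e] using this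
    · intro hx
      have := CharInd.conjChar_isClassFunction_mem (θ := θ) (N := N)
        (Char.irr_isClassFunction hθ) ⟨x, hx⟩
      exact this
  have hind := CharInd.card_mul_classInner_indFun_normal (N := N) θ θ
  have hnorm : Cfsg.classInner (Cfsg.indFun N θ) (Cfsg.indFun N θ) = 1 := by
    have hsum : ∑ x : V ⋊[φ] K, Cfsg.classInner θ (CharInd.conjChar N x θ) = (Nat.card N : ℂ) := by
      rw [Finset.sum_congr rfl (fun x _ => show Cfsg.classInner θ (CharInd.conjChar N x θ) =
        if x ∈ N then 1 else 0 by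
          rw [CharInd.classInner_irr hθ (CharInd.conjChar_irr N x hθ)]
          simp only [← key x, eq_comm])]
      rw [Finset.sum_boole, ← Fintype.card_subtype, ← Nat.card_eq_fintype_card]
    rw [hsum] at hind
    exact mul_left_cancel₀ CharInd.natCard_ne_zero (hind.trans (mul_one _).symm)
  have hidx : N.index = Nat.card K := by
    rw [hN, Subgroup.index_ker, MonoidHom.range_eq_top.2 SemidirectProduct.rightHom_surjective,
      Subgroup.card_top]
  have h1 : Cfsg.indFun N θ 1 = Nat.card K := by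
    rw [CharInd.indFun_one_apply, hidx]
    simp [θ]
  refine ⟨_, CharInd.genChar_norm_one_pos
    (CharInd.genChar_of_isCharacter (CharInd.isCharacter_indFun N (Char.isCharacter_of_irr hθ))) hnorm ?_, h1⟩
  rw [h1]
  simp [Nat.card_pos]

/-- An affine group over a solvable group is solvable. -/
theorem isSolvable {V K : Type*} [CommGroup V] [Group K] (hK : Group.IsSolvable K) (φ : K →* MulAut V) :
    Group.IsSolvable (V ⋊[φ] K) := by
  haveI := hK
  exact solvable_of_ker_le_range (SemidirectProduct.inl : V →* V ⋊[φ] K)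
    (SemidirectProduct.rightHom : V ⋊[φ] K →* K)
    (le_of_eq SemidirectProduct.range_inl_eq_ker_rightHom.symm)

/-- Groups of the same order with the same three prime divisors whose degree graphs are both
complete have the same graph. -/
theorem graph_eq {G : Type*} [Group G] [Finite G] (hcard : Nat.card G = 6048)
    (h6 : ∃ d ∈ Cfsg.charDegrees G, 6 ∣ d) (h14 : ∃ d ∈ Cfsg.charDegrees G, 14 ∣ d)
    (h21 : ∃ d ∈ Cfsg.charDegrees G, 21 ∣ d) :
    Cfsg.degreePrimes G = {2, 3, 7} ∧ ∀ p q, (Cfsg.degreeGraph G).Adj p q ↔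
      p ≠ q ∧ p ∈ ({2, 3, 7} : Set ℕ) ∧ q ∈ ({2, 3, 7} : Set ℕ) := by
  have hsub : ∀ p, p.Prime → ∀ d ∈ Cfsg.charDegrees G, p ∣ d → p ∈ ({2, 3, 7} : Set ℕ) := by
    rintro p hp d ⟨χ, rfl⟩ hd
    obtain ⟨e, -, he, hdvd⟩ := Char.irr_degree_dvd_card χ.2
    rw [Char.charDegree_of_eq he] at hd
    have h := hd.trans hdvd
    rw [hcard, show (6048 : ℕ) = 2 ^ 5 * 3 ^ 3 * 7 by norm_num] at h
    rcases (Nat.Prime.dvd_mul hp).1 h with h | h
    · rcases (Nat.Prime.dvd_mul hp).1 h with h | h
      · exact Or.inl ((Nat.prime_dvd_prime_iff_eq hp Nat.prime_two).1 (hp.dvd_of_dvd_pow h))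
      · exact Or.inr (Or.inl ((Nat.prime_dvd_prime_iff_eq hp Nat.prime_three).1 (hp.dvd_of_dvd_pow h)))
    · exact Or.inr (Or.inr ((Nat.prime_dvd_prime_iff_eq hp (by norm_num)).1 h))
  obtain ⟨a, ha, ha'⟩ := h6
  obtain ⟨b, hb, hb'⟩ := h14
  obtain ⟨c, hc, hc'⟩ := h21
  refine ⟨Set.ext fun p => ⟨fun ⟨hp, d, hd, hpd⟩ => hsub p hp d hd hpd, ?_⟩, fun p q => ⟨?_, ?_⟩⟩
  · rintro (rfl | rfl | rfl)
    · exact ⟨Nat.prime_two, a, ha, dvd_trans (by norm_num) ha'⟩
    · exact ⟨Nat.prime_three, a, ha, dvd_trans (by norm_num) ha'⟩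
    · exact ⟨by norm_num, b, hb, dvd_trans (by norm_num) hb'⟩
  · rintro ⟨hne, hp, hq, d, hd, hpq⟩
    exact ⟨hne, hsub p hp d hd (dvd_trans (dvd_mul_right p q) hpq),
      hsub q hq d hd (dvd_trans (dvd_mul_left q p) hpq)⟩
  · rintro ⟨hne, hp, hq⟩
    refine ⟨hne, ?_, ?_, ?_⟩
    · rcases hp with rfl | rfl | rfl <;> norm_num
    · rcases hq with rfl | rfl | rfl <;> norm_num
    · rcases hp with rfl | rfl | rfl <;> rcases hq with rfl | rfl | rfl <;>
        first
          | exact absurd rfl hne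
          | exact ⟨a, ha, ha'⟩
          | exact ⟨b, hb, hb'⟩
          | exact ⟨c, hc, hc'⟩

end Cfsg.Agent.GKTools.AffineChar
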