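import Cfsg.Agent.GKTools.FpfModule

/-!
Metabelian groups whose element orders are the divisors of least common multiples of three of the
numbers `6, 9, a, b, C, D` (`C, D` coprime to each other and to `18ab`, `a, b` even).

The top group is `(ℤ/C)² × (ℤ/D)²`; each of seven modules is fixed exactly by the product of one of
three lines of `(ℤ/C)²` and one of three lines of `(ℤ/D)²`.
-/

set_option autoImplicit false
set_option linter.unusedSectionVars false
set_option linter.style.haveILetI false

namespace Cfsg.Agent.GKTools.Cube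

/-- The six numbers. -/
def val (C D a b : ℕ) : Fin 6 → ℕ := ![6, 9, a, b, C, D]

/-- The line in the first square at a position. -/
def li : Fin 7 → Fin 3 := ![0, 1, 0, 2, 1, 2, 0]
/-- The line in the second square at a position. -/
def lj : Fin 7 → Fin 3 := ![1, 0, 2, 0, 2, 1, 0]
/-- The number at a position. -/
def sym : Fin 7 → Fin 6 := ![1, 1, 2, 2, 3, 3, 0]

theorem pos_eq : ∀ i i' : Fin 7, li i = li i' → lj i = lj i' → i = i' := by decide

/-- The linear form killing exactly the `l`-th line. -/
def form (Q : ℕ) : Fin 3 → (ZMod Q × ZMod Q →+ ZMod Q) :=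
  ![AddMonoidHom.snd _ _, AddMonoidHom.fst _ _, AddMonoidHom.fst _ _ - AddMonoidHom.snd _ _]

/-- The generator of the `l`-th line. -/
def lineGen (Q : ℕ) : Fin 3 → ZMod Q × ZMod Q := ![(1, 0), (0, 1), (1, 1)]

theorem form_lineGen (Q : ℕ) (l : Fin 3) : form Q l (lineGen Q l) = 0 := by
  fin_cases l <;> simp [form, lineGen]

theorem line_unique (Q : ℕ) {u : ZMod Q × ZMod Q} (hu : u ≠ 0) {l l' : Fin 3}
    (h : form Q l u = 0) (h' : form Q l' u = 0) : l = l' := by
  obtain ⟨x, y⟩ := u
  fin_cases l <;> fin_cases l' <;> first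
    | rfl
    | (exfalso; apply hu; simp [form, sub_eq_zero] at h h'; subst_vars; simp; done)

variable (C D a b k : ℕ) [NeZero C] [NeZero D]

/-- The top group. -/
abbrev Top : Type := (ZMod C × ZMod C) × (ZMod D × ZMod D)

/-- The number at a position. -/
def npos (i : Fin 7) : ℕ := val C D a b (sym i)

/-- The character at a position. -/
noncomputable def chi (hCD : C.Coprime D) (i : Fin 7) : Top C D →+ ZMod (C * D) :=
  (ZMod.chineseRemainder hCD).symm.toAddMonoidHom.comp
    (AddMonoidHom.prodMap (form C (li i)) (form D (lj i)))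

theorem chi_eq_zero (hCD : C.Coprime D) (i : Fin 7) (t : Top C D) :
    chi C D hCD i t = 0 ↔ form C (li i) t.1 = 0 ∧ form D (lj i) t.2 = 0 := by
  simp [chi, Prod.ext_iff]

/-- The bottom group. -/
abbrev Bot : Type := Fin k → (i : Fin 7) → Fpf.fpf (C * D) (npos C D a b i)

/-- The action. -/
noncomputable def act (hCD : C.Coprime D) :
    Multiplicative (Top C D) →* MulAut (Multiplicative (Bot C D a b k)) where
  toFun t := AddEquiv.toMultiplicative
    { toFun := fun w j i => ⟨fun x => (w j i).1 (x + chi C D hCD i t.toAdd), Fpf.shift_mem _ _ (w j i).2 _⟩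
      invFun := fun w j i => ⟨fun x => (w j i).1 (x + chi C D hCD i (-t.toAdd)), Fpf.shift_mem _ _ (w j i).2 _⟩
      left_inv := fun w => by funext j i; apply Subtype.ext; funext x; simp [map_neg]
      right_inv := fun w => by funext j i; apply Subtype.ext; funext x; simp [map_neg]
      map_add' := fun v w => by funext j i; apply Subtype.ext; rfl }
  map_one' := MulEquiv.ext fun w => Multiplicative.toAdd.injective (by
    funext j i; apply Subtype.ext; funext x
    show (w.toAdd j i).1 (x + chi C D hCD i 0) = _
    rw [map_zero, add_zero]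
    rfl)
  map_mul' s t := MulEquiv.ext fun w => Multiplicative.toAdd.injective (by
    funext j i; apply Subtype.ext; funext x
    show (w.toAdd j i).1 (x + chi C D hCD i (s.toAdd + t.toAdd)) =
      (w.toAdd j i).1 (x + chi C D hCD i s.toAdd + chi C D hCD i t.toAdd)
    rw [map_add, add_assoc])

/-- The group. -/
abbrev Model (hCD : C.Coprime D) : Type :=
  Multiplicative (Bot C D a b k) ⋊[act C D a b k hCD] Multiplicative (Top C D)

variable {C D a b k} (hCD : C.Coprime D) (hcop : Nat.Coprime (C * D) (18 * a * b))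
  (ha : 2 ∣ a) (hb : 2 ∣ b) (ha0 : a ≠ 0) (hb0 : b ≠ 0)

include ha0 hb0 in
theorem npos_ne_zero (i : Fin 7) : npos C D a b i ≠ 0 := by
  fin_cases i <;> simp [npos, val, sym, ha0, hb0]

include ha0 hb0 in
theorem finite_model : Finite (Model C D a b k hCD) := by
  haveI : ∀ i, NeZero (npos C D a b i) := fun i => ⟨npos_ne_zero (C := C) (D := D) ha0 hb0 i⟩
  exact Finite.of_equiv _ SemidirectProduct.equivProd.symm

theorem npos_dvd (i : Fin 7) : npos C D a b i ∣ 18 * a * b := by
  fin_cases i
  all_goals simp [npos, val, sym]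
  · exact Dvd.intro (2 * a * b) (by ring)
  · exact Dvd.intro (2 * a * b) (by ring)
  · exact Dvd.intro (18 * b) (by ring)
  · exact Dvd.intro (18 * b) (by ring)
  · exact Dvd.intro (3 * a * b) (by ring)

include hcop in
theorem npos_coprime (i : Fin 7) : (npos C D a b i).Coprime (C * D) :=
  (hcop.coprime_dvd_right (npos_dvd i)).symm

theorem nsmul_val_eq_zero {n m : ℕ} (h : n ∣ m) (y : ZMod n) : m • y = 0 := by
  obtain ⟨e, rfl⟩ := h
  rw [nsmul_eq_mul, Nat.cast_mul, ZMod.natCast_self, zero_mul, zero_mul]

include hcop in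
/-- The order of `(w, t)` divides `m · n` if `t` has order dividing `m` and `n` is a multiple of the
numbers at the positions fixed by `t`. -/
theorem orderOf_dvd (x : Model C D a b k hCD) (m n : ℕ) (hm : m • x.right.toAdd = 0)
    (hn : ∀ i, chi C D hCD i x.right.toAdd = 0 → npos C D a b i ∣ n) : orderOf x ∣ m * n := by
  refine orderOf_dvd_of_pow_eq_one ?_
  have hr : x.right ^ m = 1 := Multiplicative.toAdd.injective (by rw [toAdd_pow, hm, toAdd_one])
  set w := (x ^ m).left with hw
  have hxm : x ^ m = SemidirectProduct.inl w := by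
    refine SemidirectProduct.ext rfl ?_
    have := map_pow (SemidirectProduct.rightHom : Model C D a b k hCD →* _) x m
    rw [SemidirectProduct.rightHom_eq_right] at this
    rw [this, hr, SemidirectProduct.right_inl]
  have hc : x * SemidirectProduct.inl w = SemidirectProduct.inl w * x := by
    rw [← hxm, ← pow_succ, ← pow_succ']
  have hl := congrArg SemidirectProduct.left hc
  simp only [SemidirectProduct.mul_left, SemidirectProduct.left_inl, SemidirectProduct.right_inl,
    map_one, MulAut.one_apply] at hl
  rw [mul_comm w] at hl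
  have hfix : act C D a b k hCD x.right w = w := mul_left_cancel hl
  rw [pow_mul, hxm, ← map_pow, show w ^ n = 1 from ?_, map_one]
  apply Multiplicative.toAdd.injective
  rw [toAdd_pow, toAdd_one]
  funext j i
  apply Subtype.ext
  by_cases hi : chi C D hCD i x.right.toAdd = 0
  · funext y
    exact nsmul_val_eq_zero (hn i hi) _
  · have h0 : (w.toAdd j i).1 = 0 := Fpf.eq_zero_of_fixed _ _ (npos_coprime hcop i) (w.toAdd j i).2 hi
      fun y => congrFun (congrArg Subtype.val (congrFun (congrFun (congrArg Multiplicative.toAdd hfix) j) i)) y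
    funext y
    show n • (w.toAdd j i).1 y = 0
    rw [h0]
    simp

/-- The positions fixed by a top element given by lines. -/
def fixedPos (p q : Option (Fin 3)) (i : Fin 7) : Bool :=
  (match p with | none => true | some l => decide (li i = l)) &&
    (match q with | none => true | some l => decide (lj i = l))

/-- The symbol `s` is reached by the choice `(p, q)`. -/
def covered (p q : Option (Fin 3)) (s : Fin 6) : Bool :=
  if s = 4 then p.isSome else if s = 5 then q.isSome else
    decide (∃ i, fixedPos p q i = true ∧ sym i = s) ||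
      (decide (s = 0) && decide (∃ i, fixedPos p q i = true ∧ sym i = 1) &&
        decide (∃ i, fixedPos p q i = true ∧ (sym i = 2 ∨ sym i = 3)))

theorem exists_choice : ∀ i j l : Fin 6, ∃ p q : Option (Fin 3),
    covered p q i = true ∧ covered p q j = true ∧ covered p q l = true := by decide +kernel

include hcop ha hb ha0 hb0 in
theorem exists_multiple (hk : 0 < k) (p q : Option (Fin 3)) :
    ∃ x : Model C D a b k hCD, ∀ s, covered p q s = true → val C D a b s ∣ orderOf x := by
  classical
  let t : Top C D := (p.elim 0 (lineGen C), q.elim 0 (lineGen D))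
  have hchi : ∀ i, fixedPos p q i = true → chi C D hCD i t = 0 := by
    intro i hi
    rw [chi_eq_zero]
    rcases p with _ | l <;> rcases q with _ | l' <;> simp only [fixedPos, Bool.and_eq_true, decide_eq_true_eq] at hi <;>
      simp_all [t, form_lineGen]
  choose f hf hf1 using fun i => Fpf.exists_apply_zero_eq_one (C * D) (npos C D a b i)
  let w : Bot C D a b k := fun _ i => if fixedPos p q i then ⟨f i, hf i⟩ else 0
  have hfix : act C D a b k hCD (Multiplicative.ofAdd t) (Multiplicative.ofAdd w) = Multiplicative.ofAdd w := by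
    apply Multiplicative.toAdd.injective
    funext j i
    apply Subtype.ext
    funext y
    show (w j i).1 (y + chi C D hCD i t) = (w j i).1 y
    by_cases hi : fixedPos p q i = true
    · rw [hchi i hi, add_zero]
    · simp [w, hi]
  let x : Model C D a b k hCD :=
    SemidirectProduct.inl (Multiplicative.ofAdd w) * SemidirectProduct.inr (Multiplicative.ofAdd t)
  have hcomm : Commute (SemidirectProduct.inl (Multiplicative.ofAdd w) : Model C D a b k hCD)
      (SemidirectProduct.inr (Multiplicative.ofAdd t)) := by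
    have := SemidirectProduct.inl_aut (φ := act C D a b k hCD) (Multiplicative.ofAdd t) (Multiplicative.ofAdd w)
    rw [hfix, map_inv] at this
    exact eq_mul_inv_iff_mul_eq.1 this
  have hpow : ∀ e, x ^ e = 1 → e • t = 0 ∧ e • w = 0 := by
    intro e he
    rw [hcomm.mul_pow, ← map_pow SemidirectProduct.inl, ← map_pow SemidirectProduct.inr] at he
    have h1 := congrArg SemidirectProduct.right he
    have h2 := congrArg SemidirectProduct.left he
    simp only [SemidirectProduct.mul_right, SemidirectProduct.right_inl, SemidirectProduct.right_inr,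
      SemidirectProduct.one_right, one_mul] at h1
    simp only [SemidirectProduct.mul_left, SemidirectProduct.left_inl, SemidirectProduct.left_inr,
      SemidirectProduct.one_left, map_one, mul_one] at h2
    exact ⟨congrArg Multiplicative.toAdd h1, congrArg Multiplicative.toAdd h2⟩
  obtain ⟨ht, hw⟩ := hpow _ (pow_orderOf_eq_one x)
  have hpos : ∀ i, fixedPos p q i = true → npos C D a b i ∣ orderOf x := by
    intro i hi
    have := congrFun (congrArg Subtype.val (congrFun (congrFun hw ⟨0, hk⟩) i)) 0
    simp [w, hi, hf1] at this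
    exact (ZMod.natCast_eq_zero_iff _ _).1 this
  refine ⟨x, fun s hs => ?_⟩
  by_cases h4 : s = 4
  · subst h4
    obtain ⟨l, rfl⟩ := Option.isSome_iff_exists.1 (show p.isSome by simpa [covered] using hs)
    show C ∣ orderOf x
    have h1 : orderOf x • lineGen C l = 0 := congrArg Prod.fst ht
    rw [← ZMod.natCast_eq_zero_iff]
    fin_cases l
    · simpa [lineGen] using congrArg Prod.fst h1
    · simpa [lineGen] using congrArg Prod.snd h1
    · simpa [lineGen] using congrArg Prod.fst h1
  by_cases h5 : s = 5
  · subst h5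
    obtain ⟨l, rfl⟩ := Option.isSome_iff_exists.1 (show q.isSome by simpa [covered] using hs)
    show D ∣ orderOf x
    have h1 : orderOf x • lineGen D l = 0 := congrArg Prod.snd ht
    rw [← ZMod.natCast_eq_zero_iff]
    fin_cases l
    · simpa [lineGen] using congrArg Prod.fst h1
    · simpa [lineGen] using congrArg Prod.snd h1
    · simpa [lineGen] using congrArg Prod.fst h1
  simp only [covered, h4, h5, if_false, Bool.or_eq_true, Bool.and_eq_true, decide_eq_true_eq] at hs
  rcases hs with ⟨i, hi, rfl⟩ | ⟨⟨rfl, i, hi, hi1⟩, j, hj, hj1⟩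
  · exact hpos i hi
  · have e1 : 3 ∣ orderOf x := by
      have := hpos i hi
      rw [npos, hi1] at this
      exact (show (3 : ℕ) ∣ val C D a b 1 by simp [val]).trans this
    have e2 : 2 ∣ orderOf x := by
      have := hpos j hj
      rw [npos] at this
      rcases hj1 with e | e <;> rw [e] at this
      · exact ha.trans this
      · exact hb.trans this
    show 6 ∣ orderOf x
    exact (show Nat.Coprime 2 3 by norm_num).mul_dvd_of_dvd_of_dvd e2 e1
  
/-- The two numbers met on the `l`-th line. -/
def linePair : Fin 3 → Fin 6 × Fin 6 := ![(1, 2), (1, 3), (2, 3)]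

include ha hb in
theorem six_dvd_lcm : 6 ∣ Nat.lcm 9 a ∧ 6 ∣ Nat.lcm 9 b := by
  constructor <;> refine (show Nat.Coprime 3 2 by norm_num).mul_dvd_of_dvd_of_dvd ?_ ?_
  · exact (by norm_num : (3 : ℕ) ∣ 9).trans (Nat.dvd_lcm_left _ _)
  · exact ha.trans (Nat.dvd_lcm_right _ _)
  · exact (by norm_num : (3 : ℕ) ∣ 9).trans (Nat.dvd_lcm_left _ _)
  · exact hb.trans (Nat.dvd_lcm_right _ _)

include ha hb in
theorem npos_dvd_line (i : Fin 7) :
    (∀ l, li i = l → npos C D a b i ∣ Nat.lcm (val C D a b (linePair l).1) (val C D a b (linePair l).2)) ∧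
    (∀ l, lj i = l → npos C D a b i ∣ Nat.lcm (val C D a b (linePair l).1) (val C D a b (linePair l).2)) := by
  constructor <;> rintro l rfl <;> fin_cases i <;>
    simp [npos, val, sym, li, lj, linePair] <;>
    first
      | exact Nat.dvd_lcm_left _ _
      | exact Nat.dvd_lcm_right _ _
      | exact (six_dvd_lcm ha hb).1

include ha hb in
theorem npos_dvd_all (i : Fin 7) : npos C D a b i ∣ Nat.lcm 9 (Nat.lcm a b) := by
  fin_cases i <;> simp [npos, val, sym] <;> first
    | exact Nat.dvd_lcm_left _ _
    | exact (Nat.dvd_lcm_left _ _).trans (Nat.dvd_lcm_right _ _)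
    | exact (Nat.dvd_lcm_right _ _).trans (Nat.dvd_lcm_right _ _)
    | exact (six_dvd_lcm ha hb).1.trans (Nat.lcm_dvd_lcm_left _ (Nat.dvd_lcm_left _ _))
    | exact (six_dvd_lcm ha hb).1.trans (Nat.lcm_dvd (Nat.dvd_lcm_left _ _) ((Nat.dvd_lcm_left _ _).trans (Nat.dvd_lcm_right _ _)))

include hcop ha hb ha0 hb0 in
/-- The element orders of the model. -/
theorem range_orderOf (hk : 0 < k) :
    Set.range (orderOf : Model C D a b k hCD → ℕ) =
      {d | ∃ i j l, d ∣ Nat.lcm (val C D a b i) (Nat.lcm (val C D a b j) (val C D a b l))} := by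
  classical
  haveI := finite_model (k := k) hCD ha0 hb0
  ext d
  constructor
  · rintro ⟨x, rfl⟩
    set c := x.right.toAdd.1
    set e := x.right.toAdd.2
    have hC : ∀ u : ZMod C × ZMod C, C • u = 0 := fun u =>
      Prod.ext (nsmul_val_eq_zero dvd_rfl _) (nsmul_val_eq_zero dvd_rfl _)
    have hD : ∀ u : ZMod D × ZMod D, D • u = 0 := fun u =>
      Prod.ext (nsmul_val_eq_zero dvd_rfl _) (nsmul_val_eq_zero dvd_rfl _)
    have hfix : ∀ i, chi C D hCD i x.right.toAdd = 0 →
        form C (li i) c = 0 ∧ form D (lj i) e = 0 := fun i h => (chi_eq_zero C D hCD i _).1 h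
    have cop : ∀ u v L : ℕ, u ∣ C * D → v ∣ 18 * a * b → u ∣ L → v ∣ L → u * v ∣ L := fun u v L h1 h2 h3 h4 =>
      ((hcop.coprime_dvd_left h1).coprime_dvd_right h2).mul_dvd_of_dvd_of_dvd h3 h4
    have ndvd : ∀ i, npos C D a b i ∣ 18 * a * b := npos_dvd
    have pdvd : ∀ l, Nat.lcm (val C D a b (linePair l).1) (val C D a b (linePair l).2) ∣ 18 * a * b := by
      intro l
      have h9 : 9 ∣ 18 * a * b := Dvd.intro (2 * a * b) (by ring)
      have h_a : a ∣ 18 * a * b := Dvd.intro (18 * b) (by ring)
      have h_b : b ∣ 18 * a * b := Dvd.intro_left (18 * a) rfl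
      fin_cases l <;> simp [linePair, val] <;> apply Nat.lcm_dvd <;> assumption
    by_cases hc : c = 0
    · by_cases he : e = 0
      · refine ⟨1, 2, 3, ?_⟩
        have := orderOf_dvd hCD hcop x 1 (Nat.lcm 9 (Nat.lcm a b))
          (by rw [one_nsmul]; exact Prod.ext hc he) fun i _ => npos_dvd_all ha hb i
        rwa [one_mul] at this
      · -- only the second square is non-trivial
        have hm : D • x.right.toAdd = 0 := Prod.ext (show D • c = 0 by rw [hc, nsmul_zero]) (hD e)
        by_cases hex : ∃ i, chi C D hCD i x.right.toAdd = 0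
        · obtain ⟨i₀, hi₀⟩ := hex
          refine ⟨5, (linePair (lj i₀)).1, (linePair (lj i₀)).2, (orderOf_dvd hCD hcop x D _ hm ?_).trans
            (cop _ _ _ (dvd_mul_left D C) (pdvd _) (Nat.dvd_lcm_left _ _) (Nat.dvd_lcm_right _ _))⟩
          intro i hi
          exact (npos_dvd_line ha hb i).2 _ (line_unique D he (hfix i hi).2 (hfix i₀ hi₀).2)
        · push Not at hex
          refine ⟨5, 5, 5, (orderOf_dvd hCD hcop x D 1 hm fun i hi => absurd hi (hex i)).trans ?_⟩
          rw [mul_one]
          exact Nat.dvd_lcm_left _ _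
    · by_cases he : e = 0
      · have hm : C • x.right.toAdd = 0 := Prod.ext (hC c) (show C • e = 0 by rw [he, nsmul_zero])
        by_cases hex : ∃ i, chi C D hCD i x.right.toAdd = 0
        · obtain ⟨i₀, hi₀⟩ := hex
          refine ⟨4, (linePair (li i₀)).1, (linePair (li i₀)).2, (orderOf_dvd hCD hcop x C _ hm ?_).trans
            (cop _ _ _ (dvd_mul_right C D) (pdvd _) (Nat.dvd_lcm_left _ _) (Nat.dvd_lcm_right _ _))⟩
          intro i hi
          exact (npos_dvd_line ha hb i).1 _ (line_unique C hc (hfix i hi).1 (hfix i₀ hi₀).1)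
        · push Not at hex
          refine ⟨4, 4, 4, (orderOf_dvd hCD hcop x C 1 hm fun i hi => absurd hi (hex i)).trans ?_⟩
          rw [mul_one]
          exact Nat.dvd_lcm_left _ _
      · have hm : (C * D) • x.right.toAdd = 0 := Prod.ext
          (show (C * D) • c = 0 by rw [mul_nsmul, hC, nsmul_zero])
          (show (C * D) • e = 0 by rw [mul_nsmul', hD, nsmul_zero])
        have hCDl : ∀ z, C * D ∣ Nat.lcm C (Nat.lcm D z) := fun z =>
          hCD.mul_dvd_of_dvd_of_dvd (Nat.dvd_lcm_left _ _) ((Nat.dvd_lcm_left _ _).trans (Nat.dvd_lcm_right _ _))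
        by_cases hex : ∃ i, chi C D hCD i x.right.toAdd = 0
        · obtain ⟨i₀, hi₀⟩ := hex
          refine ⟨4, 5, sym i₀, (orderOf_dvd hCD hcop x (C * D) (npos C D a b i₀) hm ?_).trans
            (cop _ _ _ dvd_rfl (ndvd _) (hCDl _) ((Nat.dvd_lcm_right _ _).trans (Nat.dvd_lcm_right _ _)))⟩
          intro i hi
          rw [pos_eq i i₀ (line_unique C hc (hfix i hi).1 (hfix i₀ hi₀).1)
            (line_unique D he (hfix i hi).2 (hfix i₀ hi₀).2)]
        · push Not at hex
          refine ⟨4, 5, 5, (orderOf_dvd hCD hcop x (C * D) 1 hm fun i hi => absurd hi (hex i)).trans ?_⟩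
          rw [mul_one]
          exact hCDl _
  · rintro ⟨i, j, l, hd⟩
    obtain ⟨p, q, hi, hj, hl⟩ := exists_choice i j l
    obtain ⟨x, hx⟩ := exists_multiple (k := k) hCD hcop ha hb ha0 hb0 hk p q
    exact ⟨x ^ (orderOf x / d), orderOf_pow_orderOf_div (orderOf_pos x).ne'
      (hd.trans (Nat.lcm_dvd (hx i hi) (Nat.lcm_dvd (hx j hj) (hx l hl))))⟩

include ha0 hb0 in
theorem lt_card_model : k < Nat.card (Model C D a b k hCD) := by
  classical
  haveI := finite_model (k := k) hCD ha0 hb0
  obtain ⟨f, hf, hf1⟩ := Fpf.exists_apply_zero_eq_one (C * D) (npos C D a b 0)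
  let g : (Fin k → Bool) → Model C D a b k hCD := fun s => SemidirectProduct.inl (Multiplicative.ofAdd
    fun j => Function.update (fun _ => 0) (0 : Fin 7) (if s j then ⟨f, hf⟩ else 0))
  have hg : Function.Injective g := by
    intro s t h
    funext j
    have := congrFun (congrArg Subtype.val (congrFun (congrFun (congrArg Multiplicative.toAdd
      (SemidirectProduct.inl_injective h)) j) 0)) (0 : ZMod (C * D))
    have h01 : (1 : ZMod (npos C D a b 0)) ≠ 0 := by
      show (1 : ZMod 9) ≠ 0
      decide
    cases hs : s j <;> cases ht : t j <;> simp [hs, ht, hf1, h01, h01.symm] at this ⊢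
  calc k < 2 ^ k := Nat.lt_two_pow_self
    _ = Nat.card (Fin k → Bool) := by simp [Nat.card_eq_fintype_card]
    _ ≤ _ := Nat.card_le_card_of_injective g hg

end Cfsg.Agent.GKTools.Cube
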