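import Mathlib

/-!
A module over `ZMod n` on which every nontrivial translation of a cyclic group `ZMod Q`, `Q` coprime
to `n`, is fixed-point-free, with a vector of additive order `n`: the functions whose sum over every
coset of every subgroup of prime order vanishes.
-/

set_option autoImplicit false
set_option linter.unusedSectionVars false

namespace Cfsg.Agent.GKTools.Fpf

variable (Q n : ℕ) [NeZero Q]

/-- Functions with vanishing sums over the cosets of the subgroups of prime order. -/
def fpf : AddSubgroup (ZMod Q → ZMod n) where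
  carrier := {f | ∀ p : ℕ, p.Prime → p ∣ Q → ∀ x, ∑ k ∈ Finset.range p, f (x + k • ((Q / p : ℕ) : ZMod Q)) = 0}
  add_mem' := by
    intro f g hf hg p hp hpQ x
    simp only [Pi.add_apply, Finset.sum_add_distrib, hf p hp hpQ x, hg p hp hpQ x, add_zero]
  zero_mem' := by intro p _ _ x; simp
  neg_mem' := by
    intro f hf p hp hpQ x
    simp only [Pi.neg_apply, Finset.sum_neg_distrib, hf p hp hpQ x, neg_zero]

theorem shift_mem {f : ZMod Q → ZMod n} (hf : f ∈ fpf Q n) (a : ZMod Q) :
    (fun x => f (x + a)) ∈ fpf Q n := by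
  intro p hp hpQ x
  rw [← hf p hp hpQ (x + a)]
  refine Finset.sum_congr rfl fun k _ => ?_
  rw [add_right_comm]

theorem eq_zero_of_fixed (hcop : n.Coprime Q) {f : ZMod Q → ZMod n} (hf : f ∈ fpf Q n) {a : ZMod Q}
    (ha : a ≠ 0) (hfix : ∀ x, f (x + a) = f x) : f = 0 := by
  have hper : ∀ (k : ℕ) x, f (x + k • a) = f x := by
    intro k
    induction k with
    | zero => intro x; simp
    | succ k ih => intro x; rw [succ_nsmul, ← add_assoc, hfix, ih]
  set o := addOrderOf a with ho
  have ho1 : o ≠ 1 := fun h => ha (AddMonoid.addOrderOf_eq_one_iff.1 h)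
  set p := o.minFac
  have hp : p.Prime := Nat.minFac_prime ho1
  have hpQ : p ∣ Q := (Nat.minFac_dvd o).trans (by
    rw [ho]
    exact addOrderOf_dvd_of_nsmul_eq_zero (by rw [nsmul_eq_mul, ZMod.natCast_self, zero_mul]))
  -- the subgroup of order `p` consists of multiples of `a`
  have hmem : ((Q / p : ℕ) : ZMod Q) ∈ AddSubgroup.zmultiples a := by
    have hcyc : IsAddCyclic (ZMod Q) := inferInstance
    have h1 : addOrderOf ((Q / p : ℕ) : ZMod Q) ∣ p := addOrderOf_dvd_of_nsmul_eq_zero (by
      rw [nsmul_eq_mul, ← Nat.cast_mul, Nat.mul_div_cancel' hpQ, ZMod.natCast_self])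
    have hb : (o / p) • a ∈ AddSubgroup.zmultiples a := AddSubgroup.nsmul_mem_zmultiples _ _
    have h2 : addOrderOf ((o / p) • a) = p := by
      rw [addOrderOf_nsmul' a (Nat.div_pos (Nat.minFac_le (addOrderOf_pos a)) hp.pos).ne', ← ho,
        Nat.gcd_eq_right (Nat.div_dvd_of_dvd (Nat.minFac_dvd o)),
        Nat.div_div_self (Nat.minFac_dvd o) (addOrderOf_pos a).ne']
    have hle : AddSubgroup.zmultiples ((Q / p : ℕ) : ZMod Q) ≤ AddSubgroup.zmultiples ((o / p) • a) := by
      classical
      intro y hy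
      have hy' : p • y = 0 := by
        obtain ⟨z, rfl⟩ := hy
        show p • (z • ((Q / p : ℕ) : ZMod Q)) = 0
        rw [smul_comm, addOrderOf_dvd_iff_nsmul_eq_zero.1 h1, zsmul_zero]
      let S := Finset.univ.filter fun u : ZMod Q => p • u = 0
      have hS : S.card ≤ p := IsAddCyclic.card_nsmul_eq_zero_le (α := ZMod Q) hp.pos
      let T := (Finset.range p).image fun k => k • ((o / p) • a)
      have hTS : T ⊆ S := by
        intro u hu
        obtain ⟨k, -, rfl⟩ := Finset.mem_image.1 hu
        simp only [S, Finset.mem_filter, Finset.mem_univ, true_and]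
        have e := addOrderOf_nsmul_eq_zero ((o / p) • a)
        rw [h2] at e
        rw [smul_comm, e, nsmul_zero]
      have hT : T.card = p := by
        rw [Finset.card_image_of_injOn ?_, Finset.card_range]
        intro i hi j hj hij
        exact nsmul_injOn_Iio_addOrderOf (x := (o / p) • a) (by rw [h2]; exact Finset.mem_range.1 hi)
          (by rw [h2]; exact Finset.mem_range.1 hj) hij
      have hyT : y ∈ T := by
        rw [Finset.eq_of_subset_of_card_le hTS (by rw [hT]; exact hS)]
        simp only [S, Finset.mem_filter, Finset.mem_univ, true_and]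
        exact hy'
      obtain ⟨k, -, rfl⟩ := Finset.mem_image.1 hyT
      exact AddSubgroup.nsmul_mem_zmultiples _ _
    exact (AddSubgroup.zmultiples_le.2 hb) (hle (AddSubgroup.mem_zmultiples _))
  obtain ⟨k, hk⟩ := (mem_multiples_iff_mem_zmultiples.2 hmem : _ ∈ AddSubmonoid.multiples a)
  funext x
  have h := hf p hp hpQ x
  have e : ∀ j ∈ Finset.range p, f (x + j • ((Q / p : ℕ) : ZMod Q)) = f x := by
    intro j _
    rw [← hk, ← mul_nsmul']
    exact hper _ x
  rw [Finset.sum_congr rfl e, Finset.sum_const, Finset.card_range, nsmul_eq_mul] at h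
  have hu : IsUnit ((p : ℕ) : ZMod n) :=
    (ZMod.isUnit_iff_coprime p n).2 (Nat.Coprime.coprime_dvd_left hpQ hcop.symm)
  exact hu.mul_right_eq_zero.1 h

theorem exists_apply_zero_eq_one : ∃ f ∈ fpf Q n, f 0 = 1 := by
  classical
  let g : ℕ → ZMod Q := fun p => ((Q / p : ℕ) : ZMod Q)
  suffices h : ∀ S : Finset ℕ, (∀ p ∈ S, p.Prime ∧ p ∣ Q) → ∃ f : ZMod Q → ZMod n,
      (∀ p ∈ S, ∀ x, ∑ k ∈ Finset.range p, f (x + k • g p) = 0) ∧ f 0 = 1 ∧
      ∀ x, f x ≠ 0 → (∏ p ∈ S, p) • x = 0 by
    obtain ⟨f, h1, h2, -⟩ := h Q.primeFactors fun p hp =>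
      ⟨Nat.prime_of_mem_primeFactors hp, Nat.dvd_of_mem_primeFactors hp⟩
    exact ⟨f, fun p hp hpQ => h1 p (Nat.mem_primeFactors.2 ⟨hp, hpQ, NeZero.ne Q⟩), h2⟩
  intro S
  induction S using Finset.induction_on with
  | empty =>
    intro _
    refine ⟨Pi.single 0 1, by simp, by simp, fun x hx => ?_⟩
    by_contra hx0
    simp only [Finset.prod_empty, one_smul] at hx0
    exact hx (Pi.single_eq_of_ne hx0 _)
  | insert p S hpS ih =>
    intro hS
    obtain ⟨f, hf, hf0, hsupp⟩ := ih fun r hr => hS r (Finset.mem_insert_of_mem hr)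
    obtain ⟨hp, hpQ⟩ := hS p (Finset.mem_insert_self _ _)
    have hgp : p • g p = 0 := by
      rw [nsmul_eq_mul, ← Nat.cast_mul, Nat.mul_div_cancel' hpQ, ZMod.natCast_self]
    refine ⟨fun x => f x - f (x + g p), fun r hr x => ?_, ?_, fun x hx => ?_⟩
    · rcases Finset.mem_insert.1 hr with rfl | hr
      · have key := Finset.sum_range_sub' (fun k => f (x + k • g r)) r
        rw [zero_nsmul, add_zero, hgp, add_zero, sub_self] at key
        rw [← key]
        refine Finset.sum_congr rfl fun k _ => ?_
        show f (x + k • g r) - f (x + k • g r + g r) = f (x + k • g r) - f (x + (k + 1) • g r)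
        rw [succ_nsmul, add_assoc]
      · rw [Finset.sum_sub_distrib, hf r hr x]
        have := hf r hr (x + g p)
        rw [zero_sub, neg_eq_zero, ← this]
        exact Finset.sum_congr rfl fun k _ => by rw [add_right_comm]
    · have hne : f (0 + g p) = 0 := by
        by_contra h
        have h1 := hsupp _ h
        rw [zero_add] at h1
        have hcop : Nat.Coprime (∏ r ∈ S, r) p := Nat.Coprime.prod_left fun r hr =>
          (Nat.coprime_primes (hS r (Finset.mem_insert_of_mem hr)).1 hp).2 fun e => hpS (e ▸ hr)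
        have h2 : addOrderOf (g p) ∣ 1 := hcop ▸ Nat.dvd_gcd (addOrderOf_dvd_of_nsmul_eq_zero h1)
          (addOrderOf_dvd_of_nsmul_eq_zero hgp)
        have h3 : g p = 0 := AddMonoid.addOrderOf_eq_one_iff.1 (Nat.dvd_one.1 h2)
        rw [ZMod.natCast_eq_zero_iff] at h3
        have := Nat.le_of_dvd (Nat.div_pos (Nat.le_of_dvd (Nat.pos_of_neZero Q) hpQ) hp.pos) h3
        have := Nat.div_lt_self (Nat.pos_of_neZero Q) hp.one_lt
        omega
      simp only [hne, hf0, sub_zero]
    · rw [Finset.prod_insert hpS]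
      by_contra hcon
      have h1 : f x = 0 := by
        by_contra h
        exact hcon (by rw [mul_nsmul', hsupp x h, nsmul_zero])
      have h2 : f (x + g p) = 0 := by
        by_contra h
        refine hcon ?_
        have h3 := congrArg (fun y => p • y) (hsupp _ h)
        simp only [nsmul_add, nsmul_zero] at h3
        rw [← mul_nsmul', ← mul_nsmul', mul_nsmul (g p) p, hgp, nsmul_zero, add_zero] at h3
        exact h3
      exact hx (by simp [h1, h2])

end Cfsg.Agent.GKTools.Fpf
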