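import Cfsg.Agent.GKTools.Three
import Cfsg.Agent.PGroup.Frattini
import Cfsg.Prelude.Def_Solvable

set_option autoImplicit false

namespace Cfsg.Agent.GKTools

open scoped Pointwise

theorem mem_conj_iff {G : Type*} [Group G] (H : Subgroup G) (g x : G) :
    x ∈ MulAut.conj g • H ↔ g⁻¹ * x * g ∈ H := by
  rw [Subgroup.mem_pointwise_smul_iff_inv_smul_mem]
  simp [mul_assoc]

theorem frob_facts {Q : Type*} [Group Q] [Finite Q] (F H : Subgroup Q) [F.Normal]
    (hH : Cfsg.IsFrobeniusComplement H) (hker : Cfsg.frobeniusKernel H = (F : Set Q)) :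
    (∀ z : Q, z ∉ F → ∃ g : Q, g⁻¹ * z * g ∈ H) ∧
      (∀ y : Q, y ∉ F → ∀ a ∈ F, Commute a y → a = 1) ∧ (∀ y : Q, y ∈ H → y ∈ F → y = 1) := by
  have h0 : ∀ z : Q, z ∈ F ↔ z = 1 ∨ ∀ g : Q, g⁻¹ * z * g ∉ H := fun z => by
    rw [← SetLike.mem_coe, ← hker]
    simp [Cfsg.frobeniusKernel, mem_conj_iff]
  have h1 : ∀ y : Q, y ∈ H → y ∈ F → y = 1 := fun y hy hyF =>
    ((h0 y).1 hyF).resolve_right fun h => h 1 (by simpa using hy)
  have h2 : ∀ z : Q, z ∉ F → ∃ g : Q, g⁻¹ * z * g ∈ H := fun z hz => by
    rw [h0] at hz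
    push Not at hz
    exact hz.2
  refine ⟨h2, fun y hy a ha hc => ?_, h1⟩
  obtain ⟨g, hg⟩ := h2 y hy
  have hb : Commute (g⁻¹ * a * g) (g⁻¹ * y * g) := by
    unfold Commute SemiconjBy
    calc g⁻¹ * a * g * (g⁻¹ * y * g) = g⁻¹ * (a * y) * g := by group
      _ = g⁻¹ * (y * a) * g := by rw [hc.eq]
      _ = g⁻¹ * y * g * (g⁻¹ * a * g) := by group
  have hyH1 : g⁻¹ * y * g ≠ 1 := by
    intro h
    apply hy
    have : y = g * (g⁻¹ * y * g) * g⁻¹ := by group
    rw [this, h, mul_one, mul_inv_cancel]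
    exact F.one_mem
  have hbH : g⁻¹ * a * g ∈ H := by
    by_contra hne
    have : g⁻¹ * y * g ∈ H ⊓ (MulAut.conj (g⁻¹ * a * g) • H) := by
      refine ⟨hg, (mem_conj_iff _ _ _).2 ?_⟩
      rw [mul_assoc _ (g⁻¹ * y * g), ← hb.eq, ← mul_assoc, inv_mul_cancel, one_mul]
      exact hg
    rw [hH.2.2 _ hne, Subgroup.mem_bot] at this
    exact hyH1 this
  have := h1 _ hbH (Subgroup.Normal.conj_mem' inferInstance a ha g)
  rwa [mul_assoc, inv_mul_eq_one, eq_comm, mul_eq_right] at this

/-- Conjugation action of the normalizer of `P` on the Frattini quotient of `P`. -/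
def frattiniQuotientAct {G : Type*} [Group G] (P : Subgroup G) :
    Subgroup.normalizer (P : Set G) →* MulAut (↥P ⧸ frattini ↥P) where
  toFun g := QuotientGroup.congr (frattini ↥P) (frattini ↥P) (P.normalizerMonoidHom g) (by
    exact Subgroup.characteristic_iff_map_eq.1 inferInstance _)
  map_one' := by
    ext v
    induction v using QuotientGroup.induction_on with
    | H v => simp
  map_mul' g h := by
    ext v
    induction v using QuotientGroup.induction_on with
    | H v => simp; rfl

theorem exists_orderOf_of_frobenius_quotient {G : Type*} [Group G] [Finite G] (N : Subgroup G)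
    [N.Normal] (Fb Hb : Subgroup (G ⧸ N)) [Fb.Normal] (hHb : Cfsg.IsFrobeniusComplement Hb)
    (hker : Cfsg.frobeniusKernel Hb = (Fb : Set (G ⧸ N))) (hcyc : IsCyclic Hb)
    (hcop : (Nat.card Fb).Coprime (Nat.card N))
    (hnot : ¬ Fb ≤ (Subgroup.centralizer (N : Set G)).map (QuotientGroup.mk' N)) :
    ∃ p : ℕ, p.Prime ∧ p ∣ Nat.card N ∧ ∃ g : G, orderOf g = p * Nat.card Hb := by
  by_contra hcon
  apply hnot
  obtain ⟨hconj, hfpf, hHF⟩ := frob_facts Fb Hb hHb hker
  set n := Nat.card Hb
  have hn : 0 < n := Nat.card_pos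
  set π := QuotientGroup.mk' N
  -- every element of the kernel of `π` that is a power of a lift is trivial
  have hlift : ∀ y : G, orderOf (π y) = n → y ^ n = 1 := by
    intro y hy
    by_contra hne
    have hd : n ∣ orderOf y := hy ▸ orderOf_map_dvd π y
    obtain ⟨m, hm⟩ := hd
    have hm1 : m ≠ 1 := fun h => hne (by rw [← pow_orderOf_eq_one y, hm, h, mul_one])
    obtain ⟨p, hp, hpm⟩ := Nat.exists_prime_and_dvd hm1
    refine hcon ⟨p, hp, ?_, exists_orderOf_of_dvd y
      (by rw [hm, mul_comm p]; exact mul_dvd_mul_left n hpm)⟩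
    have hmem : y ^ n ∈ N := by
      rw [← QuotientGroup.eq_one_iff]
      show π (y ^ n) = 1
      rw [map_pow, ← hy, pow_orderOf_eq_one]
    have ho : orderOf (y ^ n) = m := by
      rw [orderOf_pow, hm, Nat.gcd_eq_right (Dvd.intro _ rfl), Nat.mul_div_cancel_left _ hn]
    exact hpm.trans (ho ▸ (Subgroup.orderOf_dvd_natCard N hmem))
  let M : Subgroup G := Fb.comap π
  haveI : M.Normal := inferInstance
  have hNM : N ≤ M := fun x hx => by
    show π x ∈ Fb
    rw [show π x = 1 from (QuotientGroup.eq_one_iff x).2 hx]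
    exact Fb.one_mem
  -- the centralizer of `N` in `M` contains a Sylow `t`-subgroup of `M` for each `t`
  have hcard : Nat.card M = Nat.card N * Nat.card Fb := by
    have := Subgroup.relIndex_mul_relIndex ⊥ N M bot_le hNM
    rw [Subgroup.relIndex_bot_left, Subgroup.relIndex_bot_left] at this
    rw [← this]
    congr 1
    have : N = (⊥ : Subgroup (G ⧸ N)).comap π := by
      rw [MonoidHom.comap_bot, QuotientGroup.ker_mk']
    conv_lhs => rw [this]
    show ((⊥ : Subgroup (G ⧸ N)).comap π).relIndex (Fb.comap π) = _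
    rw [Subgroup.relIndex_comap, Subgroup.map_comap_eq_self_of_surjective (QuotientGroup.mk'_surjective N),
      Subgroup.relIndex_bot_left]
  have key : ∀ t : ℕ, t.Prime → ∀ T : Subgroup G, T ≤ M → IsPGroup t T → ¬ t ∣ Nat.card N →
      Nat.card T = t ^ (Nat.card Fb).factorization t →
      ∀ p : ℕ, p.Prime → p ∣ Nat.card N → ∀ P : Sylow p N,
        ∃ m ∈ M, ∀ v ∈ (P : Subgroup N).map N.subtype, ∀ a ∈ T, Commute v (m * a * m⁻¹) := by
    intro t ht T hTM hT htN hTc p hp hpN P
    haveI := Fact.mk ht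
    haveI := Fact.mk hp
    let P' : Subgroup G := (P : Subgroup N).map N.subtype
    let G' := Subgroup.normalizer (P' : Set G)
    have hG' : G' ⊔ N = ⊤ := Sylow.normalizer_sup_eq_top P
    let M' : Subgroup G' := M.subgroupOf G'
    obtain ⟨T₀⟩ := (inferInstance : Nonempty (Sylow t M'))
    let T₁ : Subgroup G' := (T₀ : Subgroup M').map M'.subtype
    have hT₁ : Subgroup.normalizer (T₁ : Set G') ⊔ M' = ⊤ := Sylow.normalizer_sup_eq_top T₀
    -- choose the lift
    haveI := hcyc
    obtain ⟨h, hh⟩ := IsCyclic.exists_generator (α := Hb)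
    obtain ⟨y, hy⟩ := QuotientGroup.mk'_surjective N (h : G ⧸ N)
    have hy' : y ∈ G' ⊔ N := hG' ▸ Subgroup.mem_top y
    obtain ⟨y₁, hy₁, w, hw, rfl⟩ := Subgroup.mem_sup_of_normal_right.1 hy'
    have hy'' : (⟨y₁, hy₁⟩ : G') ∈ Subgroup.normalizer (T₁ : Set G') ⊔ M' := hT₁ ▸ Subgroup.mem_top _
    obtain ⟨x, hx, m₁, hm₁, hxm⟩ := Subgroup.mem_sup_of_normal_right.1 hy''
    set z := π (x : G) with hz
    have hzh : (h : G ⧸ N) = z * π (m₁ : G) := by
      rw [← hy, map_mul, show π w = 1 from (QuotientGroup.eq_one_iff w).2 hw, mul_one, hz, ← map_mul]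
      exact (congrArg (fun g : G' => π (g : G)) hxm).symm
    have hm₁F : π (m₁ : G) ∈ Fb := hm₁
    let ψ := QuotientGroup.mk' Fb
    have hψ : ψ z = ψ h := by
      rw [hzh, map_mul, show ψ (π (m₁ : G)) = 1 from (QuotientGroup.eq_one_iff _).2 hm₁F, mul_one]
    have hoh : orderOf (h : G ⧸ N) = n := by
      rw [Subgroup.orderOf_coe, orderOf_eq_card_of_forall_mem_zpowers hh]
    have hpowF : ∀ i, 0 < i → i < n → z ^ i ∉ Fb := by
      intro i hi hin hmem
      rw [← QuotientGroup.eq_one_iff] at hmem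
      change ψ (z ^ i) = 1 at hmem
      rw [map_pow, hψ, ← map_pow] at hmem
      have : (h : G ⧸ N) ^ i = 1 := hHF _ (pow_mem h.2 i) ((QuotientGroup.eq_one_iff _).1 hmem)
      exact absurd (orderOf_dvd_of_pow_eq_one this) (by
        rw [hoh]; exact Nat.not_dvd_of_pos_of_lt hi hin)
    have hoz : orderOf z = n := by
      refine (orderOf_eq_iff hn).2 ⟨?_, fun i hin hi h => hpowF i hi hin (by rw [h]; exact Fb.one_mem)⟩
      by_cases hzF : z ∈ Fb
      · rcases Nat.lt_or_ge 1 n with h1 | h1
        · exact absurd (by rwa [pow_one]) (hpowF 1 one_pos h1)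
        · exact absurd (Subgroup.eq_bot_of_card_le Hb h1) hHb.1
      · obtain ⟨g, hg⟩ := hconj z hzF
        have : (g⁻¹ * z * g) ^ n = 1 := by
          exact orderOf_dvd_iff_pow_eq_one.1 (Subgroup.orderOf_dvd_natCard Hb hg)
        rw [show g⁻¹ * z * g = g⁻¹ * z * (g⁻¹)⁻¹ by simp, conj_pow] at this
        simpa using conj_eq_one_iff.1 this
    -- act on the Frattini quotient
    have hP' : IsPGroup p P' := P.2.map _
    haveI : IsMulCommutative (↥P' ⧸ frattini ↥P') := by
      constructor; constructor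
      intro a b
      induction a using QuotientGroup.induction_on with
      | H a => induction b using QuotientGroup.induction_on with
        | H b =>
          rw [← commutatorElement_eq_one_iff_mul_comm]
          show (QuotientGroup.mk' (frattini ↥P')) a * QuotientGroup.mk' (frattini ↥P') b *
            (QuotientGroup.mk' (frattini ↥P') a)⁻¹ * (QuotientGroup.mk' (frattini ↥P') b)⁻¹ = 1
          rw [← map_inv, ← map_inv, ← map_mul, ← map_mul, ← map_mul]
          exact (QuotientGroup.eq_one_iff _).2 (Cfsg.Agent.PGroup.commutatorElement_mem_frattini hP' a b)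
    let φ := frattiniQuotientAct P'
    have hT₁M : ∀ a ∈ T₁, π (a : G) ∈ Fb := fun a ha => by
      obtain ⟨b, -, rfl⟩ := ha
      exact b.2
    have hT₁p : IsPGroup t T₁ := T₀.2.map _
    have hfix : ∀ v, ∀ a ∈ T₁, φ a v = v := by
      intro v a ha
      letI : CommGroup (↥P' ⧸ frattini ↥P') :=
        { (inferInstance : Group (↥P' ⧸ frattini ↥P')) with
          mul_comm := fun a b => IsMulCommutative.is_comm.comm a b }
      refine fixed_of_norm_eq_one φ T₁ x n hn (fun b hb => (Subgroup.mem_normalizer_iff.1 hx b).1 hb) ?_ ?_ ?_ v a ha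
      · intro i hi hin b hb hc
        have h1 : π (b : G) = 1 := by
          refine hfpf (z ^ i) (hpowF i hi hin) _ (hT₁M b hb) ?_
          rw [hz, ← map_pow]
          exact (hc.map G'.subtype).map π
        have hbN : (b : G) ∈ N := (QuotientGroup.eq_one_iff _).1 h1
        obtain ⟨k, hk⟩ := hT₁p ⟨b, hb⟩
        apply Subtype.ext
        refine orderOf_eq_one_iff.1 (Nat.eq_one_of_dvd_coprimes ((ht.coprime_iff_not_dvd.2 htN).pow_left k)
          (orderOf_dvd_of_pow_eq_one ?_) (Subgroup.orderOf_dvd_natCard N hbN))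
        have := congrArg (fun u : T₁ => ((u : G') : G)) hk
        simpa using this
      · intro u
        induction u using QuotientGroup.induction_on with
        | H u =>
          have huN : (u : G) ∈ N := Subgroup.map_subtype_le _ u.2
          have e1 : ((u : G) * (x : G)) ^ n = 1 := hlift _ (by
            rw [map_mul, show π (u : G) = 1 from (QuotientGroup.eq_one_iff _).2 huN, one_mul]; exact hoz)
          have e2 : (x : G) ^ n = 1 := hlift _ hoz
          let Φ := P'.normalizerMonoidHom
          have hval : ∀ k : ℕ, ∃ r : P', ((u : G) * (x : G)) ^ k = (r : G) * (x : G) ^ k ∧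
              (QuotientGroup.mk r : ↥P' ⧸ frattini ↥P') = ∏ i ∈ Finset.range k, φ (x ^ i) (QuotientGroup.mk u) := by
            intro k
            induction k with
            | zero => exact ⟨1, by simp, by simp⟩
            | succ k ih =>
              obtain ⟨r, hr, hr'⟩ := ih
              refine ⟨r * Φ (x ^ k) u, ?_, ?_⟩
              · rw [pow_succ, hr, pow_succ]
                show _ = (r : G) * (((x ^ k : G') : G) * u * ((x ^ k : G') : G)⁻¹) * _
                rw [Subgroup.coe_pow]
                group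
              · rw [Finset.prod_range_succ, ← hr', QuotientGroup.mk_mul]
                rfl
          obtain ⟨r, hr, hr'⟩ := hval n
          rw [e1, e2, mul_one] at hr
          rw [← hr', show r = 1 from Subtype.ext hr.symm, QuotientGroup.mk_one]
      · obtain ⟨k, hk⟩ := IsPGroup.iff_card.1 (hP'.to_quotient (frattini ↥P'))
        obtain ⟨l, hl⟩ := IsPGroup.iff_card.1 hT₁p
        rw [hk, hl]
        exact Nat.Coprime.pow _ _ ((Nat.coprime_primes hp ht).2 fun h => htN (h ▸ hpN))
    -- T₁ is conjugate to T in M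
    have hT₁c : Nat.card T = Nat.card T₁ := by
      rw [hTc, Subgroup.card_map_of_injective M'.subtype_injective, Sylow.card_eq_multiplicity]
      congr 1
      have hM' : Nat.card M' = Nat.card (M ⊓ G' : Subgroup G) := by
        rw [← Nat.card_congr (Subgroup.subgroupOfEquivOfLe (inf_le_right : M ⊓ G' ≤ G')).toEquiv,
          Subgroup.inf_subgroupOf_right]
      have hMdec : M = (M ⊓ G') ⊔ N := by
        refine le_antisymm (fun a ha => ?_) (sup_le inf_le_left hNM)
        obtain ⟨g, hg, b, hb, rfl⟩ := Subgroup.mem_sup_of_normal_right.1 (hG' ▸ Subgroup.mem_top a : a ∈ G' ⊔ N)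
        have : g ∈ M := by simpa using mul_mem ha (hNM (inv_mem hb))
        exact Subgroup.mul_mem_sup ⟨this, hg⟩ hb
      have hrel : N.relIndex M = Nat.card Fb := by
        have := Subgroup.relIndex_mul_relIndex ⊥ N M bot_le hNM
        rw [Subgroup.relIndex_bot_left, Subgroup.relIndex_bot_left, hcard] at this
        exact Nat.eq_of_mul_eq_mul_left Nat.card_pos this
      have h1 := Subgroup.relIndex_mul_relIndex ⊥ (N ⊓ (M ⊓ G')) (M ⊓ G') bot_le inf_le_right
      rw [Subgroup.relIndex_bot_left, Subgroup.relIndex_bot_left, Subgroup.inf_relIndex_right] at h1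
      have h2 : N.relIndex (M ⊓ G') = Nat.card Fb := by
        rw [← hrel]
        conv_rhs => rw [hMdec]
        rw [Subgroup.relIndex_sup_right]
      rw [hM', ← h1, h2, Nat.factorization_mul (Nat.card_pos).ne' (Nat.card_pos).ne',
        Finsupp.add_apply,
        Nat.factorization_eq_zero_of_not_dvd (fun hd => htN (hd.trans (Subgroup.card_dvd_of_le inf_le_left))),
        zero_add]
    let T₂ : Subgroup G := T₁.map G'.subtype
    have hT₂M : T₂ ≤ M := by
      rintro - ⟨a, ha, rfl⟩
      exact hT₁M a ha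
    have hsyl : ∀ S : Subgroup G, S ≤ M → IsPGroup t S → Nat.card S = t ^ (Nat.card Fb).factorization t →
        ∃ S' : Sylow t M, (S' : Subgroup M) = S.subgroupOf M := by
      intro S hSM hS hSc
      refine ⟨Sylow.ofCard (S.subgroupOf M) ?_, Sylow.coe_ofCard _ _⟩
      rw [Nat.card_congr (Subgroup.subgroupOfEquivOfLe hSM).toEquiv, hSc, hcard,
        Nat.factorization_mul (Nat.card_pos).ne' (Nat.card_pos).ne', Finsupp.add_apply,
        Nat.factorization_eq_zero_of_not_dvd htN, zero_add]
    obtain ⟨S₁, hS₁⟩ := hsyl T hTM hT hTc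
    obtain ⟨S₂, hS₂⟩ := hsyl T₂ hT₂M (hT₁p.map _) (by
      rw [Subgroup.card_map_of_injective G'.subtype_injective, ← hT₁c, hTc])
    obtain ⟨m, hm⟩ := MulAction.exists_smul_eq M S₁ S₂
    refine ⟨m, m.2, fun v hv a ha => ?_⟩
    have hmem : (⟨(m : G) * a * (m : G)⁻¹, mul_mem (mul_mem m.2 (hTM ha)) (inv_mem m.2)⟩ : M) ∈
        (S₂ : Subgroup M) := by
      rw [← hm, Sylow.coe_subgroup_smul, mem_conj_iff, hS₁, Subgroup.mem_subgroupOf]
      simpa [mul_assoc] using ha
    rw [hS₂, Subgroup.mem_subgroupOf] at hmem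
    obtain ⟨b, hb, hb'⟩ := hmem
    change (b : G) = (m : G) * a * (m : G)⁻¹ at hb'
    rw [← hb']
    obtain ⟨k, hk⟩ := hT₁p ⟨b, hb⟩
    refine Commute.symm ?_
    refine Cfsg.Agent.PGroup.commute_of_coprime_of_frattini hP' ?_ b.2 ?_ v hv
    · refine Nat.Coprime.coprime_dvd_left (orderOf_dvd_of_pow_eq_one
        (n := t ^ k) (by simpa using congrArg (fun u : T₁ => ((u : G') : G)) hk)) ?_
      exact Nat.Coprime.pow_left _ ((Nat.coprime_primes ht hp).2 fun h => htN (h ▸ hpN))
    · intro u hu
      have h1 := hfix (QuotientGroup.mk ⟨u, hu⟩) b hb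
      have h2 : (⟨u, hu⟩ : P')⁻¹ * P'.normalizerMonoidHom b ⟨u, hu⟩ ∈ frattini ↥P' := by
        rw [← QuotientGroup.eq]
        exact h1.symm
      exact ⟨_, h2, rfl⟩
  -- a Sylow subgroup of the kernel lands in the centralizer of `N`
  intro f hf
  have hgen : ∀ t : ℕ, t.Prime → t ∣ Nat.card Fb →
      t ^ (Nat.card Fb).factorization t ∣
        Nat.card ((Subgroup.centralizer (N : Set G) ⊓ M).map π : Subgroup (G ⧸ N)) := by
    intro t ht htF
    haveI := Fact.mk ht
    have htN : ¬ t ∣ Nat.card N := fun h => by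
      have := Nat.eq_one_of_dvd_coprimes hcop htF h
      exact ht.ne_one this
    obtain ⟨T₀⟩ := (inferInstance : Nonempty (Sylow t M))
    let T : Subgroup G := (T₀ : Subgroup M).map M.subtype
    have hTM : T ≤ M := Subgroup.map_subtype_le _
    have hTc : Nat.card T = t ^ (Nat.card Fb).factorization t := by
      rw [Subgroup.card_map_of_injective M.subtype_injective, Sylow.card_eq_multiplicity, hcard,
        Nat.factorization_mul (Nat.card_pos).ne' (Nat.card_pos).ne', Finsupp.add_apply,
        Nat.factorization_eq_zero_of_not_dvd htN, zero_add]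
    have hT : IsPGroup t T := T₀.2.map _
    have hcent : T ≤ Subgroup.centralizer (N : Set G) := by
      -- the centralizer of `T` in `N` has full order
      let C : Subgroup N := (Subgroup.centralizer (T : Set G)).subgroupOf N
      suffices hC : C = ⊤ by
        intro a ha
        rw [Subgroup.mem_centralizer_iff]
        intro v hv
        have hvC : (⟨v, hv⟩ : N) ∈ C := hC ▸ Subgroup.mem_top _
        rw [Subgroup.mem_subgroupOf, Subgroup.mem_centralizer_iff] at hvC
        exact (hvC a ha).symm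
      refine Subgroup.eq_top_of_card_eq _ (Nat.dvd_antisymm (Subgroup.card_subgroup_dvd_card _) ?_)
      refine (Nat.factorization_le_iff_dvd (Nat.card_pos).ne' (Nat.card_pos).ne').1 fun p => ?_
      by_cases hpN : p ∈ (Nat.card N).primeFactors
      swap
      · rw [← Nat.support_factorization, Finsupp.notMem_support_iff] at hpN
        rw [hpN]; exact Nat.zero_le _
      rw [Nat.mem_primeFactors] at hpN
      haveI := Fact.mk hpN.1
      obtain ⟨P⟩ := (inferInstance : Nonempty (Sylow p N))
      obtain ⟨m, hm, hcomm⟩ := key t ht T hTM hT htN hTc p hpN.1 hpN.2.1 P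
      refine (hpN.1.pow_dvd_iff_le_factorization (Nat.card_pos).ne').1 ?_
      rw [← Sylow.card_eq_multiplicity P]
      refine Subgroup.card_dvd_of_injective
        ((((MulAut.conjNormal (m⁻¹ : G)).toMonoidHom).comp (P : Subgroup N).subtype).codRestrict C ?_) ?_
      · intro v
        rw [Subgroup.mem_subgroupOf, Subgroup.mem_centralizer_iff]
        intro a ha
        show a * ((MulAut.conjNormal (m⁻¹ : G) (v : N) : N) : G) = ((MulAut.conjNormal (m⁻¹ : G) (v : N) : N) : G) * a
        rw [MulAut.conjNormal_apply, inv_inv]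
        have hc := (hcomm ((v : N) : G) ⟨v, v.2, rfl⟩ a ha).eq
        calc a * (m⁻¹ * ((v : N) : G) * m) = m⁻¹ * ((m * a * m⁻¹) * ((v : N) : G)) * m := by group
          _ = m⁻¹ * (((v : N) : G) * (m * a * m⁻¹)) * m := by rw [hc]
          _ = m⁻¹ * ((v : N) : G) * m * a := by group
      · intro a b hab
        have := congrArg Subtype.val hab
        exact Subtype.ext ((MulAut.conjNormal (m⁻¹ : G)).injective this)
    have hinj : Nat.card (T.map π) = Nat.card T := by
      rw [← Subgroup.relIndex_ker, QuotientGroup.ker_mk', ← Subgroup.inf_relIndex_right]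
      rw [show N ⊓ T = ⊥ from ?_, Subgroup.relIndex_bot_left]
      rw [← disjoint_iff]
      exact (Subgroup.disjoint_of_coprime_natCard (by
        rw [hTc]; exact Nat.Coprime.pow_right _ (ht.coprime_iff_not_dvd.2 htN).symm))
    rw [← hTc, ← hinj]
    exact Subgroup.card_dvd_of_le (Subgroup.map_mono (le_inf hcent hTM))
  have heq : ((Subgroup.centralizer (N : Set G) ⊓ M).map π : Subgroup (G ⧸ N)) = Fb := by
    have hle : ((Subgroup.centralizer (N : Set G) ⊓ M).map π : Subgroup (G ⧸ N)) ≤ Fb := by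
      rintro - ⟨a, ha, rfl⟩
      exact ha.2
    refine Subgroup.eq_of_le_of_card_ge hle (Nat.le_of_dvd Nat.card_pos ?_)
    refine (Nat.factorization_le_iff_dvd (Nat.card_pos).ne' (Nat.card_pos).ne').1 fun t => ?_
    by_cases ht : t ∈ (Nat.card Fb).primeFactors
    · rw [Nat.mem_primeFactors] at ht
      exact (ht.1.pow_dvd_iff_le_factorization (Nat.card_pos).ne').1 (hgen t ht.1 ht.2.1)
    · rw [← Nat.support_factorization, Finsupp.notMem_support_iff] at ht
      rw [ht]; exact Nat.zero_le _
  rw [← heq] at hf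
  obtain ⟨a, ha, rfl⟩ := hf
  exact ⟨a, ha.1, rfl⟩

end Cfsg.Agent.GKTools
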