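import Cfsg.Prelude.Def_ChevG2
import Cfsg.Prelude.Def_Steinberg
import Cfsg.Agent.Leech.F4

/-!
Kernel checks for the six-dimensional representation of the group presented by Steinberg's relations
of type `G₂` over the field with four elements. A row of a matrix is packed into twelve bits.
-/

set_option autoImplicit false
set_option linter.style.haveILetI false
set_option maxRecDepth 20000

namespace Cfsg.Agent.GKTools.G2Model

local notation "F4" => Cfsg.Agent.Plane21.F4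

structure M6 where
  (a b c d e f : ℕ)
  deriving DecidableEq

/-- Multiplication of a row by `w`. -/
def wmul (r : ℕ) : ℕ := ((r >>> 6) &&& 63) ||| (((r &&& 63) ^^^ ((r >>> 6) &&& 63)) <<< 6)

/-- The multiple of a row by the `k`-th entry of `u`. -/
def scal (u k r : ℕ) : ℕ :=
  (bif Nat.testBit u k then r else 0) ^^^ (bif Nat.testBit u (6 + k) then wmul r else 0)

def rowMul (u : ℕ) (B : M6) : ℕ :=
  scal u 0 B.a ^^^ scal u 1 B.b ^^^ scal u 2 B.c ^^^ scal u 3 B.d ^^^ scal u 4 B.e ^^^ scal u 5 B.f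

def mmul (A B : M6) : M6 :=
  ⟨rowMul A.a B, rowMul A.b B, rowMul A.c B, rowMul A.d B, rowMul A.e B, rowMul A.f B⟩

def xorM (A B : M6) : M6 :=
  ⟨A.a ^^^ B.a, A.b ^^^ B.b, A.c ^^^ B.c, A.d ^^^ B.d, A.e ^^^ B.e, A.f ^^^ B.f⟩

def one6 : M6 := ⟨1, 2, 4, 8, 16, 32⟩

def tab : List (List M6) :=
  [[⟨1, 2, 4, 8, 16, 32⟩, ⟨17, 34, 4, 8, 16, 32⟩, ⟨1025, 2050, 4, 8, 16, 32⟩, ⟨1041, 2082, 4, 8, 16, 32⟩],
   [⟨1, 2, 4, 8, 16, 32⟩, ⟨9, 2, 36, 8, 16, 32⟩, ⟨513, 2, 2052, 8, 16, 32⟩, ⟨521, 2, 2084, 8, 16, 32⟩],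
   [⟨1, 2, 4, 8, 16, 32⟩, ⟨33, 10, 20, 8, 16, 32⟩, ⟨2081, 514, 1028, 8, 16, 32⟩, ⟨2049, 522, 1044, 8, 16, 32⟩],
   [⟨1, 2, 4, 8, 16, 32⟩, ⟨5, 18, 4, 40, 16, 32⟩, ⟨257, 1042, 4, 2056, 16, 32⟩, ⟨261, 1026, 4, 2088, 16, 32⟩],
   [⟨1, 2, 4, 8, 16, 32⟩, ⟨3, 2, 12, 8, 48, 32⟩, ⟨129, 2, 524, 8, 2064, 32⟩, ⟨131, 2, 516, 8, 2096, 32⟩],
   [⟨1, 2, 4, 8, 16, 32⟩, ⟨1, 6, 4, 24, 16, 32⟩, ⟨1, 258, 4, 1032, 16, 32⟩, ⟨1, 262, 4, 1048, 16, 32⟩],
   [⟨1, 2, 4, 8, 16, 32⟩, ⟨1, 2, 6, 8, 24, 32⟩, ⟨1, 2, 132, 8, 528, 32⟩, ⟨1, 2, 134, 8, 536, 32⟩],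
   [⟨1, 2, 4, 8, 16, 32⟩, ⟨1, 3, 4, 12, 16, 48⟩, ⟨1, 66, 4, 268, 16, 1056⟩, ⟨1, 67, 4, 264, 16, 1072⟩],
   [⟨1, 2, 4, 8, 16, 32⟩, ⟨1, 2, 5, 8, 18, 40⟩, ⟨1, 2, 68, 8, 146, 544⟩, ⟨1, 2, 69, 8, 144, 552⟩],
   [⟨1, 2, 4, 8, 16, 32⟩, ⟨1, 2, 4, 10, 20, 33⟩, ⟨1, 2, 4, 136, 272, 97⟩, ⟨1, 2, 4, 138, 276, 96⟩],
   [⟨1, 2, 4, 8, 16, 32⟩, ⟨1, 2, 4, 9, 16, 36⟩, ⟨1, 2, 4, 72, 16, 288⟩, ⟨1, 2, 4, 73, 16, 292⟩],
   [⟨1, 2, 4, 8, 16, 32⟩, ⟨1, 2, 4, 8, 17, 34⟩, ⟨1, 2, 4, 8, 80, 160⟩, ⟨1, 2, 4, 8, 81, 162⟩]]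

def root (r : ℕ) (t : F4) : M6 := (tab.getD r []).getD t.code one6

def wordM (w : List (ℕ × F4)) : M6 := w.foldr (fun p acc => mmul (root p.1 p.2) acc) one6

def els : List F4 := [Cfsg.Agent.Plane21.F4.z, Cfsg.Agent.Plane21.F4.o, Cfsg.Agent.Plane21.F4.w, Cfsg.Agent.Plane21.F4.u]

theorem mem_els (t : F4) : t ∈ els := by revert t; decide

def bitV (b : Bool) (x : F4) : F4 := bif b then x else 0

/-- The entry `j` of a packed row. -/
def ent (r : ℕ) (j : Fin 6) : F4 :=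
  bitV (r.testBit j) 1 + bitV (r.testBit (6 + j)) Cfsg.Agent.Plane21.F4.w

def toM (A : M6) : Matrix (Fin 6) (Fin 6) F4 :=
  Matrix.of ![ent A.a, ent A.b, ent A.c, ent A.d, ent A.e, ent A.f]

theorem ent_xor (r s : ℕ) (j : Fin 6) : ent (r ^^^ s) j = ent r j + ent s j := by
  simp only [ent, Nat.testBit_xor]
  generalize r.testBit j = a
  generalize s.testBit j = b
  generalize r.testBit (6 + j) = c
  generalize s.testBit (6 + j) = d
  revert a b c d
  decide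

theorem ent_wmul (r : ℕ) (j : Fin 6) : ent (wmul r) j = Cfsg.Agent.Plane21.F4.w * ent r j := by
  have h63 : Nat.testBit 63 j = true := by fin_cases j <;> decide
  have h63' : Nat.testBit 63 (6 + j) = false := by fin_cases j <;> decide
  have h1 : (wmul r).testBit j = r.testBit (6 + j) := by
    simp [wmul, Nat.testBit_or, Nat.testBit_shiftLeft, Nat.testBit_shiftRight, Nat.testBit_and, h63]
  have h2 : (wmul r).testBit (6 + j) = xor (r.testBit j) (r.testBit (6 + j)) := by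
    simp [wmul, Nat.testBit_or, Nat.testBit_shiftLeft, Nat.testBit_shiftRight, Nat.testBit_and, h63, h63']
  simp only [ent, h1, h2]
  generalize r.testBit j = a
  generalize r.testBit (6 + j) = b
  revert a b
  decide

theorem ent_zero (j : Fin 6) : ent 0 j = 0 := by
  simp only [ent, Nat.zero_testBit]; decide

theorem ent_scal (u r : ℕ) (k j : Fin 6) : ent (scal u k r) j = ent u k * ent r j := by
  rw [scal, ent_xor]
  show ent (bif u.testBit k then r else 0) j + ent (bif u.testBit (6 + k) then wmul r else 0) j =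
    (bitV (u.testBit k) 1 + bitV (u.testBit (6 + k)) Cfsg.Agent.Plane21.F4.w) * ent r j
  cases u.testBit k <;> cases u.testBit (6 + k) <;>
    simp [bitV, ent_zero, ent_wmul, add_mul]

theorem toM_mul (A B : M6) : toM (mmul A B) = toM A * toM B := by
  have key : ∀ u : ℕ, ∀ j, ent (rowMul u B) j = ∑ k, ent u k * toM B k j := by
    intro u j
    simp only [rowMul, ent_xor, Fin.sum_univ_six, toM, Matrix.of_apply]
    rw [show ent (scal u 0 B.a) j = ent u 0 * ent B.a j from ent_scal u B.a 0 j,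
      show ent (scal u 1 B.b) j = ent u 1 * ent B.b j from ent_scal u B.b 1 j,
      show ent (scal u 2 B.c) j = ent u 2 * ent B.c j from ent_scal u B.c 2 j,
      show ent (scal u 3 B.d) j = ent u 3 * ent B.d j from ent_scal u B.d 3 j,
      show ent (scal u 4 B.e) j = ent u 4 * ent B.e j from ent_scal u B.e 4 j,
      show ent (scal u 5 B.f) j = ent u 5 * ent B.f j from ent_scal u B.f 5 j]
    rfl
  ext i j
  rw [Matrix.mul_apply]
  fin_cases i <;> exact key _ j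

theorem toM_xor (A B : M6) : toM (xorM A B) = toM A + toM B := by
  ext i j
  fin_cases i <;> exact ent_xor _ _ j

theorem toM_one6 : toM one6 = 1 := by decide +kernel

def okAdd : Bool :=
  (List.range 12).all fun r => els.all fun t => els.all fun u =>
    decide (mmul (root r t) (root r u) = root r (t + u))

def okComm : Bool :=
  (List.range 12).all fun r => (List.range 12).all fun s =>
    if s = r ∨ s = Cfsg.Lie.chevG2.neg r then true else
      els.all fun t => els.all fun u =>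
        decide (wordM [(s, u), (r, t), (s, u), (r, t)] = wordM (Cfsg.Lie.chevG2.commWord F4 r s t u)) &&
          (Cfsg.Lie.chevG2.commWord F4 r s t u).all fun p => decide (p.1 < 12)

def okH : Bool :=
  (List.range 12).all fun r => els.all fun t => els.all fun u =>
    if t = 0 ∨ u = 0 then true else
      decide (mmul (wordM (Cfsg.Lie.chevG2.hWord r t)) (wordM (Cfsg.Lie.chevG2.hWord r u)) =
        wordM (Cfsg.Lie.chevG2.hWord r (t * u))) && decide (Cfsg.Lie.chevG2.neg r < 12)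

theorem okAdd_true : okAdd = true := by decide +kernel
theorem okComm_true : okComm = true := by decide +kernel
theorem okH_true : okH = true := by decide +kernel

theorem root_sq (r : ℕ) (hr : r < 12) (t : F4) : toM (root r t) * toM (root r t) = 1 := by
  have h : ∀ r < 12, ∀ t ∈ els, mmul (root r t) (root r t) = one6 := by decide +kernel
  rw [← toM_mul, h r hr t (mem_els t), toM_one6]

end Cfsg.Agent.GKTools.G2Model
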