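import Cfsg.Agent.GKTools.G2Checks

/-!
The six-dimensional representation of the group presented by Steinberg's relations of type `G₂`
over the field with four elements.
-/

set_option autoImplicit false
set_option maxRecDepth 20000

namespace Cfsg.Agent.GKTools.G2Model

open Cfsg.Agent.Plane21

local notation "F4" => Cfsg.Agent.Plane21.F4

/-- The root element as a unit. -/
def rootU (r : Fin 12) (t : F4) : GL (Fin 6) F4 :=
  ⟨toM (root r t), toM (root r t), root_sq r r.2 t, root_sq r r.2 t⟩

/-- The image of a generator. -/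
def genImg : Fin Cfsg.Lie.chevG2.nroots × F4 → GL (Fin 6) F4 := fun p => rootU ⟨p.1.1, p.1.2⟩ p.2

theorem lift_stX (r : ℕ) (hr : r < 12) (t : F4) :
    FreeGroup.lift genImg (Cfsg.Lie.chevG2.stX r t) = rootU ⟨r, hr⟩ t := by
  have h : r < Cfsg.Lie.chevG2.nroots := hr
  rw [Cfsg.Lie.ChevalleyDatum.stX, dif_pos h, FreeGroup.lift_apply_of]
  rfl

theorem val_lift_word (w : List (ℕ × F4)) (hw : ∀ p ∈ w, p.1 < 12) :
    ((FreeGroup.lift genImg (Cfsg.Lie.chevG2.stWord w) : GL (Fin 6) F4) : Matrix (Fin 6) (Fin 6) F4) = toM (wordM w) := by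
  induction w with
  | nil => simp [Cfsg.Lie.ChevalleyDatum.stWord, wordM, toM_one6]
  | cons p w ih =>
    have ih' := ih fun q hq => hw q (List.mem_cons_of_mem _ hq)
    simp only [Cfsg.Lie.ChevalleyDatum.stWord, List.map_cons, List.prod_cons, map_mul, Units.val_mul] at ih' ⊢
    rw [ih', lift_stX p.1 (hw p (List.mem_cons_self)) p.2]
    simp only [rootU, wordM, List.foldr_cons, toM_mul]

theorem rels_ok : ∀ g ∈ Cfsg.Lie.chevG2.steinbergRels F4, FreeGroup.lift genImg g = 1 := by
  have inv_rootU : ∀ (r : Fin 12) (t : F4), (rootU r t)⁻¹ = rootU r t := fun r t => Units.ext rfl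
  rintro g ((⟨r, t, u, hr, rfl⟩ | ⟨r, s, t, u, hr, hs, hsr, hsn, rfl⟩) | ⟨r, t, u, hr, ht, hu, rfl⟩)
  · rw [map_mul, map_mul, map_inv, mul_inv_eq_one, lift_stX r hr, lift_stX r hr, lift_stX r hr]
    refine Units.ext ?_
    show toM (root r t) * toM (root r u) = toM (root r (t + u))
    have h := okAdd_true
    simp only [okAdd, List.all_eq_true, List.mem_range, decide_eq_true_eq] at h
    rw [← toM_mul, h r hr t (mem_els t) u (mem_els u)]
  · have h := okComm_true
    simp only [okComm, List.all_eq_true, List.mem_range] at h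
    have h' := h r hr s hs
    rw [if_neg (not_or.2 ⟨hsr, hsn⟩)] at h'
    simp only [List.all_eq_true, Bool.and_eq_true, decide_eq_true_eq] at h'
    obtain ⟨h1, h2⟩ := h' t (mem_els t) u (mem_els u)
    simp only [map_mul, map_inv, mul_inv_eq_one, lift_stX r hr, lift_stX s hs, inv_rootU]
    refine Units.ext ?_
    rw [val_lift_word _ h2, ← h1]
    simp only [wordM, List.foldr_cons, List.foldr_nil, toM_mul, toM_one6, mul_one, Units.val_mul, rootU,
      Matrix.mul_assoc]
  · have h := okH_true
    simp only [okH, List.all_eq_true, List.mem_range] at h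
    have h' := h r hr t (mem_els t) u (mem_els u)
    rw [if_neg (not_or.2 ⟨ht, hu⟩)] at h'
    simp only [Bool.and_eq_true, decide_eq_true_eq] at h'
    have hw : ∀ x : F4, ∀ p ∈ Cfsg.Lie.chevG2.hWord r x, p.1 < 12 := by
      intro x p hp
      simp only [Cfsg.Lie.ChevalleyDatum.hWord, Cfsg.Lie.ChevalleyDatum.nWord, List.cons_append,
        List.nil_append, List.mem_cons, List.not_mem_nil, or_false] at hp
      rcases hp with rfl | rfl | rfl | rfl | rfl | rfl <;> first | exact hr | exact h'.2
    simp only [map_mul, map_inv, mul_inv_eq_one]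
    refine Units.ext ?_
    rw [Units.val_mul]
    simp only [Cfsg.Lie.ChevalleyDatum.stH]
    rw [val_lift_word _ (hw t), val_lift_word _ (hw u), val_lift_word _ (hw (t * u)), ← toM_mul, h'.1]

/-- The six-dimensional representation. -/
def hom : Cfsg.Lie.chevG2.SteinbergGroup F4 →* GL (Fin 6) F4 := PresentedGroup.toGroup rels_ok

theorem val_hom_word (w : List (ℕ × F4)) (hw : ∀ p ∈ w, p.1 < 12) :
    ((hom (PresentedGroup.mk (Cfsg.Lie.chevG2.steinbergRels F4) (Cfsg.Lie.chevG2.stWord w)) :
      GL (Fin 6) F4) : Matrix (Fin 6) (Fin 6) F4) = toM (wordM w) := by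
  rw [← val_lift_word w hw]
  rfl

end Cfsg.Agent.GKTools.G2Model
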