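import Cfsg.Agent.GKTools.Unbounded
import Cfsg.Agent.GKTools.G2Model
import Cfsg.Agent.S1059
import Cfsg.Agent.S1055
import Cfsg.Agent.S1077
import Cfsg.Agent.S1078

/-!
`G₂(4)` on its natural module of dimension 6: elements of order 7 and 13 are fixed-point-free, so
the extensions `V^k ⋊ G₂(4)` have the prime graph of `G₂(4)`.
-/

set_option autoImplicit false
set_option linter.style.haveILetI false

namespace Cfsg.Agent.GKTools.G2Four

open Cfsg.Agent.GKTools.G2Model

local notation "F4" => Cfsg.Agent.Plane21.F4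
/-- The Chevalley group of type `G₂` over four elements. -/
abbrev L : Type := ↥(Cfsg.Lie.chevG2.group F4)

def powM (A : M6) : ℕ → M6
  | 0 => one6
  | n + 1 => mmul (powM A n) A

theorem powM_spec (A : M6) : ∀ n, toM (powM A n) = toM A ^ n
  | 0 => by rw [powM, toM_one6, pow_zero]
  | n + 1 => by rw [powM, toM_mul, powM_spec A n, pow_succ]

open Cfsg.Agent.Plane21.F4 in
def w6 : List (ℕ × F4) := [(4, o), (7, o), (0, w)]
open Cfsg.Agent.Plane21.F4 in
def w10 : List (ℕ × F4) := [(6, u), (0, w), (7, o)]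
open Cfsg.Agent.Plane21.F4 in
def w7 : List (ℕ × F4) := [(5, w), (4, u), (11, w), (7, w)]
open Cfsg.Agent.Plane21.F4 in
def w13 : List (ℕ × F4) := [(4, o), (7, w), (5, u), (6, o)]

/-- Inverse of `g + 1` for the element of order 7. -/
def inv7 : M6 := ⟨3735, 2874, 3601, 1389, 2144, 461⟩

/-- Inverse of `g + 1` for the element of order 13. -/
def inv13 : M6 := ⟨682, 3, 2595, 15, 2095, 63⟩

theorem w_ok :
    (∀ p ∈ w6 ++ w10 ++ w7 ++ w13, p.1 < 12) ∧
    powM (wordM w6) 6 = one6 ∧ toM (powM (wordM w6) 3) ≠ 1 ∧ toM (powM (wordM w6) 2) ≠ 1 ∧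
    powM (wordM w10) 10 = one6 ∧ toM (powM (wordM w10) 5) ≠ 1 ∧ toM (powM (wordM w10) 2) ≠ 1 ∧
    powM (wordM w7) 7 = one6 ∧ toM (wordM w7) ≠ 1 ∧ powM (wordM w13) 13 = one6 ∧ toM (wordM w13) ≠ 1 ∧
    mmul inv7 (xorM (wordM w7) one6) = one6 ∧ mmul inv13 (xorM (wordM w13) one6) = one6 := by
  decide +kernel

/-- There is a faithful six-dimensional representation realising the words. -/
theorem exists_rep : ∃ (ρ : L →* GL (Fin 6) F4), Function.Injective ρ ∧
    ∀ w : List (ℕ × F4), (∀ p ∈ w, p.1 < 12) →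
      ∃ g : L, ((ρ g : GL (Fin 6) F4) : Matrix (Fin 6) (Fin 6) F4) = toM (wordM w) := by
  obtain ⟨θ, hsurj, hker, -⟩ := S1077.result (K := F4) Cfsg.Lie.chevG2 (by simp)
  have hinj : Function.Injective θ := (MonoidHom.ker_eq_bot_iff θ).1
    (by rw [hker, S1078.result (K := F4) Cfsg.Lie.chevG2 (by simp)])
  let e := MulEquiv.ofBijective θ ⟨hinj, hsurj⟩
  let ρ : L →* GL (Fin 6) F4 := hom.comp e.symm.toMonoidHom
  have hword : ∀ w : List (ℕ × F4), (∀ p ∈ w, p.1 < 12) →
      ∃ g : L, ((ρ g : GL (Fin 6) F4) : Matrix (Fin 6) (Fin 6) F4) = toM (wordM w) := by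
    intro w hw
    refine ⟨e (PresentedGroup.mk _ (Cfsg.Lie.chevG2.stWord w)), ?_⟩
    simp only [ρ, MonoidHom.comp_apply, MulEquiv.coe_toMonoidHom, MulEquiv.symm_apply_apply]
    exact val_hom_word w hw
  refine ⟨ρ, ?_, hword⟩
  haveI := (S1055.result (F := F4) ⟨Cfsg.Agent.Plane21.F4.w, by decide, by decide⟩).1
  rcases ρ.normal_ker.eq_bot_or_eq_top with h | h
  · exact (MonoidHom.ker_eq_bot_iff ρ).1 h
  · exfalso
    obtain ⟨g, hg⟩ := hword w7 fun p hp => w_ok.1 p (by simp [hp])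
    have hm : g ∈ ρ.ker := h ▸ Subgroup.mem_top g
    rw [MonoidHom.mem_ker.1 hm, Units.val_one] at hg
    exact w_ok.2.2.2.2.2.2.2.2.1 hg.symm

theorem card_L : Nat.card L = 2 ^ 12 * 3 ^ 3 * 5 ^ 2 * 7 * 13 := by
  rw [S1059.result (q := 4) Cfsg.Agent.Plane21.F4.card_F4]; norm_num

theorem exists_large (N : ℕ) :
    ∃ (H : Type) (_ : Group H) (_ : Finite H), N < Nat.card H ∧ SamePrimeGraph L H := by
  obtain ⟨ρ, hinj, hword⟩ := exists_rep
  obtain ⟨hlt, a6, a6', a6'', b10, b10', b10'', c7, c7', d13, d13', i7, i13⟩ := w_ok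
  have hord : ∀ (w : List (ℕ × F4)) (n : ℕ), (∀ p ∈ w, p.1 < 12) → 0 < n → powM (wordM w) n = one6 →
      (∀ p : ℕ, p.Prime → p ∣ n → toM (powM (wordM w) (n / p)) ≠ 1) →
      ∃ g : L, ((ρ g : GL (Fin 6) F4) : Matrix (Fin 6) (Fin 6) F4) = toM (wordM w) ∧ orderOf g = n := by
    intro w n hw hn h1 h2
    obtain ⟨g, hg⟩ := hword w hw
    have hp : ∀ m, (g ^ m = 1 ↔ toM (powM (wordM w) m) = 1) := fun m => by
      constructor
      · intro h
        rw [powM_spec, ← hg, ← Units.val_pow_eq_pow_val, ← map_pow, h, map_one, Units.val_one]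
      · intro h
        refine hinj (Units.ext ?_)
        rw [map_pow, map_one, Units.val_pow_eq_pow_val, hg, ← powM_spec, h, Units.val_one]
    exact ⟨g, hg, orderOf_eq_of_pow_and_pow_div_prime hn ((hp n).2 (by rw [h1, toM_one6]))
      fun p hpp hpn h => h2 p hpp hpn ((hp _).1 h)⟩
  have prime_case : ∀ (w : List (ℕ × F4)) (r : ℕ), r.Prime → (∀ p ∈ w, p.1 < 12) →
      powM (wordM w) r = one6 → toM (wordM w) ≠ 1 →
      ∃ g : L, ((ρ g : GL (Fin 6) F4) : Matrix (Fin 6) (Fin 6) F4) = toM (wordM w) ∧ orderOf g = r := by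
    intro w r hr hw h1 h2
    refine hord w r hw hr.pos h1 fun p hp hpr => ?_
    rw [(Nat.prime_dvd_prime_iff_eq hp hr).1 hpr, Nat.div_self hr.pos, powM_spec, pow_one]
    exact h2
  have two : ∀ (w : List (ℕ × F4)) (a b : ℕ), a.Prime → b.Prime → (∀ p ∈ w, p.1 < 12) →
      powM (wordM w) (a * b) = one6 → toM (powM (wordM w) b) ≠ 1 → toM (powM (wordM w) a) ≠ 1 →
      ∃ g : L, orderOf g = a * b := by
    intro w a b ha hb hw h1 h2 h3
    obtain ⟨g, -, hg⟩ := hord w (a * b) hw (Nat.mul_pos ha.pos hb.pos) h1 fun p hp hpn => by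
      rcases hp.dvd_mul.1 hpn with h | h
      · rw [(Nat.prime_dvd_prime_iff_eq hp ha).1 h, Nat.mul_div_cancel_left _ ha.pos]; exact h2
      · rw [(Nat.prime_dvd_prime_iff_eq hp hb).1 h, Nat.mul_div_cancel _ hb.pos]; exact h3
    exact ⟨g, hg⟩
  let gl : GL (Fin 6) F4 →* MulAut (Multiplicative (Fin 6 → F4)) :=
    { toFun := fun g => AddEquiv.toMultiplicative
        { toFun := fun v => (g : Matrix (Fin 6) (Fin 6) F4).mulVec v
          invFun := fun v => ((g⁻¹ : GL (Fin 6) F4) : Matrix (Fin 6) (Fin 6) F4).mulVec v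
          left_inv := fun v => by simp only [Matrix.mulVec_mulVec, Units.inv_mul, Matrix.one_mulVec]
          right_inv := fun v => by simp only [Matrix.mulVec_mulVec, Units.mul_inv, Matrix.one_mulVec]
          map_add' := fun v v' => Matrix.mulVec_add _ _ _ }
      map_one' := MulEquiv.ext fun v => Multiplicative.toAdd.injective (by
        show ((1 : GL (Fin 6) F4) : Matrix (Fin 6) (Fin 6) F4).mulVec (Multiplicative.toAdd v) = Multiplicative.toAdd v
        rw [Units.val_one, Matrix.one_mulVec])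
      map_mul' := fun g h => MulEquiv.ext fun v => Multiplicative.toAdd.injective (by
        show ((g * h : GL (Fin 6) F4) : Matrix (Fin 6) (Fin 6) F4).mulVec (Multiplicative.toAdd v) =
          (g : Matrix (Fin 6) (Fin 6) F4).mulVec ((h : Matrix (Fin 6) (Fin 6) F4).mulVec (Multiplicative.toAdd v))
        rw [Units.val_mul, Matrix.mulVec_mulVec]) }
  refine exists_samePrimeGraph_large (gl.comp ρ) 2 Nat.prime_two
    (fun v => ⟨1, Multiplicative.toAdd.injective ?_⟩) (by rw [card_L]; norm_num) ?_ N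
  · rw [pow_one, toAdd_pow, toAdd_one]
    funext i
    rw [Pi.smul_apply, Pi.zero_apply, two_nsmul]
    exact (by decide : ∀ x : F4, x + x = 0) _
  intro x r hr hr2 hx v hv hfix
  have hfpf : ∀ (w : List (ℕ × F4)) (inv : M6), (∀ p ∈ w, p.1 < 12) → powM (wordM w) r = one6 →
      toM (wordM w) ≠ 1 → mmul inv (xorM (wordM w) one6) = one6 → (Nat.card L).factorization r = 1 → False := by
    intro w inv hw h1 h2 hi0 hf
    have hi : toM inv * (toM (wordM w) + 1) = 1 := by
      rw [← toM_one6, ← toM_xor, ← toM_mul, hi0]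
    haveI := Fact.mk hr
    obtain ⟨g, hg, hgo⟩ := prime_case w r hr hw h1 h2
    let P : Sylow r L := Sylow.ofCard (Subgroup.zpowers x) (by rw [Nat.card_zpowers, hx, hf, pow_one])
    let Q : Sylow r L := Sylow.ofCard (Subgroup.zpowers g) (by rw [Nat.card_zpowers, hgo, hf, pow_one])
    obtain ⟨k, hk⟩ := MulAction.exists_smul_eq L P Q
    have hmem : g ∈ (k • P : Sylow r L) := by rw [hk]; exact Subgroup.mem_zpowers g
    obtain ⟨z, hz, hzg⟩ := hmem
    have hzfix : (gl.comp ρ) z v = v := by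
      have : Subgroup.zpowers x ≤ (MulAction.stabilizer (MulAut (Multiplicative (Fin 6 → F4))) v).comap (gl.comp ρ) :=
        Subgroup.zpowers_le.2 hfix
      exact this hz
    have hg' : g = k * z * k⁻¹ := hzg.symm
    set u := (gl.comp ρ) k v with hu
    have hgu : (gl.comp ρ) g u = u := by
      rw [hu, hg', ← MulAut.mul_apply, ← map_mul, inv_mul_cancel_right, map_mul, MulAut.mul_apply, hzfix]
    have h0 : Multiplicative.toAdd u = 0 := by
      set a := Multiplicative.toAdd u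
      have e : (toM (wordM w)).mulVec a = a := by rw [← hg]; exact congrArg Multiplicative.toAdd hgu
      have := congrArg (fun A : Matrix (Fin 6) (Fin 6) F4 => A.mulVec a) hi
      simp only [Matrix.one_mulVec, ← Matrix.mulVec_mulVec, Matrix.add_mulVec, e] at this
      rw [show a + a = 0 from funext fun i => (by decide : ∀ y : F4, y + y = 0) _, Matrix.mulVec_zero] at this
      exact this.symm
    refine hv ((MulEquiv.map_eq_one_iff ((gl.comp ρ) k)).1 ?_)
    exact Multiplicative.toAdd.injective h0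
  have hdvd : r ∣ Nat.card L := hx ▸ orderOf_dvd_natCard x
  have hfac : r = 7 ∨ r = 13 → (Nat.card L).factorization r = 1 := by
    intro h
    rw [card_L]
    refine le_antisymm ?_ (hr.factorization_pos_of_dvd (by norm_num) (card_L ▸ hdvd))
    by_contra hc
    push Not at hc
    have := (hr.pow_dvd_iff_le_factorization (k := 2) (by norm_num)).2 hc
    rcases h with rfl | rfl <;> norm_num at this
  rw [card_L] at hdvd
  simp only [hr.dvd_mul] at hdvd
  rcases hdvd with (((h | h) | h) | h) | h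
  · exact absurd ((Nat.prime_dvd_prime_iff_eq hr Nat.prime_two).1 (hr.dvd_of_dvd_pow h)) hr2
  · obtain rfl := (Nat.prime_dvd_prime_iff_eq hr Nat.prime_three).1 (hr.dvd_of_dvd_pow h)
    exact two w6 2 3 Nat.prime_two Nat.prime_three (fun p hp => hlt p (by simp [hp])) a6 a6' a6''
  · obtain rfl := (Nat.prime_dvd_prime_iff_eq hr (by norm_num)).1 (hr.dvd_of_dvd_pow h)
    exact two w10 2 5 Nat.prime_two (by norm_num) (fun p hp => hlt p (by simp [hp])) b10 b10' b10''
  · obtain rfl := (Nat.prime_dvd_prime_iff_eq hr (by norm_num)).1 h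
    exact (hfpf w7 inv7 (fun p hp => hlt p (by simp [hp])) c7 c7' i7 (hfac (Or.inl rfl))).elim
  · obtain rfl := (Nat.prime_dvd_prime_iff_eq hr (by norm_num)).1 h
    exact (hfpf w13 inv13 (fun p hp => hlt p (by simp [hp])) d13 d13' i13 (hfac (Or.inr rfl))).elim

end Cfsg.Agent.GKTools.G2Four
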