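import Mathlib

/-!
For a finite set `P` of odd primes and `M = ∏ P`, the solvable groups `W^(k) ⋊ C`, with `C` cyclic of
order `M` and `W = ⊕_p` (augmentation module of `C_p` over `F₂`), have as element orders exactly
the proper divisors of `2M`.
-/

set_option autoImplicit false
set_option linter.style.haveILetI false

namespace Cfsg.Agent.GKTools.ProperDiv

variable (P : Finset ℕ) (k : ℕ)

/-- The acting group. -/
abbrev Top : Type := (p : {p // p ∈ P}) → Multiplicative (ZMod p.1)

/-- Vectors: for each copy and each `p`, a function on `ZMod p`. -/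
abbrev Fun : Type := Fin k → (p : {p // p ∈ P}) → ZMod p.1 → ZMod 2

/-- Translation by an element of the top group. -/
def shift (c : Top P) : Fun P k →+ Fun P k where
  toFun f := fun j p x => f j p (x + (c p).toAdd)
  map_zero' := rfl
  map_add' _ _ := rfl

variable [hne : ∀ p : {p // p ∈ P}, NeZero p.1]

/-- The augmentation submodule. -/
def aug : AddSubgroup (Fun P k) where
  carrier := {f | ∀ j p, ∑ x, f j p x = 0}
  add_mem' := by
    intro f g hf hg j p
    simp [Finset.sum_add_distrib, hf j p, hg j p]
  zero_mem' := by intro j p; simp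
  neg_mem' := by intro f hf j p; simp [hf j p]

theorem shift_mem (c : Top P) {f : Fun P k} (hf : f ∈ aug P k) : shift P k c f ∈ aug P k := by
  intro j p
  rw [← hf j p]
  exact Fintype.sum_equiv (Equiv.addRight (c p).toAdd) _ _ fun x => rfl

/-- The action. -/
def act : Top P →* MulAut (Multiplicative (aug P k)) where
  toFun c := AddEquiv.toMultiplicative
    { toFun := fun f => ⟨shift P k c f.1, shift_mem P k c f.2⟩
      invFun := fun f => ⟨shift P k c⁻¹ f.1, shift_mem P k c⁻¹ f.2⟩
      left_inv := fun f => Subtype.ext (by funext j p x; simp [shift])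
      right_inv := fun f => Subtype.ext (by funext j p x; simp [shift])
      map_add' := fun f g => Subtype.ext (map_add (shift P k c) f.1 g.1) }
  map_one' := MulEquiv.ext fun f => Multiplicative.toAdd.injective (Subtype.ext (by
    funext j p x; exact congrArg (f.toAdd.1 j p) (add_zero x)))
  map_mul' c d := MulEquiv.ext fun f => Multiplicative.toAdd.injective (Subtype.ext (by
    funext j p x
    show f.toAdd.1 j p (x + ((c p).toAdd + (d p).toAdd)) = f.toAdd.1 j p (x + (c p).toAdd + (d p).toAdd)
    rw [add_assoc]))

/-- The group. -/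
abbrev Model : Type := Multiplicative (aug P k) ⋊[act P k] Top P

instance : Finite (Model P k) := Finite.of_equiv _ SemidirectProduct.equivProd.symm

theorem sq_aug (w : Multiplicative (aug P k)) : w ^ 2 = 1 := by
  apply Multiplicative.toAdd.injective
  rw [toAdd_pow, toAdd_one]
  apply Subtype.ext
  funext j p x
  simp [CharTwo.two_eq_zero]

theorem pow_card_top (c : Top P) : c ^ (∏ p ∈ P, p) = 1 := by
  funext p
  rw [Pi.pow_apply, Pi.one_apply]
  apply Multiplicative.toAdd.injective
  rw [toAdd_pow, toAdd_one]
  obtain ⟨e, he⟩ : p.1 ∣ ∏ q ∈ P, q := Finset.dvd_prod_of_mem _ p.2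
  rw [he, nsmul_eq_mul, Nat.cast_mul, ZMod.natCast_self, zero_mul, zero_mul]

theorem exists_inl_of_pow {x : Model P k} {d : ℕ} (h : x.right ^ d = 1) :
    ∃ w, (SemidirectProduct.inl w : Model P k) = x ^ d := by
  refine ⟨(x ^ d).left, SemidirectProduct.ext rfl ?_⟩
  have := map_pow (SemidirectProduct.rightHom : Model P k →* Top P) x d
  rw [SemidirectProduct.rightHom_eq_right] at this
  rw [SemidirectProduct.right_inl, this, h]

theorem pow_two_mul {x : Model P k} {d : ℕ} (h : x.right ^ d = 1) : x ^ (d * 2) = 1 := by
  obtain ⟨w, hw⟩ := exists_inl_of_pow P k h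
  rw [pow_mul, ← hw, ← map_pow, sq_aug, map_one]

/-- Element orders of the model. -/
theorem range_orderOf (hk : 0 < k) (hP : ∀ p ∈ P, p.Prime) (h2 : 2 ∉ P) :
    Set.range (orderOf : Model P k → ℕ) =
      {d | d ∣ 2 * ∏ p ∈ P, p ∧ d ≠ 2 * ∏ p ∈ P, p} := by
  classical
  set M := ∏ p ∈ P, p with hM
  have hM0 : 0 < M := Finset.prod_pos fun p hp => (hP p hp).pos
  have hdiv : ∀ p : {p // p ∈ P}, p.1 ∣ M := fun p => Finset.dvd_prod_of_mem _ p.2
  ext d
  constructor
  · rintro ⟨x, rfl⟩
    refine ⟨orderOf_dvd_of_pow_eq_one (by rw [mul_comm]; exact pow_two_mul P k (pow_card_top P x.right)), ?_⟩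
    intro ho
    -- every component of the top part is non-trivial
    have hcomp : ∀ p, x.right p ≠ 1 := by
      intro p hp
      have hd : x.right ^ (M / p.1) = 1 := by
        funext q
        rw [Pi.pow_apply, Pi.one_apply]
        rcases eq_or_ne q p with rfl | hqp
        · rw [hp, one_pow]
        · have : q.1 ∣ M / p.1 := by
            refine Nat.dvd_div_of_mul_dvd ?_
            exact ((Nat.coprime_primes (hP _ p.2) (hP _ q.2)).2
              (fun e => hqp (Subtype.ext e.symm))).mul_dvd_of_dvd_of_dvd (hdiv p) (hdiv q)
          obtain ⟨e, he⟩ := this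
          apply Multiplicative.toAdd.injective
          rw [toAdd_pow, toAdd_one, he, nsmul_eq_mul, Nat.cast_mul, ZMod.natCast_self, zero_mul, zero_mul]
      have h := Nat.le_of_dvd (Nat.mul_pos (Nat.div_pos (Nat.le_of_dvd hM0 (hdiv p)) (hP _ p.2).pos) two_pos)
        (orderOf_dvd_of_pow_eq_one (pow_two_mul P k hd))
      rw [ho] at h
      have := Nat.div_lt_self hM0 (hP _ p.2).one_lt
      omega
    obtain ⟨w, hw⟩ := exists_inl_of_pow P k (pow_card_top P x.right)
    have hc : x * SemidirectProduct.inl w = SemidirectProduct.inl w * x := by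
      rw [hw, ← pow_succ, ← pow_succ']
    have hl := congrArg SemidirectProduct.left hc
    simp only [SemidirectProduct.mul_left, SemidirectProduct.left_inl, SemidirectProduct.right_inl,
      map_one, MulAut.one_apply] at hl
    rw [mul_comm w] at hl
    have hfix : act P k x.right w = w := mul_left_cancel hl
    have hw1 : w = 1 := by
      apply Multiplicative.toAdd.injective
      apply Subtype.ext
      funext j p y
      haveI := Fact.mk (hP _ p.2)
      set f := w.toAdd.1 j p with hf
      set a := (x.right p).toAdd with ha
      have ha0 : a ≠ 0 := fun e => hcomp p (Multiplicative.toAdd.injective e)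
      have hper : ∀ z, f (z + a) = f z := fun z =>
        congrFun (congrFun (congrFun (congrArg (fun u => (Multiplicative.toAdd u).1) hfix) j) p) z
      have hper' : ∀ (n : ℕ) z, f (z + n • a) = f z := by
        intro n
        induction n with
        | zero => intro z; simp
        | succ n ih => intro z; rw [succ_nsmul, ← add_assoc, hper, ih]
      have hconst : ∀ z, f z = f y := fun z => by
        have := hper' ((z - y) * a⁻¹).val y
        rwa [nsmul_eq_mul, ZMod.natCast_zmod_val, mul_assoc, inv_mul_cancel₀ ha0, mul_one,
          add_sub_cancel] at this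
      have hsum : ∑ z, f z = 0 := w.toAdd.2 j p
      rw [Finset.sum_congr rfl fun z _ => hconst z, Finset.sum_const, Finset.card_univ, ZMod.card,
        nsmul_eq_mul] at hsum
      have hodd : ((p.1 : ℕ) : ZMod 2) = 1 := by
        rw [ZMod.natCast_eq_one_iff_odd]
        exact (hP _ p.2).odd_of_ne_two fun e => h2 (e ▸ p.2)
      rw [hodd, one_mul] at hsum
      show f y = 0
      exact hsum
    rw [hw1, map_one] at hw
    have := Nat.le_of_dvd hM0 (orderOf_dvd_of_pow_eq_one hw.symm)
    omega
  · rintro ⟨hd, hne'⟩
    have hd0 : d ≠ 0 := fun e => by subst e; exact hne' (Nat.eq_zero_of_zero_dvd hd).symm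
    obtain ⟨q, hq, hqd⟩ : ∃ q, q.Prime ∧ d * q ∣ 2 * M := by
      obtain ⟨e, he⟩ := hd
      have he1 : e ≠ 1 := fun h => hne' (by rw [he, h, mul_one])
      exact ⟨e.minFac, Nat.minFac_prime he1, by rw [he]; exact mul_dvd_mul_left d e.minFac_dvd⟩
    let c : Top P := fun p => Multiplicative.ofAdd 1
    have hc : orderOf c = M := by
      refine Nat.dvd_antisymm (orderOf_dvd_of_pow_eq_one (pow_card_top P c)) ?_
      refine Finset.prod_primes_dvd (s := P) _ (fun p hp => (hP p hp).prime) fun p hp => ?_
      have := congrFun (pow_orderOf_eq_one c) ⟨p, hp⟩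
      rw [Pi.pow_apply, Pi.one_apply] at this
      have h := congrArg Multiplicative.toAdd this
      rw [toAdd_pow, toAdd_one] at h
      simpa [c, ZMod.natCast_eq_zero_iff] using h
    have key : ∃ y : Model P k, d ∣ orderOf y := by
      rcases hq.dvd_mul.1 ((dvd_mul_left q d).trans hqd) with hq2 | hqM
      · refine ⟨SemidirectProduct.inr c, ?_⟩
        rw [orderOf_injective _ SemidirectProduct.inr_injective, hc]
        obtain rfl := (Nat.prime_dvd_prime_iff_eq hq Nat.prime_two).1 hq2
        rw [mul_comm d] at hqd
        exact Nat.dvd_of_mul_dvd_mul_left two_pos hqd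
      · obtain ⟨p, hp, hqp⟩ := (Nat.Prime.prime hq).exists_mem_finset_dvd hqM
        obtain rfl := (Nat.prime_dvd_prime_iff_eq hq (hP p hp)).1 hqp
        let P0 : {p // p ∈ P} := ⟨q, hp⟩
        haveI := Fact.mk hq
        let c' : Top P := Function.update c P0 1
        let f : Fun P k := fun _ => Function.update (fun _ _ => 0) P0
          (fun x => (if x = 0 then 1 else 0) + (if x = 1 then 1 else 0))
        have hf : f ∈ aug P k := by
          intro j p
          rcases eq_or_ne p P0 with rfl | hpne
          · simp only [f, Function.update_self, Finset.sum_add_distrib, Finset.sum_ite_eq',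
              Finset.mem_univ, if_true]
            exact CharTwo.add_self_eq_zero _
          · simp [f, hpne]
        let w : Multiplicative (aug P k) := Multiplicative.ofAdd ⟨f, hf⟩
        have hw : orderOf w = 2 := by
          haveI : Fact (Nat.Prime 2) := ⟨Nat.prime_two⟩
          refine orderOf_eq_prime (sq_aug P k w) fun h => ?_
          have := congrFun (congrFun (congrFun (congrArg (fun u => (Multiplicative.toAdd u).1) h) ⟨0, hk⟩) P0) 0
          have h01 : (0 : ZMod q) ≠ 1 := zero_ne_one
          simp [w, f, h01] at this
        have hfix : act P k c' w = w := by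
          apply Multiplicative.toAdd.injective
          apply Subtype.ext
          funext j p x
          show f j p (x + (c' p).toAdd) = f j p x
          rcases eq_or_ne p P0 with rfl | hpne
          · simp [c']
          · simp [f, hpne]
        have hc' : orderOf c' ∣ M / q ∧ M / q ∣ orderOf c' := by
          constructor
          · refine orderOf_dvd_of_pow_eq_one ?_
            funext p
            rw [Pi.pow_apply, Pi.one_apply]
            rcases eq_or_ne p P0 with rfl | hpne
            · simp [c']
            · have : p.1 ∣ M / q := Nat.dvd_div_of_mul_dvd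
                (((Nat.coprime_primes hq (hP _ p.2)).2 fun e => hpne (Subtype.ext e.symm)).mul_dvd_of_dvd_of_dvd
                  (hdiv P0) (hdiv p))
              obtain ⟨e, he⟩ := this
              apply Multiplicative.toAdd.injective
              rw [toAdd_pow, toAdd_one, he, nsmul_eq_mul, Nat.cast_mul, ZMod.natCast_self, zero_mul, zero_mul]
          · have hpe : M / q = ∏ p ∈ P.erase q, p := by
              rw [hM, ← Finset.mul_prod_erase P (fun p => p) hp]
              exact Nat.mul_div_cancel_left _ hq.pos
            rw [hpe]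
            refine Finset.prod_primes_dvd _ (fun p hp' => (hP p (Finset.mem_of_mem_erase hp')).prime) fun p hp' => ?_
            have hne2 : (⟨p, Finset.mem_of_mem_erase hp'⟩ : {p // p ∈ P}) ≠ P0 := fun e =>
              (Finset.ne_of_mem_erase hp') (congrArg Subtype.val e)
            have := congrFun (pow_orderOf_eq_one c') ⟨p, Finset.mem_of_mem_erase hp'⟩
            rw [Pi.pow_apply, Pi.one_apply] at this
            have h := congrArg Multiplicative.toAdd this
            rw [toAdd_pow, toAdd_one] at h
            simpa [c', c, hne2, ZMod.natCast_eq_zero_iff] using h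
        have hoc' : orderOf c' = M / q := Nat.dvd_antisymm hc'.1 hc'.2
        have hcomm : Commute (SemidirectProduct.inl w : Model P k) (SemidirectProduct.inr c') := by
          have := SemidirectProduct.inl_aut (φ := act P k) c' w
          rw [hfix, map_inv] at this
          exact eq_mul_inv_iff_mul_eq.1 this
        have hcop : Nat.Coprime 2 (M / q) := by
          refine (Nat.prime_two.coprime_iff_not_dvd).2 fun h => h2 ?_
          obtain ⟨p, hp', hdp⟩ := Nat.prime_two.prime.exists_mem_finset_dvd
            (h.trans (Nat.div_dvd_of_dvd (hdiv P0)))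
          exact (Nat.prime_dvd_prime_iff_eq Nat.prime_two (hP p hp')).1 hdp ▸ hp'
        refine ⟨SemidirectProduct.inl w * SemidirectProduct.inr c', ?_⟩
        rw [hcomm.orderOf_mul_eq_mul_orderOf_of_coprime (by
          rwa [orderOf_injective _ SemidirectProduct.inl_injective,
            orderOf_injective _ SemidirectProduct.inr_injective, hw, hoc']),
          orderOf_injective _ SemidirectProduct.inl_injective,
          orderOf_injective _ SemidirectProduct.inr_injective, hw, hoc']
        refine Nat.dvd_of_mul_dvd_mul_right hq.pos ?_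
        rwa [mul_assoc, Nat.div_mul_cancel (hdiv P0)]
    obtain ⟨y, hy⟩ := key
    refine ⟨y ^ (orderOf y / d), ?_⟩
    exact orderOf_pow_orderOf_div (orderOf_pos y).ne' hy

theorem card_model_gt (hk : 0 < k) {p : ℕ} (hp : p ∈ P) (hpp : p.Prime) : k < Nat.card (Model P k) := by
  classical
  haveI := Fact.mk hpp
  let P0 : {p // p ∈ P} := ⟨p, hp⟩
  let δ : ZMod p → ZMod 2 := fun x => (if x = 0 then 1 else 0) + (if x = 1 then 1 else 0)
  have hδ : ∑ x, δ x = 0 := by
    simp only [δ, Finset.sum_add_distrib, Finset.sum_ite_eq', Finset.mem_univ, if_true]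
    exact CharTwo.add_self_eq_zero _
  let F : (Fin k → ZMod 2) → Model P k := fun s => SemidirectProduct.inl (Multiplicative.ofAdd
    ⟨fun j => Function.update (fun _ _ => 0) P0 (fun x => s j * δ x), fun j q => by
      rcases eq_or_ne q P0 with rfl | hq
      · simp only [Function.update_self, ← Finset.mul_sum]
        exact (congrArg (s j * ·) hδ).trans (mul_zero _)
      · simp [hq]⟩)
  have hF : Function.Injective F := by
    intro s t h
    funext j
    have := congrFun (congrFun (congrFun (congrArg (fun u => (Multiplicative.toAdd u).1)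
      (SemidirectProduct.inl_injective h)) j) P0) (0 : ZMod p)
    have h01 : (0 : ZMod p) ≠ 1 := zero_ne_one
    simpa [δ, h01] using this
  calc k < 2 ^ k := Nat.lt_two_pow_self
    _ = Nat.card (Fin k → ZMod 2) := by rw [Nat.card_fun, Nat.card_zmod, Nat.card_fin]
    _ ≤ _ := Nat.card_le_card_of_injective F hF

end Cfsg.Agent.GKTools.ProperDiv
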