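import Cfsg.Agent.GKTools.CubeModel

/-!
If the element orders of a group `R` are the divisors of `6, 9, q - 1, (q + 1)/2, q ± r + 1`
(`q = 3^(2m+1)`, `r = 3^(m+1)`), then `R × R × R` has the spectrum of arbitrarily large metabelian
groups.
-/

set_option autoImplicit false
set_option linter.style.haveILetI false

namespace Cfsg.Agent.GKTools

theorem exists_large_spectrum_cube {R : Type*} [Group R] [Finite R] (m : ℕ)
    (hspec : ∀ d : ℕ, (∃ g : R, orderOf g = d) ↔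
      (d ∣ 6 ∨ d ∣ 9 ∨ d ∣ 3 ^ (2 * m + 1) - 1 ∨ d ∣ (3 ^ (2 * m + 1) + 1) / 2 ∨
        d ∣ 3 ^ (2 * m + 1) - 3 ^ (m + 1) + 1 ∨ d ∣ 3 ^ (2 * m + 1) + 3 ^ (m + 1) + 1)) (N : ℕ) :
    ∃ (H : Type) (_ : Group H) (_ : Fintype H), N < Fintype.card H ∧
      Set.range (orderOf : H → ℕ) = Set.range (orderOf : R × R × R → ℕ) := by
  set q := 3 ^ (2 * m + 1) with hq
  set r := 3 ^ (m + 1) with hr
  set C := q + r + 1
  set D := q - r + 1
  set a := q - 1
  set b := (q + 1) / 2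
  have hrq : r ≤ q := Nat.pow_le_pow_right (by norm_num) (by omega)
  have hr2 : r * r = 3 * q := by rw [hr, hq, ← pow_succ', ← pow_add]; congr 1; omega
  have hq3 : 3 ≤ q := Nat.le_self_pow (by omega) 3
  have hodd : q % 2 = 1 := by rw [hq, Nat.pow_mod]; norm_num
  have hrodd : r % 2 = 1 := by rw [hr, Nat.pow_mod]; norm_num
  have hq4 : q % 4 = 3 := by
    rw [hq, pow_succ, pow_mul, Nat.mul_mod, Nat.pow_mod]; norm_num
  haveI : NeZero C := ⟨by omega⟩
  haveI : NeZero D := ⟨by omega⟩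
  have key : ∀ p : ℕ, p.Prime → p ∣ C * D → p ≠ 2 ∧ p ≠ 3 ∧ ¬ p ∣ q + 1 ∧ ¬ p ∣ q - 1 := by
    intro p hp hdvd
    have hid : (C : ℤ) * D = (q : ℤ) ^ 2 - q + 1 := by
      have h1 : (D : ℤ) = (q : ℤ) - r + 1 := by simp only [D]; push_cast [Nat.cast_sub hrq]; ring
      have h2 : (C : ℤ) = (q : ℤ) + r + 1 := by simp only [C]; push_cast; ring
      have h3 : (r : ℤ) * r = 3 * q := by exact_mod_cast hr2
      rw [h1, h2]; linear_combination -h3
    have hz : (p : ℤ) ∣ (q : ℤ) ^ 2 - q + 1 := hid ▸ (by exact_mod_cast hdvd)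
    have h3q : (3 : ℤ) ∣ q := by
      have : (3 : ℕ) ∣ q := dvd_pow_self 3 (by omega)
      exact_mod_cast this
    have hp3 : p ≠ 3 := by
      rintro rfl
      have : (3 : ℤ) ∣ 1 := by
        have h := dvd_sub hz (h3q.mul_right ((q : ℤ) - 1))
        rwa [show (q : ℤ) ^ 2 - q + 1 - q * (q - 1) = 1 by ring] at h
      norm_num at this
    have hp2 : p ≠ 2 := by
      rintro rfl
      have hC : C % 2 = 1 := by omega
      have hD : D % 2 = 1 := by omega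
      have := Nat.mod_eq_zero_of_dvd hdvd
      rw [Nat.mul_mod, hC, hD] at this
      norm_num at this
    refine ⟨hp2, hp3, fun h => ?_, fun h => ?_⟩
    · have h' : (p : ℤ) ∣ (q : ℤ) + 1 := by exact_mod_cast h
      have : (p : ℤ) ∣ 3 := by
        have e := dvd_sub hz (h'.mul_right ((q : ℤ) - 2))
        rwa [show (q : ℤ) ^ 2 - q + 1 - (q + 1) * (q - 2) = 3 by ring] at e
      exact hp3 ((Nat.prime_dvd_prime_iff_eq hp Nat.prime_three).1 (by exact_mod_cast this))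
    · have h' : (p : ℤ) ∣ (q : ℤ) - 1 := by
        have := Int.natCast_dvd_natCast.2 h
        rwa [Nat.cast_sub (by omega : 1 ≤ q), Nat.cast_one] at this
      have : (p : ℤ) ∣ 1 := by
        have e := dvd_sub hz (h'.mul_right (q : ℤ))
        rwa [show (q : ℤ) ^ 2 - q + 1 - (q - 1) * q = 1 by ring] at e
      exact hp.ne_one (Nat.dvd_one.1 (by exact_mod_cast this))
  have hCD : C.Coprime D := by
    rw [Nat.coprime_iff_gcd_eq_one]
    by_contra h
    obtain ⟨p, hp, hpd⟩ := Nat.exists_prime_and_dvd h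
    have h1 := hpd.trans (Nat.gcd_dvd_left C D)
    have h2 := hpd.trans (Nat.gcd_dvd_right C D)
    obtain ⟨e2, e3, -, -⟩ := key p hp (h1.mul_right D)
    have h3 : p ∣ 2 * r := by
      have := Nat.dvd_sub h1 h2
      rwa [show C - D = 2 * r by omega] at this
    rcases hp.dvd_mul.1 h3 with h4 | h4
    · exact e2 ((Nat.prime_dvd_prime_iff_eq hp Nat.prime_two).1 h4)
    · exact e3 ((Nat.prime_dvd_prime_iff_eq hp Nat.prime_three).1 (hp.dvd_of_dvd_pow h4))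
  have h2b : 2 * b = q + 1 := by omega
  have hcop : Nat.Coprime (C * D) (18 * a * b) := by
    rw [Nat.coprime_iff_gcd_eq_one]
    by_contra h
    obtain ⟨p, hp, hpd⟩ := Nat.exists_prime_and_dvd h
    obtain ⟨e2, e3, e4, e5⟩ := key p hp (hpd.trans (Nat.gcd_dvd_left _ _))
    have h2 := hpd.trans (Nat.gcd_dvd_right (C * D) (18 * a * b))
    rcases hp.dvd_mul.1 h2 with h4 | h4
    · rcases hp.dvd_mul.1 h4 with h5 | h5
      · rw [show (18 : ℕ) = 2 * 3 ^ 2 by norm_num] at h5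
        rcases hp.dvd_mul.1 h5 with h6 | h6
        · exact e2 ((Nat.prime_dvd_prime_iff_eq hp Nat.prime_two).1 h6)
        · exact e3 ((Nat.prime_dvd_prime_iff_eq hp Nat.prime_three).1 (hp.dvd_of_dvd_pow h6))
      · exact e5 h5
    · exact e4 (h2b ▸ h4.mul_left 2)
  have ha : 2 ∣ a := by omega
  have hb : 2 ∣ b := by omega
  have ha0 : a ≠ 0 := by omega
  have hb0 : b ≠ 0 := by omega
  haveI := Cube.finite_model (k := N + 1) hCD ha0 hb0
  let H := Cube.Model C D a b (N + 1) hCD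
  letI : Fintype H := Fintype.ofFinite H
  refine ⟨H, inferInstance, inferInstance, ?_, ?_⟩
  · rw [← Nat.card_eq_fintype_card]
    exact (Nat.lt_succ_self N).trans (Cube.lt_card_model hCD ha0 hb0)
  rw [Cube.range_orderOf hCD hcop ha hb ha0 hb0 (Nat.succ_pos N)]
  have hv : ∀ d, (∃ g : R, orderOf g = d) ↔ ∃ i, d ∣ Cube.val C D a b i := by
    intro d
    rw [hspec]
    constructor
    · rintro (h | h | h | h | h | h)
      exacts [⟨0, h⟩, ⟨1, h⟩, ⟨2, h⟩, ⟨3, h⟩, ⟨5, h⟩, ⟨4, h⟩]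
    · rintro ⟨i, h⟩
      fin_cases i <;> simp [Cube.val] at h <;> tauto
  ext d
  constructor
  · rintro ⟨i, j, l, hd⟩
    obtain ⟨x, hx⟩ := (hv _).2 ⟨i, dvd_rfl⟩
    obtain ⟨y, hy⟩ := (hv _).2 ⟨j, dvd_rfl⟩
    obtain ⟨z, hz⟩ := (hv _).2 ⟨l, dvd_rfl⟩
    refine ⟨(x, y, z) ^ (orderOf (x, y, z) / d), orderOf_pow_orderOf_div (orderOf_pos _).ne' ?_⟩
    simpa only [Prod.orderOf, hx, hy, hz] using hd
  · rintro ⟨⟨x, y, z⟩, rfl⟩
    obtain ⟨i, hi⟩ := (hv _).1 ⟨x, rfl⟩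
    obtain ⟨j, hj⟩ := (hv _).1 ⟨y, rfl⟩
    obtain ⟨l, hl⟩ := (hv _).1 ⟨z, rfl⟩
    refine ⟨i, j, l, ?_⟩
    simp only [Prod.orderOf]
    exact Nat.lcm_dvd (hi.trans (Nat.dvd_lcm_left _ _)) (Nat.lcm_dvd
      ((hj.trans (Nat.dvd_lcm_left _ _)).trans (Nat.dvd_lcm_right _ _))
      ((hl.trans (Nat.dvd_lcm_right _ _)).trans (Nat.dvd_lcm_right _ _)))

end Cfsg.Agent.GKTools
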