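import Cfsg.Agent.GKTools.Unbounded

/-!
The prime graph of `V^(N+1) ⋊ S` for a `p`-module `V`: the edges of `S`, together with `p ~ r`
whenever an element of order `r` fixes a nontrivial vector.
-/

set_option autoImplicit false

namespace Cfsg.Agent.GKTools

variable {S V : Type*} [Group S] [CommGroup V]

theorem exists_large_with_graph [Finite S] [Finite V] [Nontrivial V] (φ : S →* MulAut V) (p : ℕ)
    (hp : p.Prime) (hV : IsPGroup p V) (N : ℕ) :
    ∃ (H : Type) (_ : Group H) (_ : Finite H), N < Nat.card H ∧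
      (∀ r : ℕ, r.Prime → (r ∣ Nat.card H ↔ r = p ∨ r ∣ Nat.card S)) ∧
      (∀ a b : ℕ, a.Prime → b.Prime → a ≠ b → ((∃ h : H, orderOf h = a * b) ↔
        (∃ g : S, orderOf g = a * b) ∨ ∃ (g : S) (v : V), v ≠ 1 ∧ φ g v = v ∧
          (a = p ∧ orderOf g = b ∨ b = p ∧ orderOf g = a))) := by
  haveI := Fact.mk hp
  let A := Fin (N + 1) → V
  let E := A ⋊[powAct φ (N + 1)] S
  haveI : Finite E := Finite.of_equiv _ SemidirectProduct.equivProd.symm
  obtain ⟨H, iH, fH, ⟨e⟩⟩ := exists_type_zero_copy E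
  obtain ⟨m, hm⟩ := IsPGroup.iff_card.1 hV
  have hm0 : m ≠ 0 := by
    rintro rfl
    have := Finite.one_lt_card (α := V)
    simp [hm] at this
  have hA : Nat.card A = p ^ (m * (N + 1)) := by
    rw [Nat.card_fun, hm, Nat.card_fin, ← pow_mul]
  have hEc : Nat.card E = p ^ (m * (N + 1)) * Nat.card S := by rw [SemidirectProduct.card, hA]
  refine ⟨H, iH, fH, ?_, fun r hr => ?_, fun a b ha hb hab => ?_⟩
  · rw [← Nat.card_congr e.toEquiv, hEc]
    calc N < 2 ^ N := Nat.lt_two_pow_self
      _ ≤ p ^ N := Nat.pow_le_pow_left hp.two_le N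
      _ ≤ p ^ (m * (N + 1)) := Nat.pow_le_pow_right hp.pos (by
          calc N ≤ N + 1 := Nat.le_succ N
            _ ≤ m * (N + 1) := Nat.le_mul_of_pos_left _ (Nat.pos_of_ne_zero hm0))
      _ ≤ _ := Nat.le_mul_of_pos_right _ Nat.card_pos
  · rw [← Nat.card_congr e.toEquiv, hEc, hr.dvd_mul]
    refine or_congr ⟨fun h => (Nat.prime_dvd_prime_iff_eq hr hp).1 (hr.dvd_of_dvd_pow h), ?_⟩ Iff.rfl
    rintro rfl
    exact dvd_pow_self _ (Nat.mul_ne_zero hm0 (Nat.succ_ne_zero N))
  have hgr := (samePrimeGraph_of_mulEquiv e).2 a b ha hb hab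
  rw [← hgr]
  constructor
  · rintro ⟨h, hh⟩
    set g := SemidirectProduct.rightHom h with hgdef
    have hd : orderOf g ∣ a * b := hh ▸ orderOf_map_dvd _ h
    have hker : ∀ d : ℕ, g ^ d = 1 → ∃ v : A, (SemidirectProduct.inl v : E) = h ^ d := by
      intro d hd'
      have : h ^ d ∈ (SemidirectProduct.rightHom : E →* S).ker := by
        rw [MonoidHom.mem_ker, map_pow, ← hgdef, hd']
      rw [← SemidirectProduct.range_inl_eq_ker_rightHom] at this
      exact this
    have hpker : ∀ d : ℕ, g ^ d = 1 → d ∣ a * b → ∀ r : ℕ, r.Prime → r ∣ a * b / d → r = p := by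
      intro d hd' hdd r hr hrd
      obtain ⟨v, hv⟩ := hker d hd'
      have hd0 : d ≠ 0 := fun h0 => (mul_ne_zero ha.ne_zero hb.ne_zero) (Nat.eq_zero_of_zero_dvd (h0 ▸ hdd))
      have ho : orderOf (h ^ d) = a * b / d := by
        rw [orderOf_pow' h hd0, hh, Nat.gcd_eq_right hdd]
      rw [← hv, orderOf_injective _ SemidirectProduct.inl_injective] at ho
      exact (Nat.prime_dvd_prime_iff_eq hr hp).1 (hr.dvd_of_dvd_pow (hrd.trans (ho ▸ hA ▸ orderOf_dvd_natCard v)))
    have case_mid : ∀ r s : ℕ, r.Prime → s.Prime → r * s = a * b → orderOf g = s →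
        r = p ∧ ∃ w : V, w ≠ 1 ∧ φ g w = w := by
      intro r s hr hs heq ho
      have hgs : g ^ s = 1 := ho ▸ pow_orderOf_eq_one g
      have hrp : r = p := hpker s hgs (heq ▸ Dvd.intro_left _ rfl) r hr
        (by rw [← heq, Nat.mul_div_cancel _ hs.pos])
      obtain ⟨v, hv⟩ := hker s hgs
      have hv1 : v ≠ 1 := by
        intro hv1
        rw [hv1, map_one] at hv
        have := Nat.le_of_dvd hs.pos (orderOf_dvd_of_pow_eq_one hv.symm)
        rw [hh, ← heq] at this
        have := hr.two_le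
        have := hs.pos
        nlinarith
      have hfixv : powAct φ (N + 1) g v = v := by
        have hc : h * SemidirectProduct.inl v = SemidirectProduct.inl v * h := by
          rw [hv, ← pow_succ, ← pow_succ']
        have := congrArg SemidirectProduct.left hc
        rw [SemidirectProduct.mul_left, SemidirectProduct.mul_left, SemidirectProduct.left_inl,
          SemidirectProduct.right_inl, map_one, MulAut.one_apply] at this
        change h.left * powAct φ (N + 1) g v = v * h.left at this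
        rw [mul_comm v] at this
        exact mul_left_cancel this
      obtain ⟨i, hi⟩ := Function.ne_iff.1 hv1
      exact ⟨hrp, v i, hi, congrFun hfixv i⟩
    obtain ⟨u, w, hu, hw, huw⟩ := exists_dvd_and_dvd_of_dvd_mul hd
    rcases (Nat.dvd_prime ha).1 hu with rfl | rfl <;> rcases (Nat.dvd_prime hb).1 hw with rfl | rfl
    · exfalso
      rw [mul_one] at huw
      have hg1 : g ^ 1 = 1 := by rw [pow_one]; exact orderOf_eq_one_iff.1 huw
      have h1 := hpker 1 hg1 (one_dvd _) a ha (by simp)
      have h2 := hpker 1 hg1 (one_dvd _) b hb (by simp)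
      exact hab (h1.trans h2.symm)
    · rw [one_mul] at huw
      obtain ⟨hap, x, hx, hx'⟩ := case_mid a w ha hb rfl huw
      exact Or.inr ⟨g, x, hx, hx', Or.inl ⟨hap, huw⟩⟩
    · rw [mul_one] at huw
      obtain ⟨hbp, x, hx, hx'⟩ := case_mid b u hb ha (mul_comm _ _) huw
      exact Or.inr ⟨g, x, hx, hx', Or.inr ⟨hbp, huw⟩⟩
    · exact Or.inl ⟨g, huw⟩
  · rintro (⟨g, hg⟩ | ⟨g, v, hv, hfix, hor⟩)
    · exact ⟨SemidirectProduct.inr g, by rw [orderOf_injective _ SemidirectProduct.inr_injective, hg]⟩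
    obtain ⟨r, hr, hrp, hgo, hmul⟩ :
        ∃ r : ℕ, r.Prime ∧ r ≠ p ∧ orderOf g = r ∧ a * b = p * r := by
      rcases hor with ⟨rfl, hgo⟩ | ⟨rfl, hgo⟩
      · exact ⟨b, hb, hab.symm, hgo, rfl⟩
      · exact ⟨a, ha, hab, hgo, mul_comm _ _⟩
    obtain ⟨k, hk⟩ := (IsPGroup.iff_orderOf.1 hV) v
    have hk0 : k ≠ 0 := by
      rintro rfl
      exact hv (orderOf_eq_one_iff.1 (by simpa using hk))
    set w := v ^ (p ^ (k - 1)) with hwdef
    have how : orderOf w = p := by
      rw [hwdef, orderOf_pow' v (pow_ne_zero _ hp.ne_zero), hk,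
        Nat.gcd_eq_right (pow_dvd_pow _ (Nat.sub_le k 1)), Nat.pow_div (Nat.sub_le k 1) hp.pos,
        show k - (k - 1) = 1 by omega, pow_one]
    have hfw : φ g w = w := by rw [hwdef, map_pow, hfix]
    let c : A := fun _ => w
    have hoc : orderOf c = p := by
      refine orderOf_eq_prime ?_ fun h => ?_
      · funext i
        show w ^ p = 1
        rw [← how]
        exact pow_orderOf_eq_one w
      · have : w = 1 := congrFun h 0
        rw [this, orderOf_one] at how
        exact hp.ne_one how.symm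
    have hcomm : Commute (SemidirectProduct.inl c : E) (SemidirectProduct.inr g) := by
      have hfc : powAct φ (N + 1) g c = c := funext fun i => hfw
      have := SemidirectProduct.inl_aut (φ := powAct φ (N + 1)) g c
      rw [hfc, map_inv] at this
      exact eq_mul_inv_iff_mul_eq.1 this
    refine ⟨SemidirectProduct.inl c * SemidirectProduct.inr g, ?_⟩
    rw [hcomm.orderOf_mul_eq_mul_orderOf_of_coprime (by
      rw [orderOf_injective _ SemidirectProduct.inl_injective,
        orderOf_injective _ SemidirectProduct.inr_injective, hoc, hgo]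
      exact (Nat.coprime_primes hp hr).2 hrp.symm),
      orderOf_injective _ SemidirectProduct.inl_injective,
      orderOf_injective _ SemidirectProduct.inr_injective, hoc, hgo, hmul]

end Cfsg.Agent.GKTools
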