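import Cfsg.Agent.GKTools.SzFixed
import Cfsg.Agent.Suzuki.Classes
import Cfsg.Agent.GKTools.UnboundedTarget

/-!
`Sz(8)` extended by its field automorphisms, acting semilinearly on `V ⊗ V^σ` (as `4 × 4` matrices):
the extensions `V^k ⋊ (Sz(8):3)` have the prime graph `2-3, 2-5, 2-7, 3-5` with `13` isolated.
-/

set_option autoImplicit false
set_option linter.style.haveILetI false
set_option linter.unusedSectionVars false

namespace Cfsg.Agent.GKTools.SzExt

open Matrix Polynomial
open scoped Matrix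

variable {F : Type*} [Field F] [Fintype F] [hS : Suzuki.SuzukiField F 1]

/-- The matrix of an element. -/
def smat : Cfsg.Sz F 1 →* Matrix (Fin 4) (Fin 4) F where
  toFun g := g.1.1
  map_one' := rfl
  map_mul' _ _ := rfl

theorem smat_injective : Function.Injective (smat (F := F)) := fun _ _ h => Suzuki.sz_ext h

theorem th_one_apply (x : F) : Suzuki.th F 1 x = x ^ 4 := by rw [Suzuki.th_apply]; rfl

theorem pow_eight (x : F) : x ^ 8 = x := by
  have := FiniteField.pow_card x
  rwa [hS.card] at this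

theorem two_eq_zero' : (2 : F) = 0 := CharTwo.two_eq_zero

/-- The characteristic polynomial of an element of trace `t`. -/
noncomputable def szPoly (t : F) : F[X] :=
  X ^ 4 + C t * X ^ 3 + C (t ^ 4) * X ^ 2 + C t * X + 1

theorem trace_inv (g : Cfsg.Sz F 1) : (smat g⁻¹).trace = (smat g).trace := by
  have h1 : (suzukiForm F * (smat g)ᵀ * suzukiForm F) * smat g = 1 := by
    rw [Matrix.mul_assoc, Matrix.mul_assoc, ← Matrix.mul_assoc (smat g)ᵀ]
    rw [show (smat g)ᵀ * suzukiForm F * smat g = suzukiForm F from (Suzuki.isSuzMat_coe g).1,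
      Suzuki.form_sq]
  have h2 : smat g * smat g⁻¹ = 1 := by rw [← map_mul, mul_inv_cancel, map_one]
  rw [← left_inv_eq_right_inv h1 h2, Matrix.trace_mul_comm, ← Matrix.mul_assoc, Suzuki.form_sq,
    Matrix.one_mul, Matrix.trace_transpose]

theorem aeval_szPoly (g : Cfsg.Sz F 1) : aeval (smat g) (szPoly (smat g).trace) = 0 := by
  have hM : Suzuki.IsSuzMat 1 (smat g) := Suzuki.isSuzMat_coe g
  set M := smat g with hMdef
  have hdet : M.det = 1 := g.1.2
  have htr : Suzuki.th F 1 M.trace = minorSum₂ M := by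
    rw [← trace_star4 hM, hM.2]
    simp [Matrix.trace, Matrix.diag, map_sum]
  rw [th_one_apply] at htr
  have he3 : minorSum₃ M = M.trace := by
    have h2 : M.adjugate * M = 1 := by rw [Matrix.adjugate_mul, hdet, one_smul]
    have h3 : M.adjugate = smat g⁻¹ :=
      left_inv_eq_right_inv h2 (by rw [hMdef, ← map_mul, mul_inv_cancel, map_one])
    have h4 : M.adjugate.trace = M.trace := by rw [h3, trace_inv]
    rw [← h4]
    have e0 : (0 : Fin 4).succAbove = ![1, 2, 3] := by decide
    have e1 : (1 : Fin 4).succAbove = ![0, 2, 3] := by decide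
    have e2 : (2 : Fin 4).succAbove = ![0, 1, 3] := by decide
    have e3 : (3 : Fin 4).succAbove = ![0, 1, 2] := by decide
    simp only [minorSum₃, Matrix.trace, Matrix.diag, Fin.sum_univ_four,
      Matrix.adjugate_fin_succ_eq_det_submatrix, e0, e1, e2, e3]
    norm_num
    ring
  have hc : M.charpoly = szPoly M.trace := by
    rw [charpoly_fin_four, hdet, he3, ← htr, szPoly, map_one]
    linear_combination (-(C M.trace * X ^ 3) - C M.trace * X) * CharTwo.two_eq_zero (R := F[X])
  rw [← hc]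
  exact Matrix.aeval_self_charpoly M

theorem pow_eq_one_of_mul_eq {g : Cfsg.Sz F 1} (n : ℕ) (q : F[X])
    (h : szPoly (smat g).trace * q = X ^ n + 1) : g ^ n = 1 := by
  apply smat_injective
  have := congrArg (aeval (smat g)) h
  rw [map_mul, aeval_szPoly, zero_mul, map_add, map_pow, aeval_X, map_one] at this
  rw [map_pow, map_one, eq_neg_of_add_eq_zero_left this.symm]
  ext i j
  simp [CharTwo.neg_eq]

theorem trace_cases (t : F) :
    t = 0 ∨ t = 1 ∨ t ^ 3 + t + 1 = 0 ∨ t ^ 3 + t ^ 2 + 1 = 0 := by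
  have h : t * (t + 1) * (t ^ 3 + t + 1) * (t ^ 3 + t ^ 2 + 1) = 0 := by
    linear_combination pow_eight t + (t ^ 7 + t ^ 6 + 2 * t ^ 5 + 2 * t ^ 4 + t ^ 3 + t ^ 2 + t) * two_eq_zero' (F := F)
  rcases mul_eq_zero.1 h with h | h
  · rcases mul_eq_zero.1 h with h | h
    · rcases mul_eq_zero.1 h with h | h
      · exact Or.inl h
      · exact Or.inr (Or.inl (CharTwo.add_eq_zero.1 h))
    · exact Or.inr (Or.inr (Or.inl h))
  · exact Or.inr (Or.inr (Or.inr h))

theorem pow_four_or_five {g : Cfsg.Sz F 1} (h : (smat g).trace = 0 ∨ (smat g).trace = 1) :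
    g ^ 4 = 1 ∨ g ^ 5 = 1 := by
  rcases h with h | h
  · exact Or.inl (pow_eq_one_of_mul_eq 4 1 (by rw [szPoly, h]; simp))
  · refine Or.inr (pow_eq_one_of_mul_eq 5 (X + 1) ?_)
    rw [szPoly, h]
    simp only [one_pow, map_one, one_mul]
    linear_combination (X ^ 4 + X ^ 3 + X ^ 2 + X) * CharTwo.two_eq_zero (R := F[X])

theorem pow_seven {g : Cfsg.Sz F 1} (h : (smat g).trace ^ 3 + (smat g).trace + 1 = 0) :
    g ^ 7 = 1 := by
  refine pow_eq_one_of_mul_eq 7 (X ^ 3 + C (smat g).trace * X ^ 2 + C (smat g).trace * X + 1) ?_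
  set t := (smat g).trace
  have hc : (C t : F[X]) ^ 3 + C t + 1 = 0 := by simpa using congrArg C h
  rw [szPoly, map_pow]
  linear_combination (C t * X ^ 5 + C t ^ 2 * X ^ 4 + (-1) * X ^ 4 + C t ^ 2 * X ^ 3 + (-1) * X ^ 3 + C t * X ^ 2) * hc +
    (C t * X ^ 6 + C t * X ^ 4 + X ^ 4 + C t * X ^ 3 + X ^ 3 + C t * X) * CharTwo.two_eq_zero (R := F[X])

theorem pow_thirteen {g : Cfsg.Sz F 1} (h : (smat g).trace ^ 3 + (smat g).trace ^ 2 + 1 = 0) :
    g ^ 13 = 1 := by
  set t := (smat g).trace with ht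
  refine pow_eq_one_of_mul_eq 13 (X ^ 9 + C t * X ^ 8 + C t * X ^ 7 + X ^ 7 + C t ^ 2 * X ^ 6 + C t * X ^ 6 + X ^ 6 + C t * X ^ 5 + C t * X ^ 4 + C t ^ 2 * X ^ 3 + C t * X ^ 3 + X ^ 3 + C t * X ^ 2 + X ^ 2 + C t * X + 1) ?_
  have hc : (C t : F[X]) ^ 3 + C t ^ 2 + 1 = 0 := by simpa using congrArg C h
  rw [← ht, szPoly, map_pow]
  linear_combination (C t * X ^ 11 + (-1) * X ^ 11 + C t ^ 2 * X ^ 10 + (-1) * C t * X ^ 10 + X ^ 10 + C t ^ 2 * X ^ 9 + X ^ 9 + C t ^ 3 * X ^ 8 + C t * X ^ 8 + (-2) * X ^ 8 + C t ^ 2 * X ^ 7 + (-1) * C t * X ^ 7 + 2 * X ^ 7 + C t ^ 2 * X ^ 6 + (-1) * C t * X ^ 6 + 2 * X ^ 6 + C t ^ 3 * X ^ 5 + C t * X ^ 5 + (-2) * X ^ 5 + C t ^ 2 * X ^ 4 + X ^ 4 + C t ^ 2 * X ^ 3 + (-1) * C t * X ^ 3 + X ^ 3 + C t * X ^ 2 + (-1) * X ^ 2) * hc +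
    (C t * X ^ 12 + C t ^ 2 * X ^ 11 + X ^ 11 + 2 * C t * X ^ 10 + C t * X ^ 9 + 2 * C t ^ 2 * X ^ 8 + C t * X ^ 8 + X ^ 8 + 2 * C t * X ^ 7 + 2 * C t * X ^ 6 + 2 * C t ^ 2 * X ^ 5 + C t * X ^ 5 + X ^ 5 + C t * X ^ 4 + 2 * C t * X ^ 3 + C t ^ 2 * X ^ 2 + X ^ 2 + C t * X) * CharTwo.two_eq_zero (R := F[X])

theorem element_cases (g : Cfsg.Sz F 1) : g ^ 4 = 1 ∨ g ^ 5 = 1 ∨ g ^ 7 = 1 ∨ g ^ 13 = 1 := by
  rcases trace_cases (smat g).trace with h | h | h | h
  · exact (pow_four_or_five (Or.inl h)).imp id Or.inl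
  · exact (pow_four_or_five (Or.inr h)).imp id Or.inl
  · exact Or.inr (Or.inr (Or.inl (pow_seven h)))
  · exact Or.inr (Or.inr (Or.inr (pow_thirteen h)))

/-! ### Field automorphisms -/

theorem star4_map {R : Type*} [CommRing R] {R' : Type*} [CommRing R'] (f : R →+* R') (M : Matrix (Fin 4) (Fin 4) R) :
    Lie.star4 (M.map f) = (Lie.star4 M).map f := by
  ext p r; simp [Lie.star4]

theorem isSuzMat_map (f : F →+* F) {M : Matrix (Fin 4) (Fin 4) F} (hM : Suzuki.IsSuzMat 1 M) :
    Suzuki.IsSuzMat 1 (M.map f) := by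
  have hJ : (suzukiForm F).map f = suzukiForm F := by
    ext i j; fin_cases i <;> fin_cases j <;> simp [suzukiForm]
  refine ⟨?_, ?_⟩
  · rw [← hJ, ← Matrix.transpose_map, ← Matrix.map_mul, ← Matrix.map_mul, hM.1]
  · rw [star4_map, hM.2]
    ext i j
    simp [th_one_apply]

/-- A field automorphism acting on the group. -/
noncomputable def szMapAut : RingAut F →* MulAut (Cfsg.Sz F 1) where
  toFun τ :=
    { toFun := fun g => ⟨SpecialLinearGroup.map τ.toRingHom g.1,
        Suzuki.mem_sz_of_isSuzMat _ (isSuzMat_map τ.toRingHom (Suzuki.isSuzMat_coe g))⟩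
      invFun := fun g => ⟨SpecialLinearGroup.map τ.symm.toRingHom g.1,
        Suzuki.mem_sz_of_isSuzMat _ (isSuzMat_map τ.symm.toRingHom (Suzuki.isSuzMat_coe g))⟩
      left_inv := fun g => Suzuki.sz_ext (by ext i j; exact τ.symm_apply_apply _)
      right_inv := fun g => Suzuki.sz_ext (by ext i j; exact τ.apply_symm_apply _)
      map_mul' := fun g h => Subtype.ext (map_mul (SpecialLinearGroup.map τ.toRingHom) g.1 h.1) }
  map_one' := by
    refine MulEquiv.ext fun g => Suzuki.sz_ext ?_
    ext i j; rfl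
  map_mul' σ τ := by
    refine MulEquiv.ext fun g => Suzuki.sz_ext ?_
    ext i j; rfl

theorem smat_szMapAut (τ : RingAut F) (g : Cfsg.Sz F 1) :
    smat (szMapAut τ g) = (smat g).map τ := rfl

variable (F) in
/-- The automorphism `x ↦ x ^ 2`. -/
noncomputable def frob : RingAut F :=
  RingEquiv.ofBijective (frobenius F 2) (Finite.injective_iff_bijective.1 (frobenius_inj F 2))

theorem frob_apply (x : F) : frob F x = x ^ 2 := rfl

theorem orderOf_frob : orderOf (frob F) = 3 := by
  haveI : Fact (Nat.Prime 3) := ⟨Nat.prime_three⟩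
  refine orderOf_eq_prime ?_ ?_
  · refine RingEquiv.ext fun x => ?_
    show frob F (frob F (frob F x)) = x
    rw [frob_apply, frob_apply, frob_apply, ← pow_mul, ← pow_mul]
    exact pow_eight x
  · intro h
    obtain ⟨x, hx0, hx1⟩ := Suzuki.exists_ne_zero_ne_one (F := F) (m := 1)
    have := DFunLike.congr_fun h x
    rw [frob_apply] at this
    exact hx1 (mul_left_cancel₀ hx0 (by rw [mul_one, ← sq]; exact this))

variable (F) in
/-- The Galois group. -/
noncomputable abbrev Gal : Subgroup (RingAut F) := Subgroup.zpowers (frob F)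

theorem card_gal : Nat.card (Gal F) = 3 := by rw [Nat.card_zpowers, orderOf_frob]

variable (F) in
/-- `Sz(8) : 3`. -/
noncomputable abbrev Ext : Type _ := Cfsg.Sz F 1 ⋊[(szMapAut (F := F)).comp (Gal F).subtype] (Gal F)

theorem card_ext : Nat.card (Ext F) = 2 ^ 6 * 3 * 5 * 7 * 13 := by
  rw [SemidirectProduct.card, card_gal, Suzuki.card_sz' (F := F) (m := 1)]
  all_goals simp [hS.card]

/-- The semilinear action on matrices: `M ↦ g τ(M) (g^σ)ᵀ`. -/
noncomputable def actAdd (x : Ext F) : Matrix (Fin 4) (Fin 4) F →+ Matrix (Fin 4) (Fin 4) F where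
  toFun M := smat x.left * M.map x.right.1 * ((smat x.left).map (frob F))ᵀ
  map_zero' := by simp
  map_add' M N := by
    rw [Matrix.map_add _ (map_add _), Matrix.mul_add, Matrix.add_mul]

theorem actAdd_one (M : Matrix (Fin 4) (Fin 4) F) : actAdd (1 : Ext F) M = M := by
  show smat (1 : Cfsg.Sz F 1) * M.map (1 : RingAut F) * ((smat (1 : Cfsg.Sz F 1)).map (frob F))ᵀ = M
  rw [map_one, Matrix.map_one _ (map_zero _) (map_one _), Matrix.transpose_one, one_mul, mul_one]
  ext i j; rfl

theorem actAdd_mul (x y : Ext F) (M : Matrix (Fin 4) (Fin 4) F) :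
    actAdd (x * y) M = actAdd x (actAdd y M) := by
  show smat (x.left * szMapAut x.right.1 y.left) * (M.map y.right.1).map x.right.1 *
      ((smat (x.left * szMapAut x.right.1 y.left)).map (frob F))ᵀ =
    smat x.left * (smat y.left * M.map y.right.1 * ((smat y.left).map (frob F))ᵀ).map x.right.1 *
      ((smat x.left).map (frob F))ᵀ
  rw [map_mul, Matrix.map_mul, Matrix.map_mul, Matrix.map_mul, Matrix.transpose_mul, smat_szMapAut]
  have hc : (((smat y.left).map (frob F))ᵀ).map x.right.1 =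
      (((smat y.left).map x.right.1).map (frob F))ᵀ := by
    ext i j
    simp [frob_apply, map_pow]
  rw [hc]
  simp only [Matrix.mul_assoc]

/-- The action as a homomorphism into automorphisms. -/
noncomputable def extAct : Ext F →* MulAut (Multiplicative (Matrix (Fin 4) (Fin 4) F)) where
  toFun x := AddEquiv.toMultiplicative
    { toFun := actAdd x
      invFun := actAdd x⁻¹
      left_inv := fun M => by rw [← actAdd_mul, inv_mul_cancel, actAdd_one]
      right_inv := fun M => by rw [← actAdd_mul, mul_inv_cancel, actAdd_one]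
      map_add' := map_add _ }
  map_one' := MulEquiv.ext fun v => Multiplicative.toAdd.injective (actAdd_one _)
  map_mul' x y := MulEquiv.ext fun v => Multiplicative.toAdd.injective (actAdd_mul x y _)

theorem toAdd_extAct (x : Ext F) (v : Multiplicative (Matrix (Fin 4) (Fin 4) F)) :
    Multiplicative.toAdd (extAct x v) = actAdd x (Multiplicative.toAdd v) := rfl

theorem isPGroup_module : IsPGroup 2 (Multiplicative (Matrix (Fin 4) (Fin 4) F)) := fun v =>
  ⟨1, Multiplicative.toAdd.injective (by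
    rw [pow_one, toAdd_pow, toAdd_one]; ext i j; simp [two_eq_zero'])⟩

/-- An element of prime order different from `3` lies in `Sz(8)`. -/
theorem right_eq_one {x : Ext F} (h : (orderOf x).Coprime 3) : x.right = 1 := by
  refine orderOf_eq_one_iff.1 (Nat.eq_one_of_dvd_coprimes h ?_ (card_gal (F := F) ▸ orderOf_dvd_natCard x.right))
  exact orderOf_map_dvd SemidirectProduct.rightHom x

theorem inl_left {x : Ext F} (h : x.right = 1) : x = SemidirectProduct.inl x.left :=
  SemidirectProduct.ext rfl h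

theorem not_fix_thirteen {x : Ext F} (hx : orderOf x = 13) {M : Matrix (Fin 4) (Fin 4) F}
    (h : actAdd x M = M) : M = 0 := by
  have hr := right_eq_one (x := x) (by rw [hx]; norm_num)
  have hg : orderOf x.left = 13 := by
    rw [← orderOf_injective (SemidirectProduct.inl : _ →* Ext F) SemidirectProduct.inl_injective,
      ← inl_left hr, hx]
  set g := x.left
  set t := (smat g).trace with ht
  have hcub : t ^ 3 + t ^ 2 + 1 = 0 := by
    rcases trace_cases t with h0 | h0 | h0 | h0
    · rcases pow_four_or_five (Or.inl h0) with e | e <;>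
        exact absurd (hg ▸ orderOf_dvd_of_pow_eq_one e) (by norm_num)
    · rcases pow_four_or_five (Or.inr h0) with e | e <;>
        exact absurd (hg ▸ orderOf_dvd_of_pow_eq_one e) (by norm_num)
    · exact absurd (hg ▸ orderOf_dvd_of_pow_eq_one (pow_seven h0)) (by norm_num)
    · exact h0
  have hM : smat g * M * ((smat g).map (frob F))ᵀ = M := by
    have h' : smat g * M.map x.right.1 * ((smat g).map (frob F))ᵀ = M := h
    rw [hr] at h'
    exact h'
  set y := smat g⁻¹ with hy
  set k := ((smat g).map (frob F))ᵀ with hk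
  have hMk : M * k = y * M := by
    calc M * k = y * (smat g * M * k) := by
          rw [← Matrix.mul_assoc, ← Matrix.mul_assoc, hy, ← map_mul, inv_mul_cancel, map_one, Matrix.one_mul]
      _ = y * M := by rw [hM]
  have hMp : ∀ p : F[X], M * aeval k p = aeval y p * M := by
    intro p
    induction p using Polynomial.induction_on' with
    | add p q hp hq => rw [map_add, map_add, Matrix.mul_add, Matrix.add_mul, hp, hq]
    | monomial n a =>
      rw [aeval_monomial, aeval_monomial, ← Matrix.mul_assoc, Algebra.commutes a M |>.symm,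
        Matrix.mul_assoc, Matrix.mul_assoc]
      congr 1
      exact (SemiconjBy.pow_right hMk n).eq
  have hk0 : aeval k (szPoly (t ^ 2)) = 0 := by
    have h1 := aeval_szPoly (szMapAut (frob F) g)
    rw [smat_szMapAut] at h1
    have h2 : ((smat g).map (frob F)).trace = t ^ 2 := by
      rw [ht, ← frob_apply]
      simp [Matrix.trace, Matrix.diag, map_sum]
    rw [h2] at h1
    apply Matrix.transpose_injective
    rw [Matrix.transpose_zero]
    have h3 : (aeval k (szPoly (t ^ 2)))ᵀ = aeval ((smat g).map (frob F)) (szPoly (t ^ 2)) := by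
      rw [hk]
      generalize szPoly (t ^ 2) = p
      induction p using Polynomial.induction_on' with
      | add p q hp hq => rw [map_add, map_add, Matrix.transpose_add, hp, hq]
      | monomial n a =>
        rw [aeval_monomial, aeval_monomial, ← Algebra.smul_def, ← Algebra.smul_def,
          Matrix.transpose_smul, Matrix.transpose_pow, Matrix.transpose_transpose]
    rw [h3, h1]
  have hy0 : aeval y (szPoly t) = 0 := by
    have := aeval_szPoly g⁻¹
    rwa [trace_inv] at this
  have hbez : ∃ a b : F[X], a * szPoly t + b * szPoly (t ^ 2) = 1 := by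
    refine ⟨C t * X ^ 3 + X ^ 3 + C t ^ 2 * X ^ 2 + C t * X ^ 2 + X ^ 2 + C t ^ 2 + C t + 1,
      C t * X ^ 3 + X ^ 3 + X + C t ^ 2 + C t, ?_⟩
    have hc : (C t : F[X]) ^ 3 + C t ^ 2 + 1 = 0 := by simpa using congrArg C hcub
    simp only [szPoly, map_pow]
    linear_combination (X ^ 6 + C t ^ 6 * X ^ 5 + (-1) * C t ^ 3 * X ^ 5 + 2 * C t ^ 2 * X ^ 5 + (-1) * C t * X ^ 5 + 3 * X ^ 5 + C t ^ 3 * X ^ 4 + C t * X ^ 4 + (-1) * X ^ 4 + C t ^ 5 * X ^ 3 + (-1) * C t ^ 4 * X ^ 3 + C t ^ 3 * X ^ 3 + (-2) * C t ^ 2 * X ^ 3 + 4 * C t * X ^ 3 + (-2) * X ^ 3 + C t ^ 7 * X ^ 2 + (-1) * C t ^ 4 * X ^ 2 + 2 * C t ^ 3 * X ^ 2 + (-1) * C t ^ 2 * X ^ 2 + 3 * C t * X ^ 2 + (-5) * X ^ 2 + C t * X + X) * hc +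
      (C t * X ^ 7 + X ^ 7 + C t ^ 2 * X ^ 6 + C t * X ^ 6 + (-2) * C t ^ 2 * X ^ 5 + C t * X ^ 5 + (-1) * X ^ 5 + 3 * C t ^ 2 * X ^ 4 + C t * X ^ 4 + X ^ 4 + 3 * C t ^ 2 * X ^ 3 + 2 * X ^ 3 + 4 * C t ^ 2 * X ^ 2 + (-1) * C t * X ^ 2 + 3 * X ^ 2 + C t ^ 2 + C t) * CharTwo.two_eq_zero (R := F[X])
  obtain ⟨a, b, hab⟩ := hbez
  have h1 := congrArg (fun p => aeval y p * M) hab
  simp only [map_add, map_mul, map_one, hy0, mul_zero, zero_add, Matrix.one_mul] at h1
  rw [Matrix.mul_assoc, ← hMp, hk0, Matrix.mul_zero, Matrix.mul_zero] at h1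
  exact h1.symm

/-- An element of `Sz(8)` commuting with an outer element has order dividing 4 or 5. -/
theorem pow_four_or_five_of_commute {x : Ext F} (hx : x.right ≠ 1) {h : Cfsg.Sz F 1}
    (hc : Commute x (SemidirectProduct.inl h)) : h ^ 4 = 1 ∨ h ^ 5 = 1 := by
  have hl := congrArg SemidirectProduct.left hc.eq
  simp only [SemidirectProduct.mul_left, SemidirectProduct.left_inl, SemidirectProduct.right_inl,
    map_one, MulAut.one_apply] at hl
  change x.left * szMapAut x.right.1 h = h * x.left at hl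
  set t := (smat h).trace with ht
  have hfix : x.right.1 t = t := by
    have e : szMapAut x.right.1 h = x.left⁻¹ * h * x.left := by
      rw [mul_assoc, ← hl, inv_mul_cancel_left]
    have := congrArg (fun z => (smat z).trace) e
    rw [smat_szMapAut, map_mul, map_mul, Matrix.trace_mul_comm, ← Matrix.mul_assoc, ← map_mul,
      mul_inv_cancel, map_one, Matrix.one_mul] at this
    rw [ht]
    calc x.right.1 (smat h).trace = ((smat h).map x.right.1).trace := by
          simp [Matrix.trace, Matrix.diag, map_sum]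
      _ = _ := this
  have hgen : frob F ∈ Subgroup.zpowers x.right.1 := by
    have hne : x.right.1 ≠ 1 := fun e => hx (Subtype.ext e)
    have hle : Subgroup.zpowers x.right.1 ≤ Gal F := Subgroup.zpowers_le.2 x.right.2
    haveI : Fact (Nat.Prime 3) := ⟨Nat.prime_three⟩
    have ho : orderOf x.right.1 = 3 := by
      rcases (Nat.dvd_prime Nat.prime_three).1 (card_gal (F := F) ▸
        (Subgroup.orderOf_coe x.right ▸ orderOf_dvd_natCard x.right)) with h1 | h1
      · exact absurd (orderOf_eq_one_iff.1 h1) hne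
      · exact h1
    haveI : Finite (Gal F) := Nat.finite_of_card_ne_zero (by rw [card_gal]; norm_num)
    rw [Subgroup.eq_of_le_of_card_ge hle (by rw [card_gal, Nat.card_zpowers, ho])]
    exact Subgroup.mem_zpowers _
  have hσ : frob F t = t := by
    have : frob F ∈ MulAction.stabilizer (RingAut F) t :=
      Subgroup.zpowers_le.2 (show x.right.1 ∈ MulAction.stabilizer (RingAut F) t from hfix) hgen
    exact this
  rw [frob_apply] at hσ
  refine pow_four_or_five ?_
  rcases eq_or_ne t 0 with h0 | h0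
  · exact Or.inl h0
  · exact Or.inr (mul_left_cancel₀ h0 (by rw [mul_one, ← sq, hσ]))

theorem edges_subset {a b : ℕ} (ha : a.Prime) (hb : b.Prime) (hab : a ≠ b) {x : Ext F}
    (hx : orderOf x = a * b) : a * b = 6 ∨ a * b = 15 := by
  have small : ∀ (h : Cfsg.Sz F 1) (d : ℕ), orderOf h = d → d ∣ 4 ∨ d ∣ 5 ∨ d ∣ 7 ∨ d ∣ 13 := by
    intro h d hd
    rcases element_cases h with e | e | e | e <;> have := hd ▸ orderOf_dvd_of_pow_eq_one e <;> tauto
  by_cases hr : x.right = 1
  · exfalso
    have ho : orderOf x.left = a * b := by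
      rw [← orderOf_injective (SemidirectProduct.inl : _ →* Ext F) SemidirectProduct.inl_injective,
        ← inl_left hr, hx]
    have key : ∀ q n : ℕ, q.Prime → a * b ∣ q ^ n → False := by
      intro q n hq h
      have h1 := (Nat.prime_dvd_prime_iff_eq ha hq).1 (ha.dvd_of_dvd_pow ((dvd_mul_right a b).trans h))
      have h2 := (Nat.prime_dvd_prime_iff_eq hb hq).1 (hb.dvd_of_dvd_pow ((dvd_mul_left b a).trans h))
      exact hab (h1.trans h2.symm)
    rcases small _ _ ho with h | h | h | h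
    · exact key 2 2 Nat.prime_two h
    · exact key 5 1 (by norm_num) (by simpa using h)
    · exact key 7 1 (by norm_num) (by simpa using h)
    · exact key 13 1 (by norm_num) (by simpa using h)
  · have h3 : 3 ∣ a * b := by
      haveI : Fact (Nat.Prime 3) := ⟨Nat.prime_three⟩
      have : orderOf x.right = 3 := by
        rcases (Nat.dvd_prime Nat.prime_three).1 (card_gal (F := F) ▸ orderOf_dvd_natCard x.right) with h1 | h1
        · exact absurd (orderOf_eq_one_iff.1 h1) hr
        · exact h1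
      exact this ▸ hx ▸ orderOf_map_dvd SemidirectProduct.rightHom x
    obtain ⟨s, hs, hs3, hmul⟩ : ∃ s : ℕ, s.Prime ∧ s ≠ 3 ∧ a * b = 3 * s := by
      rcases Nat.prime_three.dvd_mul.1 h3 with h | h
      · obtain rfl := (Nat.prime_dvd_prime_iff_eq Nat.prime_three ha).1 h
        exact ⟨b, hb, hab.symm, rfl⟩
      · obtain rfl := (Nat.prime_dvd_prime_iff_eq Nat.prime_three hb).1 h
        exact ⟨a, ha, hab, mul_comm _ _⟩
    have hy : orderOf (x ^ 3) = s := by
      rw [orderOf_pow' x (by norm_num : (3 : ℕ) ≠ 0), hx, hmul,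
        Nat.gcd_eq_right (dvd_mul_right 3 s), Nat.mul_div_cancel_left _ (by norm_num)]
    have hyr : (x ^ 3).right = 1 :=
      right_eq_one (by rw [hy]; exact (Nat.coprime_primes hs Nat.prime_three).2 hs3)
    have hyo : orderOf (x ^ 3).left = s := by
      rw [← orderOf_injective (SemidirectProduct.inl : _ →* Ext F) SemidirectProduct.inl_injective,
        ← inl_left hyr, hy]
    have hc : Commute x (SemidirectProduct.inl (x ^ 3).left) :=
      (inl_left hyr) ▸ (Commute.refl x).pow_right 3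
    rcases pow_four_or_five_of_commute hr hc with e | e <;>
      have e' := hyo ▸ orderOf_dvd_of_pow_eq_one e
    · rw [(Nat.prime_dvd_prime_iff_eq hs Nat.prime_two).1 (hs.dvd_of_dvd_pow (m := 2) (n := 2) e')] at hmul
      exact Or.inl hmul
    · rw [(Nat.prime_dvd_prime_iff_eq hs (by norm_num)).1 e'] at hmul
      exact Or.inr hmul

/-- The element of order 5 over the prime field. -/
noncomputable def g5 : Cfsg.Sz F 1 := Suzuki.gT 0 1 * Suzuki.gW F 1

theorem smat_g5 : smat (g5 : Cfsg.Sz F 1) =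
    !![1, 1, 0, 1; 1, 0, 1, 0; 0, 1, 0, 0; 1, 0, 0, 0] := by
  show Suzuki.matT (Suzuki.th F 1) 0 1 * suzukiForm F = _
  ext i j
  fin_cases i <;> fin_cases j <;>
    simp [Suzuki.matT, Suzuki.ovf, suzukiForm, Matrix.mul_apply, Fin.sum_univ_four]

theorem orderOf_g5 : orderOf (g5 : Cfsg.Sz F 1) = 5 := by
  haveI : Fact (Nat.Prime 5) := ⟨by norm_num⟩
  have hne : (g5 : Cfsg.Sz F 1) ≠ 1 := fun e => by
    have := congrFun (congrFun (congrArg smat e) 0) 1
    simp [smat_g5] at this
  refine orderOf_eq_prime (pow_eq_one_of_mul_eq 5 (X + 1) ?_) hne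
  have ht : (smat (g5 : Cfsg.Sz F 1)).trace = 1 := by
    simp [smat_g5, Matrix.trace, Fin.sum_univ_four]
  rw [szPoly, ht]
  simp only [one_pow, map_one, one_mul]
  linear_combination (X ^ 4 + X ^ 3 + X ^ 2 + X) * CharTwo.two_eq_zero (R := F[X])

theorem g5_fixed (τ : RingAut F) : szMapAut τ g5 = (g5 : Cfsg.Sz F 1) := by
  apply smat_injective
  rw [smat_szMapAut, smat_g5]
  ext i j
  fin_cases i <;> fin_cases j <;> simp

variable (F) in
include hS in
theorem exists_target_graph (N : ℕ) :
    ∃ (H : Type) (_ : Group H) (_ : Finite H), N < Nat.card H ∧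
      (∀ p : ℕ, p.Prime → (p ∣ Nat.card H ↔ p ∈ ({2, 3, 5, 7, 13} : Finset ℕ))) ∧
      (∀ p q : ℕ, p.Prime → q.Prime → p ≠ q →
        ((∃ g : H, orderOf g = p * q) ↔ p * q ∈ ({6, 10, 14, 15} : Finset ℕ))) := by
  haveI : Finite (Ext F) := Nat.finite_of_card_ne_zero (by rw [card_ext]; norm_num)
  obtain ⟨H, iH, fH, hN, hpr, hgr⟩ :=
    exists_large_with_graph (extAct (F := F)) 2 Nat.prime_two isPGroup_module N
  have hprimes : ∀ p : ℕ, p.Prime →
      (p = 2 ∨ p ∣ Nat.card (Ext F) ↔ p ∈ ({2, 3, 5, 7, 13} : Finset ℕ)) := by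
    intro p hp
    rw [card_ext]
    simp only [hp.dvd_mul, Finset.mem_insert, Finset.mem_singleton]
    constructor
    · rintro (rfl | ((((h | h) | h) | h) | h))
      · exact Or.inl rfl
      · exact Or.inl ((Nat.prime_dvd_prime_iff_eq hp Nat.prime_two).1 (hp.dvd_of_dvd_pow h))
      all_goals
        have := (Nat.prime_dvd_prime_iff_eq hp (by norm_num)).1 h
        tauto
    · rintro (rfl | rfl | rfl | rfl | rfl) <;> norm_num
  refine ⟨H, iH, fH, hN, fun p hp => (hpr p hp).trans (hprimes p hp), fun a b ha hb hab => ?_⟩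
  rw [hgr a b ha hb hab]
  simp only [Finset.mem_insert, Finset.mem_singleton]
  constructor
  · rintro (⟨x, hx⟩ | ⟨x, v, hv, hfix, hor⟩)
    · rcases edges_subset ha hb hab hx with h | h <;> simp [h]
    · obtain ⟨r, hr, hr2, hro, hmul⟩ :
          ∃ r : ℕ, r.Prime ∧ r ≠ 2 ∧ orderOf x = r ∧ a * b = 2 * r := by
        rcases hor with ⟨rfl, hgo⟩ | ⟨rfl, hgo⟩
        · exact ⟨b, hb, hab.symm, hgo, rfl⟩
        · exact ⟨a, ha, hab, hgo, mul_comm _ _⟩
      have hr13 : r ≠ 13 := by
        rintro rfl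
        refine hv (Multiplicative.toAdd.injective ?_)
        rw [toAdd_one]
        exact not_fix_thirteen hro (congrArg Multiplicative.toAdd hfix)
      have := (hprimes r hr).1 (Or.inr (hro ▸ orderOf_dvd_natCard x))
      simp only [Finset.mem_insert, Finset.mem_singleton] at this
      rcases this with rfl | rfl | rfl | rfl | rfl <;> simp_all
  · let σ : Gal F := ⟨frob F, Subgroup.mem_zpowers _⟩
    have hσ : orderOf σ = 3 := by rw [← Subgroup.orderOf_coe]; exact orderOf_frob
    have hfix : ∀ (x : Ext F) (M : Matrix (Fin 4) (Fin 4) F), M ≠ 0 → actAdd x M = M →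
        ∀ r : ℕ, orderOf x = r → a * b = 2 * r →
        ∃ (g : Ext F) (v : Multiplicative (Matrix (Fin 4) (Fin 4) F)), v ≠ 1 ∧ extAct g v = v ∧
          (a = 2 ∧ orderOf g = b ∨ b = 2 ∧ orderOf g = a) := by
      intro x M hM hxM r hxr hmul
      refine ⟨x, Multiplicative.ofAdd M, fun e => hM (congrArg Multiplicative.toAdd e),
        congrArg Multiplicative.ofAdd hxM, ?_⟩
      have h2 : 2 ∣ a * b := hmul ▸ dvd_mul_right 2 r
      rcases Nat.prime_two.dvd_mul.1 h2 with h | h
      · obtain rfl := (Nat.prime_dvd_prime_iff_eq Nat.prime_two ha).1 h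
        exact Or.inl ⟨rfl, by omega⟩
      · obtain rfl := (Nat.prime_dvd_prime_iff_eq Nat.prime_two hb).1 h
        exact Or.inr ⟨rfl, by omega⟩
    intro h
    rcases h with h | h | h | h
    · refine Or.inr (hfix (SemidirectProduct.inr σ) 1 one_ne_zero ?_ 3
        (by rw [orderOf_injective _ SemidirectProduct.inr_injective, hσ]) h)
      show smat (1 : Cfsg.Sz F 1) * (1 : Matrix (Fin 4) (Fin 4) F).map σ.1 *
          ((smat (1 : Cfsg.Sz F 1)).map (frob F))ᵀ = 1
      simp [Matrix.map_one]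
    · refine Or.inr (hfix (SemidirectProduct.inl g5) (suzukiForm F) ?_ ?_ 5
        (by rw [orderOf_injective _ SemidirectProduct.inl_injective, orderOf_g5]) h)
      · intro e
        simpa [suzukiForm] using congrFun (congrFun e 0) 3
      · show smat g5 * (suzukiForm F).map (1 : RingAut F) * ((smat g5).map (frob F))ᵀ = _
        rw [← smat_szMapAut, g5_fixed, show (suzukiForm F).map (1 : RingAut F) = suzukiForm F by ext i j; rfl]
        exact Suzuki.form_mul_transpose (Suzuki.isSuzMat_coe g5).1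
    · haveI : Fact (Nat.Prime 7) := ⟨by norm_num⟩
      obtain ⟨l, hl0, hl1⟩ := Suzuki.exists_ne_zero_ne_one (F := F) (m := 1)
      set u : Fˣ := Units.mk0 l hl0
      have h7 : l ^ 7 = 1 := mul_left_cancel₀ hl0 (by rw [← pow_succ', mul_one]; exact pow_eight l)
      have hu : orderOf (Suzuki.gD u : Cfsg.Sz F 1) = 7 := by
        refine orderOf_eq_prime ?_ ?_
        · rw [show (Suzuki.gD u : Cfsg.Sz F 1) = Suzuki.gDHom F 1 u from rfl, ← map_pow,
            show u ^ 7 = 1 from Units.ext (by simpa [u] using h7), map_one]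
        · intro e
          have := congrFun (congrFun (congrArg smat e) 1) 1
          simp [smat, Suzuki.gD_coe, Suzuki.matD, th_one_apply, u] at this
          exact hl1 (calc l = l ^ 8 := (pow_eight l).symm
            _ = (l ^ 4) ^ 2 := by ring
            _ = 1 := by rw [this]; simp)
      refine Or.inr (hfix (SemidirectProduct.inl (Suzuki.gD u)) (Matrix.single 0 1 1) ?_ ?_ 7
        (by rw [orderOf_injective _ SemidirectProduct.inl_injective, hu]) h)
      · intro e
        simpa using congrFun (congrFun e 0) 1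
      · show Suzuki.matD (Suzuki.th F 1) (u : F) * (Matrix.single 0 1 (1 : F)).map (1 : RingAut F) *
          ((Suzuki.matD (Suzuki.th F 1) (u : F)).map (frob F))ᵀ = _
        rw [show (Matrix.single 0 1 (1 : F)).map (1 : RingAut F) = (Matrix.single (0 : Fin 4) (1 : Fin 4) (1 : F)) by ext i j; rfl,
          show Matrix.single (0 : Fin 4) (1 : Fin 4) (1 : F) = !![0, 1, 0, 0; 0, 0, 0, 0; 0, 0, 0, 0; 0, 0, 0, 0] by
            ext i j; fin_cases i <;> fin_cases j <;> simp]
        ext i j
        fin_cases i <;> fin_cases j <;>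
          simp [Suzuki.matD, th_one_apply, frob_apply, Matrix.mul_apply, Fin.sum_univ_four, u]
        linear_combination (l ^ 7 + 1) * h7
    · refine Or.inl ⟨SemidirectProduct.inl g5 * SemidirectProduct.inr σ, ?_⟩
      have hc : Commute (SemidirectProduct.inl g5 : Ext F) (SemidirectProduct.inr σ) := by
        refine SemidirectProduct.ext ?_ ?_
        · simp [g5_fixed]
        · simp
      rw [hc.orderOf_mul_eq_mul_orderOf_of_coprime (by
        rw [orderOf_injective _ SemidirectProduct.inl_injective,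
          orderOf_injective _ SemidirectProduct.inr_injective, orderOf_g5, hσ]; norm_num),
        orderOf_injective _ SemidirectProduct.inl_injective,
        orderOf_injective _ SemidirectProduct.inr_injective, orderOf_g5, hσ, h]

end Cfsg.Agent.GKTools.SzExt
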