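import Cfsg.Agent.GKTools.AffineChar
import Mathlib.NumberTheory.LegendreSymbol.AddCharacter
import Mathlib.GroupTheory.SpecificGroups.Cyclic

/-!
# A solvable group of order 6048 with an irreducible character of degree 42
-/

set_option autoImplicit false
set_option linter.style.haveILetI false

noncomputable section

namespace Cfsg.Agent.GKTools.U33Solvable

abbrev W := (ZMod 2 × ZMod 2 × ZMod 2) × ZMod 9

abbrev V := Multiplicative W

/-- Multiplication by a generator of `F₈ˣ` and by `2` modulo nine. -/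
def s : MulAut V :=
  AddEquiv.toMultiplicative
    { toFun := fun v => ((v.1.2.2, v.1.1 + v.1.2.2, v.1.2.1), 2 * v.2)
      invFun := fun v => ((v.1.2.1 + v.1.1, v.1.2.2, v.1.1), 5 * v.2)
      left_inv := by decide +kernel
      right_inv := by decide +kernel
      map_add' := by decide +kernel }

theorem s_pow : s ^ 42 = 1 := by
  refine MulEquiv.ext fun v => ?_
  revert v
  decide +kernel

theorem s_regular : ∀ n : Fin 42,
    ((s ^ n.val) (Multiplicative.ofAdd ((0 : ZMod 2 × ZMod 2 × ZMod 2), (1 : ZMod 9)))).toAdd.2 = 1 →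
    (∀ e : ZMod 2 × ZMod 2 × ZMod 2,
      ((s ^ n.val) (Multiplicative.ofAdd (e, (0 : ZMod 9)))).toAdd.1.1 = e.1) → n = 0 := by
  decide +kernel

theorem orderOf_s : orderOf s = 42 := by
  rw [orderOf_eq_iff (by norm_num)]
  refine ⟨s_pow, fun m hm hpos h => ?_⟩
  have := s_regular ⟨m, hm⟩ (by show ((s ^ m) _).toAdd.2 = 1; rw [h]; rfl)
    (fun e => by show ((s ^ m) _).toAdd.1.1 = e.1; rw [h]; rfl)
  simp [Fin.ext_iff] at this
  omega

theorem zeta_nine : IsPrimitiveRoot (Complex.exp (2 * Real.pi * Complex.I / (9 : ℕ))) 9 :=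
  Complex.isPrimitiveRoot_exp 9 (by norm_num)

theorem zeta_two : IsPrimitiveRoot (-1 : ℂ) 2 := IsPrimitiveRoot.neg_one 0 (by norm_num)

def psi9 : AddChar (ZMod 9) ℂ :=
  AddChar.zmodChar 9 ((IsPrimitiveRoot.iff_def _ _).mp zeta_nine).left

def psi2 : AddChar (ZMod 2) ℂ :=
  AddChar.zmodChar 2 ((IsPrimitiveRoot.iff_def _ _).mp zeta_two).left

theorem psi9_inj {a b : ZMod 9} (h : psi9 a = psi9 b) : a = b :=
  ZMod.val_injective 9 (zeta_nine.pow_inj (ZMod.val_lt a) (ZMod.val_lt b) h)

theorem psi2_inj {a b : ZMod 2} (h : psi2 a = psi2 b) : a = b :=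
  ZMod.val_injective 2 (zeta_two.pow_inj (ZMod.val_lt a) (ZMod.val_lt b) h)

/-- The linear character. -/
def mu : V →* ℂˣ :=
  MonoidHom.toHomUnits
    { toFun := fun v => psi2 v.toAdd.1.1 * psi9 v.toAdd.2
      map_one' := by simp
      map_mul' := fun a b => by simp [AddChar.map_add_eq_mul]; ring }

theorem exists_group : ∃ (H : Type) (_ : Group H) (_ : Fintype H), Group.IsSolvable H ∧
    Nat.card H = 6048 ∧ ∃ d ∈ Cfsg.charDegrees H, 42 ∣ d := by
  let K := ↥(Subgroup.zpowers s)
  let φ : K →* MulAut V := (Subgroup.zpowers s).subtype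
  haveI : Finite V := inferInstanceAs (Finite W)
  haveI : Finite K := Nat.finite_of_card_ne_zero (by rw [Nat.card_zpowers, orderOf_s]; norm_num)
  let G := V ⋊[φ] K
  haveI : Finite G := Finite.of_equiv _ SemidirectProduct.equivProd.symm
  obtain ⟨χ, hχ, h1⟩ := AffineChar.exists_irr φ mu (fun k hk => by
    obtain ⟨n, hn⟩ := (mem_powers_iff_mem_zpowers (x := s)).2 k.2
    have hn' : (k : MulAut V) = s ^ (n % 42) := by
      rw [← hn, ← orderOf_s, pow_mod_orderOf]
    have hk' : ∀ v : V, psi2 ((k : MulAut V) v).toAdd.1.1 * psi9 ((k : MulAut V) v).toAdd.2 =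
        psi2 v.toAdd.1.1 * psi9 v.toAdd.2 := fun v => congrArg Units.val (hk v)
    have h0 := s_regular ⟨n % 42, Nat.mod_lt _ (by norm_num)⟩ ?_ ?_
    · refine Subtype.ext ?_
      rw [hn', show n % 42 = 0 from congrArg Fin.val h0, pow_zero]
      rfl
    · have e : ∀ v : V, v.toAdd.1 = 0 → ((k : MulAut V) v).toAdd.1 = 0 := by
        rw [hn']
        generalize n % 42 = m
        induction m with
        | zero => exact fun v hv => hv
        | succ m ih =>
          intro v hv
          rw [pow_succ, MulAut.mul_apply]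
          refine ih _ ?_
          show ((v.toAdd.1.2.2, v.toAdd.1.1 + v.toAdd.1.2.2, v.toAdd.1.2.1) : ZMod 2 × ZMod 2 × ZMod 2) = 0
          rw [hv]; rfl
      have h := hk' (Multiplicative.ofAdd (0, 1))
      rw [e _ rfl] at h
      simp only [toAdd_ofAdd, Prod.fst_zero, AddChar.map_zero_eq_one, one_mul] at h
      rw [hn'] at h
      exact psi9_inj h
    · intro a
      have e : ∀ v : V, v.toAdd.2 = 0 → ((k : MulAut V) v).toAdd.2 = 0 := by
        rw [hn']
        generalize n % 42 = m
        induction m with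
        | zero => exact fun v hv => hv
        | succ m ih =>
          intro v hv
          rw [pow_succ, MulAut.mul_apply]
          refine ih _ ?_
          show 2 * v.toAdd.2 = 0
          rw [hv, mul_zero]
      have h := hk' (Multiplicative.ofAdd (a, 0))
      rw [e _ rfl] at h
      simp only [toAdd_ofAdd, AddChar.map_zero_eq_one, mul_one] at h
      rw [hn'] at h
      exact psi2_inj h)
  letI : Fintype G := Fintype.ofFinite G
  have hcG : Nat.card G = 3024 := by
    rw [Nat.card_congr SemidirectProduct.equivProd, Nat.card_prod, Nat.card_congr Multiplicative.toAdd,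
      Nat.card_zpowers, orderOf_s]
    simp
  refine ⟨G × Multiplicative (ZMod 2), inferInstance, inferInstance, ?_, ?_, ?_⟩
  · haveI : Group.IsSolvable G := AffineChar.isSolvable (V := V) (K := K)
      (isSolvable_of_comm fun a b => by
        obtain ⟨i, hi⟩ := a.2; obtain ⟨j, hj⟩ := b.2
        exact Subtype.ext (by
          show (a : MulAut V) * b = b * a
          rw [← hi, ← hj]; exact (Commute.refl s).zpow_zpow i j)) φ
    exact solvable_of_ker_le_range (MonoidHom.inr G (Multiplicative (ZMod 2)))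
      (MonoidHom.fst G (Multiplicative (ZMod 2))) (fun x hx => ⟨x.2, Prod.ext hx.symm rfl⟩)
  · rw [Nat.card_prod, hcG, Nat.card_congr Multiplicative.toAdd, Nat.card_zmod]
  · refine ⟨42, ⟨⟨_, Char.isIrrCharacter_prodMul hχ (Char.trivialIrr (Multiplicative (ZMod 2))).2⟩,
      Char.charDegree_of_eq ?_⟩, dvd_rfl⟩
    show χ 1 * 1 = _
    rw [h1, Nat.card_zpowers, orderOf_s, mul_one]

end Cfsg.Agent.GKTools.U33Solvable
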