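import Cfsg.Agent.GKTools.U34Model
import Cfsg.Agent.GKTools.Unbounded
import Cfsg.Agent.IsoPSU42.Main
import Cfsg.Agent.Classical.USimple
import Cfsg.Agent.Classical.UGroup

/-!
# `PSU₃(4)` and its twelve-dimensional module over five elements

Functions on the 65 isotropic points summing to zero on every block, modulo constants: elements
of order 13 are fixed-point-free, so the extensions have the prime graph of the group.
-/

set_option autoImplicit false
set_option linter.style.haveILetI false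

noncomputable section

namespace Cfsg.Agent.GKTools.U34

open Cfsg.Agent.Plane21 Matrix

/-- The simply connected group, which has trivial centre. -/
abbrev L : Type := ↥(Cfsg.SU 3 E16 4)

/-- The matrix of an element. -/
def toMat : L →* Matrix (Fin 3) (Fin 3) E16 where
  toFun g := ((g : Matrix.SpecialLinearGroup (Fin 3) E16) : Matrix (Fin 3) (Fin 3) E16)
  map_one' := rfl
  map_mul' _ _ := rfl

theorem toMat_injective : Function.Injective toMat := fun _ _ h => Subtype.ext (Subtype.ext h)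

theorem hf_eq (u v : Fin 3 → E16) : Cfsg.hermForm 3 E16 4 u v = hf u v := by
  simp [Cfsg.hermForm, hf, Fin.sum_univ_three]

theorem hf_apply (g : L) (u v : Fin 3 → E16) : hf (toMat g *ᵥ u) (toMat g *ᵥ v) = hf u v := by
  rw [← hf_eq, ← hf_eq]
  exact g.2 u v

theorem hf_smul (c d : E16) (u v : Fin 3 → E16) : hf (c • u) (d • v) = c * d ^ 4 * hf u v := by
  simp only [hf, Pi.smul_apply, smul_eq_mul]
  ring

theorem add_pow_four (a b : E16) : (a + b) ^ 4 = a ^ 4 + b ^ 4 := by revert a b; decide +kernel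

theorem exists_lift {M : Matrix (Fin 3) (Fin 3) E16} (h1 : M.det = 1) (h2 : Mᵀ * M.map (· ^ 4) = 1) :
    ∃ g : L, toMat g = M :=
  ⟨⟨⟨M, h1⟩, (RecogA.mem_SU_iff (by norm_num) add_pow_four).2 h2⟩, rfl⟩

/-- Every nonzero vector is a multiple of a normalised one. -/
theorem exists_normal (v : Fin 3 → E16) (hv : v ≠ 0) : ∃ (c : E16) (u : Fin 3 → E16), c ≠ 0 ∧ v = c • u ∧
    ((∃ a b, u = ![1, a, b]) ∨ (∃ b, u = ![0, 1, b]) ∨ u = ![0, 0, 1]) := by
  by_cases h0 : v 0 = 0
  · by_cases h1 : v 1 = 0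
    · have h2 : v 2 ≠ 0 := fun h2 => hv (by funext i; fin_cases i <;> assumption)
      exact ⟨v 2, ![0, 0, 1], h2, by funext i; fin_cases i <;> simp [h0, h1], Or.inr (Or.inr rfl)⟩
    · refine ⟨v 1, ![0, 1, (v 1)⁻¹ * v 2], h1, ?_, Or.inr (Or.inl ⟨_, rfl⟩)⟩
      funext i; fin_cases i <;> simp [h0, h1]
  · refine ⟨v 0, ![1, (v 0)⁻¹ * v 1, (v 0)⁻¹ * v 2], h0, ?_, Or.inl ⟨_, _, rfl⟩⟩
    funext i; fin_cases i <;> simp [h0]

theorem pt_cover (v : Fin 3 → E16) (hv : v ≠ 0) (h : hf v v = 0) :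
    ∃ (j : Fin 65) (c : E16), v = c • pt j := by
  obtain ⟨c, u, hc, rfl, hu⟩ := exists_normal v hv
  rw [hf_smul, mul_eq_zero, or_iff_right (mul_ne_zero hc (pow_ne_zero _ hc))] at h
  rcases hu with ⟨a, b, rfl⟩ | ⟨b, rfl⟩ | rfl
  · obtain ⟨j, hj⟩ := pt_cover_affine a b (by rw [← h]; simp [hf]; ring)
    exact ⟨j, c, by rw [hj]⟩
  · obtain ⟨j, hj⟩ := pt_cover_line b (by rw [← h]; simp [hf]; ring)
    exact ⟨j, c, by rw [hj]⟩
  · simp [hf] at h

theorem block_all (n : Fin 3 → E16) : BlockOK n := by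
  intro hn
  have hn0 : n ≠ 0 := by rintro rfl; simp [hf] at hn
  obtain ⟨c, u, hc, rfl, hu⟩ := exists_normal n hn0
  have hc' : c * c ^ 4 ≠ 0 := mul_ne_zero hc (pow_ne_zero _ hc)
  have hb : blockSet (c • u) = blockSet u := by
    refine List.filter_congr fun j _ => ?_
    have : hf (pt j) (c • u) = c ^ 4 * hf (pt j) u := by
      simpa using hf_smul 1 c (pt j) u
    simp [this, hc]
  have hok : BlockOK u := by
    rcases hu with ⟨a, b, rfl⟩ | ⟨b, rfl⟩ | rfl
    exacts [block_affine a b, block_line b, block_point]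
  rw [hb]
  exact hok fun h => hn (by rw [hf_smul, h, mul_zero])

theorem pt_ne_zero (i : Fin 65) : pt i ≠ 0 := by
  intro h
  rcases pt_head i with h' | ⟨-, h'⟩ <;> simp [h] at h'

theorem pt_unique (i j : Fin 65) (c : E16) (h : pt i = c • pt j) : i = j := by
  have hc : c ≠ 0 := by
    rintro rfl
    exact pt_ne_zero i (by rw [h, zero_smul])
  have e0 : pt i 0 = c * pt j 0 := congrFun h 0
  have e1 : pt i 1 = c * pt j 1 := congrFun h 1
  have hc1 : c = 1 := by
    rcases pt_head i with a | ⟨a, a'⟩ <;> rcases pt_head j with b | ⟨b, b'⟩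
    · rw [a, b, mul_one] at e0; exact e0.symm
    · rw [a, b, mul_zero] at e0; exact absurd e0 one_ne_zero
    · rw [a, b, mul_one] at e0; exact absurd e0.symm hc
    · rw [a', b', mul_one] at e1; exact e1.symm
  exact pt_inj i j (by rw [h, hc1, one_smul])

theorem exists_perm : ∃ φ : L →* Equiv.Perm (Fin 65),
    ∀ g i, ∃ c : E16, c ≠ 0 ∧ toMat g *ᵥ pt i = c • pt (φ g i) := by
  obtain ⟨φ, hφ⟩ := IsoPSU42.exists_point_hom toMat pt pt_ne_zero pt_unique fun g i => by
    refine pt_cover _ (fun h => pt_ne_zero i ?_) (by rw [hf_apply, pt_iso])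
    have := congrArg (fun v => toMat g⁻¹ *ᵥ v) h
    simpa [Matrix.mulVec_mulVec, ← map_mul] using this
  refine ⟨φ, fun g i => ?_⟩
  obtain ⟨c, hc⟩ := (hφ g i (φ g i)).1 rfl
  refine ⟨c, fun h => pt_ne_zero i ?_, hc⟩
  rw [h, zero_smul] at hc
  have := congrArg (fun v => toMat g⁻¹ *ᵥ v) hc
  simpa [Matrix.mulVec_mulVec, ← map_mul] using this

/-- Functions summing to zero on every block. -/
def code : AddSubgroup (Fin 65 → ZMod 5) where
  carrier := {f | ∀ n, hf n n ≠ 0 → ∑ j ∈ Finset.univ.filter (fun j => hf (pt j) n = 0), f j = 0}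
  zero_mem' := fun n _ => by simp
  add_mem' := fun {f g} hf' hg n hn => by
    simp only [Pi.add_apply, Finset.sum_add_distrib, hf' n hn, hg n hn, add_zero]
  neg_mem' := fun {f} hf' n hn => by
    simp only [Pi.neg_apply, Finset.sum_neg_distrib, hf' n hn, neg_zero]

theorem sum_block (n : Fin 3 → E16) (f : Fin 65 → ZMod 5) :
    ((blockSet n).map f).sum = ∑ j ∈ Finset.univ.filter (fun j => hf (pt j) n = 0), f j := by
  rw [blockSet, ← List.sum_toFinset _ ((List.nodup_finRange 65).filter _)]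
  refine Finset.sum_congr ?_ fun _ _ => rfl
  ext j
  simp [blockSet]

theorem const_mem (c : ZMod 5) : (fun _ => c) ∈ code := fun n hn => by
  rw [← sum_block, List.map_const', List.sum_replicate]
  obtain ⟨m, hm⟩ := Nat.dvd_of_mod_eq_zero (block_all n hn).1
  rw [hm, mul_smul]
  exact ZModModule.char_nsmul_eq_zero 5 _

theorem witness_mem : witness ∈ code := fun n hn => by rw [← sum_block]; exact (block_all n hn).2

/-- The differences of values. -/
def diffMap : (Fin 65 → ZMod 5) →+ (Fin 65 × Fin 65 → ZMod 5) where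
  toFun f := fun p => f p.1 - f p.2
  map_zero' := by funext p; simp
  map_add' f g := by funext p; simp; ring

/-- The module: the code modulo the constants. -/
def modl : AddSubgroup (Fin 65 × Fin 65 → ZMod 5) := code.map diffMap

variable (φ : L →* Equiv.Perm (Fin 65))

theorem code_inv (hφ : ∀ g i, ∃ c : E16, c ≠ 0 ∧ toMat g *ᵥ pt i = c • pt (φ g i)) (g : L)
    {f : Fin 65 → ZMod 5} (hf' : f ∈ code) : (fun j => f (φ g⁻¹ j)) ∈ code := by
  intro n hn
  have key : ∀ i, hf (pt (φ g i)) n = 0 ↔ hf (pt i) (toMat g⁻¹ *ᵥ n) = 0 := by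
    intro i
    obtain ⟨c, hc, he⟩ := hφ g i
    have hn' : toMat g *ᵥ (toMat g⁻¹ *ᵥ n) = n := by
      rw [Matrix.mulVec_mulVec, ← map_mul, mul_inv_cancel, map_one, Matrix.one_mulVec]
    have h1 : hf (pt i) (toMat g⁻¹ *ᵥ n) = c * hf (pt (φ g i)) n := by
      rw [← hf_apply g (pt i) (toMat g⁻¹ *ᵥ n), hn', he]
      simpa using hf_smul c 1 (pt (φ g i)) n
    rw [h1, mul_eq_zero, or_iff_right hc]
  have h := hf' (toMat g⁻¹ *ᵥ n) (by rwa [hf_apply])
  rw [← h]
  refine Finset.sum_equiv (φ g⁻¹) (fun j => ?_) fun j _ => rfl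
  simp only [Finset.mem_filter, Finset.mem_univ, true_and]
  rw [← key, map_inv, Equiv.Perm.inv_def, Equiv.apply_symm_apply]

theorem modl_inv (hφ : ∀ g i, ∃ c : E16, c ≠ 0 ∧ toMat g *ᵥ pt i = c • pt (φ g i)) (g : L)
    {D : Fin 65 × Fin 65 → ZMod 5} (hD : D ∈ modl) : (fun p => D (φ g⁻¹ p.1, φ g⁻¹ p.2)) ∈ modl := by
  obtain ⟨f, hf', rfl⟩ := hD
  exact ⟨_, code_inv φ hφ g hf', rfl⟩

/-- The action on the module. -/
def act (hφ : ∀ g i, ∃ c : E16, c ≠ 0 ∧ toMat g *ᵥ pt i = c • pt (φ g i)) :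
    L →* MulAut (Multiplicative modl) where
  toFun g := AddEquiv.toMultiplicative
    { toFun := fun D => ⟨_, modl_inv φ hφ g D.2⟩
      invFun := fun D => ⟨_, modl_inv φ hφ g⁻¹ D.2⟩
      left_inv := fun D => Subtype.ext (funext fun p => by simp)
      right_inv := fun D => Subtype.ext (funext fun p => by simp)
      map_add' := fun _ _ => rfl }
  map_one' := MulEquiv.ext fun D => Multiplicative.toAdd.injective (Subtype.ext (funext fun p => by
    show (Multiplicative.toAdd D).1 (φ 1⁻¹ p.1, φ 1⁻¹ p.2) = _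
    simp))
  map_mul' g h := MulEquiv.ext fun D => Multiplicative.toAdd.injective (Subtype.ext (funext fun p => by
    show (Multiplicative.toAdd D).1 (φ (g * h)⁻¹ p.1, φ (g * h)⁻¹ p.2) =
      (Multiplicative.toAdd D).1 (φ h⁻¹ (φ g⁻¹ p.1), φ h⁻¹ (φ g⁻¹ p.2))
    simp))

theorem sqField : Classical.U.SqField E16 4 :=
  Classical.U.sqField_of_fintype (by rw [show Fintype.card E16 = 16 from rfl]; norm_num)

theorem center_eq_bot : Subgroup.center L = ⊥ :=
  Subgroup.eq_bot_of_card_eq _ (Classical.U.card_center_SU sqField (by norm_num))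

theorem card_L : Nat.card L = 62400 := by
  have h := Classical.U.card_PSU sqField (n := 3) (by norm_num)
  have hq : Nat.card (Cfsg.PSU 3 E16 4) = Nat.card L := by
    have h2 := Subgroup.card_eq_card_quotient_mul_card_subgroup (Subgroup.center L)
    rw [center_eq_bot, Subgroup.card_bot, mul_one, ← center_eq_bot] at h2
    exact h2.symm
  rw [Classical.U.card_UG sqField, hq] at h
  simp only [Finset.prod_range_succ, Finset.prod_range_zero] at h
  norm_num [Nat.even_iff] at h ⊢
  omega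

theorem exists_pow_eq_one (g : L) : ∃ e ∈ ({4, 10, 13, 15} : Finset ℕ), g ^ e = 1 := by
  set M := toMat g with hM
  have hU := (RecogA.mem_SU_iff (by norm_num) add_pow_four).1 g.2
  change Mᵀ * M.map (· ^ 4) = 1 at hU
  have hdet : M.det = 1 := (g : Matrix.SpecialLinearGroup (Fin 3) E16).2
  have hadj : M.adjugate = (M.map (· ^ 4))ᵀ := by
    have h1 : (M.map (· ^ 4))ᵀ * M = 1 := by
      have := congrArg Matrix.transpose hU
      rwa [Matrix.transpose_mul, Matrix.transpose_transpose, Matrix.transpose_one] at this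
    calc M.adjugate = (M.map (· ^ 4))ᵀ * M * M.adjugate := by rw [h1, one_mul]
      _ = (M.map (· ^ 4))ᵀ := by rw [mul_assoc, Matrix.mul_adjugate, hdet, one_smul, mul_one]
  have hs : M.trace ^ 4 = M.adjugate.trace := by
    rw [hadj, Matrix.trace_transpose, Matrix.trace_fin_three, Matrix.trace_fin_three, add_pow_four,
      add_pow_four]
    rfl
  obtain ⟨e, he, hc⟩ := coeff_spectrum M.trace
  refine ⟨e, he, toMat_injective ?_⟩
  rw [map_pow, map_one, ← hM]
  exact RecogA.pow_eq_one_of_coeff (RingHom.id E16) M hdet rfl hs hc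

theorem exists_elements : (∃ g : L, toMat g = g13 ∧ orderOf g = 13) ∧
    (∃ g : L, orderOf g = 5 * 2) ∧ (∃ g : L, orderOf g = 5 * 3) := by
  obtain ⟨⟨a1, a2, a3, a4⟩, ⟨b1, b2, b3, b4, b5⟩, ⟨c1, c2, c3, c4, c5⟩⟩ := elements_ok
  have hp : ∀ (g : L) (n : ℕ), g ^ n = 1 ↔ toMat g ^ n = 1 := fun g n => by
    rw [← map_pow, ← map_one toMat, toMat_injective.eq_iff]
  obtain ⟨a, ha⟩ := exists_lift a1 a2
  obtain ⟨b, hb⟩ := exists_lift b1 b2
  obtain ⟨c, hc⟩ := exists_lift c1 c2
  refine ⟨⟨a, ha, ?_⟩, ⟨b, ?_⟩, ⟨c, ?_⟩⟩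
  · haveI : Fact (Nat.Prime 13) := ⟨by norm_num⟩
    refine orderOf_eq_prime ((hp a 13).2 (by rw [ha, a3])) fun h => a4 ?_
    rw [← ha, h, map_one]
  · refine orderOf_eq_of_pow_and_pow_div_prime (by norm_num) ((hp b _).2 (by rw [hb]; exact b3)) ?_
    intro p hpp hpd h
    rw [hp, hb] at h
    rcases hpp.dvd_mul.1 hpd with hd | hd
    · rw [(Nat.prime_dvd_prime_iff_eq hpp (by norm_num)).1 hd] at h; exact b5 h
    · rw [(Nat.prime_dvd_prime_iff_eq hpp (by norm_num)).1 hd] at h; exact b4 h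
  · refine orderOf_eq_of_pow_and_pow_div_prime (by norm_num) ((hp c _).2 (by rw [hc]; exact c3)) ?_
    intro p hpp hpd h
    rw [hp, hc] at h
    rcases hpp.dvd_mul.1 hpd with hd | hd
    · rw [(Nat.prime_dvd_prime_iff_eq hpp (by norm_num)).1 hd] at h; exact c5 h
    · rw [(Nat.prime_dvd_prime_iff_eq hpp (by norm_num)).1 hd] at h; exact c4 h

theorem fixed_const (hφ : ∀ g i, ∃ c : E16, c ≠ 0 ∧ toMat g *ᵥ pt i = c • pt (φ g i)) {g : L}
    (hg : toMat g = g13) (D : modl) (hD : ∀ p : Fin 65 × Fin 65, D.1 (φ g p.1, φ g p.2) = D.1 p) :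
    D = 0 := by
  obtain ⟨f, hf', hfD⟩ := D.2
  have hσ : ∀ i, φ g i = sig i := fun i => by
    obtain ⟨c, hc, he⟩ := hφ g i
    rw [hg, sig_spec] at he
    refine pt_unique _ _ (c⁻¹ * scal i) ?_
    rw [mul_smul, he, inv_smul_smul₀ hc]
  set c := f (sig 0) - f 0 with hc
  have hstep : ∀ i, f (sig i) = f i + c := fun i => by
    have h := hD (i, 0)
    simp only [← hfD, hσ] at h
    change f (sig i) - f (sig 0) = f i - f 0 at h
    rw [hc]; linear_combination h
  have hit : ∀ k i, f (sig^[k] i) = f i + k • c := by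
    intro k
    induction k with
    | zero => simp
    | succ k ih =>
      intro i
      rw [Function.iterate_succ_apply', hstep, ih, succ_nsmul]
      ring
  have hc0 : c = 0 := by
    have h := hit 13 0
    rw [sig_period] at h
    have h' : (13 : ℕ) • c = 0 := by linear_combination -h
    exact (by decide : ∀ x : ZMod 5, (13 : ℕ) • x = 0 → x = 0) c h'
  have horb : ∀ i, f i = f (rep (orb i).1) := fun i => by
    conv_lhs => rw [← orb_spec i, hit, hc0, smul_zero, add_zero]
  have hall := blk_spec.2 (fun r => f (rep r)) fun k => by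
    have h := hf' (blk k) (blk_spec.1 k)
    rw [← sum_block] at h
    rw [List.map_map]
    refine Eq.trans (congrArg List.sum (List.map_congr_left fun j _ => ?_)) h
    exact (horb j).symm
  refine Subtype.ext (funext fun p => ?_)
  rw [← hfD]
  show f p.1 - f p.2 = 0
  rw [horb p.1, horb p.2, hall, hall (orb p.2).1, sub_self]

theorem exists_large (N : ℕ) :
    ∃ (H : Type) (_ : Group H) (_ : Finite H), N < Nat.card H ∧ SamePrimeGraph L H := by
  obtain ⟨φ, hφ⟩ := exists_perm
  obtain ⟨⟨g, hg, hg13⟩, h10, h15⟩ := exists_elements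
  haveI : Nontrivial (Multiplicative modl) := by
    have : (⟨_, witness, witness_mem, rfl⟩ : modl) ≠ 0 := fun h => by
      have h1 : ∀ i j, witness i - witness j = 0 := fun i j => congrFun (congrArg Subtype.val h) (i, j)
      have h2 : ∃ i, witness i ≠ witness 0 := by decide +kernel
      obtain ⟨i, hi⟩ := h2
      exact hi (sub_eq_zero.1 (h1 i 0))
    exact ⟨⟨Multiplicative.ofAdd _, 1, fun h => this (Multiplicative.ofAdd.injective h)⟩⟩
  refine exists_samePrimeGraph_large (act φ hφ) 5 (by norm_num)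
    (fun v => ⟨1, Multiplicative.toAdd.injective (Subtype.ext (funext fun p => ?_))⟩)
    (by rw [card_L]; norm_num) ?_ N
  · rw [pow_one, toAdd_pow, toAdd_one]
    show (5 : ℕ) • (Multiplicative.toAdd v).1 p = 0
    exact ZModModule.char_nsmul_eq_zero 5 _
  intro x r hr hr5 hx v hv hfix
  obtain ⟨e, he, hxe⟩ := exists_pow_eq_one x
  have hdvd : r ∣ e := hx ▸ orderOf_dvd_of_pow_eq_one hxe
  have hr' : r = 2 ∨ r = 3 ∨ r = 13 := by
    have key : ∀ e ∈ ({4, 10, 13, 15} : Finset ℕ), ∀ r < 16, r ∣ e → r ≠ 5 → r.Prime →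
        r = 2 ∨ r = 3 ∨ r = 13 := by decide
    have hle : r ≤ e := Nat.le_of_dvd ((by decide : ∀ e ∈ ({4, 10, 13, 15} : Finset ℕ), 0 < e) e he) hdvd
    have : e < 16 := (by decide : ∀ e ∈ ({4, 10, 13, 15} : Finset ℕ), e < 16) e he
    exact key e he r (by omega) hdvd hr5 hr
  rcases hr' with rfl | rfl | rfl
  · exact h10
  · exact h15
  exfalso
  haveI : Fact (Nat.Prime 13) := ⟨hr⟩
  have hf13 : (Nat.card L).factorization 13 = 1 := by
    rw [card_L, show (62400 : ℕ) = 13 * 4800 by norm_num,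
      Nat.factorization_mul (by norm_num) (by norm_num), Finsupp.add_apply,
      Nat.Prime.factorization_self hr, Nat.factorization_eq_zero_of_not_dvd (by norm_num : ¬ 13 ∣ 4800)]
  let P : Sylow 13 L := Sylow.ofCard (Subgroup.zpowers x) (by rw [Nat.card_zpowers, hx, hf13, pow_one])
  let Q : Sylow 13 L := Sylow.ofCard (Subgroup.zpowers g) (by rw [Nat.card_zpowers, hg13, hf13, pow_one])
  obtain ⟨k, hk⟩ := MulAction.exists_smul_eq L P Q
  have hmem : g ∈ (k • P : Sylow 13 L) := by rw [hk]; exact Subgroup.mem_zpowers g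
  obtain ⟨z, hz, hzg⟩ := hmem
  have hzfix : act φ hφ z v = v := by
    have : Subgroup.zpowers x ≤ (MulAction.stabilizer (MulAut (Multiplicative modl)) v).comap (act φ hφ) :=
      Subgroup.zpowers_le.2 hfix
    exact this hz
  set u := act φ hφ k v with hu
  have hgu : act φ hφ g u = u := by
    rw [hu, ← hzg]
    show act φ hφ (k * z * k⁻¹) _ = _
    rw [← MulAut.mul_apply, ← map_mul, inv_mul_cancel_right, map_mul, MulAut.mul_apply, hzfix]
  have h0 : Multiplicative.toAdd u = 0 := by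
    refine fixed_const φ hφ hg _ fun p => ?_
    have h := congrArg (fun w : Multiplicative modl => (Multiplicative.toAdd w).1 (φ g p.1, φ g p.2)) hgu
    change (Multiplicative.toAdd u).1 (φ g⁻¹ (φ g p.1), φ g⁻¹ (φ g p.2)) = _ at h
    simpa using h.symm
  exact hv ((MulEquiv.map_eq_one_iff (act φ hφ k)).1 (Multiplicative.toAdd.injective h0))

theorem exists_large_psu {F : Type*} [Field F] [Fintype F] (hF : Fintype.card F = 16) (N : ℕ) :
    ∃ (H : Type) (_ : Group H) (_ : Finite H), N < Nat.card H ∧ SamePrimeGraph (Cfsg.PSU 3 F 4) H := by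
  obtain ⟨e⟩ : Nonempty (F ≃+* E16) :=
    ⟨FiniteField.ringEquivOfCardEq (hF.trans (rfl : (16 : ℕ) = Fintype.card E16))⟩
  obtain ⟨e1⟩ := IsoPSU42.nonempty_su_equiv 3 4 e
  obtain ⟨e2⟩ := IsoPSU42.centerQuot_congr e1
  let e3 : (L ⧸ Subgroup.center L) ≃* L :=
    (QuotientGroup.quotientMulEquivOfEq center_eq_bot).trans QuotientGroup.quotientBot
  obtain ⟨H, i1, i2, hN, hH⟩ := exists_large N
  exact ⟨H, i1, i2, hN, (samePrimeGraph_of_mulEquiv (e2.trans e3)).trans hH⟩

end Cfsg.Agent.GKTools.U34
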