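import Cfsg.Agent.Leech.F4
import Cfsg.Agent.RecogA.ThreeSpectrum
import Mathlib.Algebra.QuadraticAlgebra.Basic

/-!
# The unitary plane over the field with sixteen elements: explicit data

The 65 isotropic points, three elements of orders 10, 13, 15, and checks for the code of functions
on points summing to zero on every block.
-/

set_option autoImplicit false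

namespace Cfsg.Agent.GKTools.U34

open Cfsg.Agent.Plane21 Matrix

/-- The field with sixteen elements. -/
abbrev E16 := QuadraticAlgebra F4 F4.w 1

instance fact_no_root : Fact (∀ r : F4, r ^ 2 ≠ F4.w + 1 * r) := ⟨by decide⟩

instance fintype_E16 : Fintype E16 := Fintype.ofEquiv _ (QuadraticAlgebra.equivProd _ _).symm

/-- The hermitian form. -/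
def hf (u v : Fin 3 → E16) : E16 := u 0 * v 0 ^ 4 + u 1 * v 1 ^ 4 + u 2 * v 2 ^ 4

/-- The isotropic points. -/
def pt : Fin 65 → Fin 3 → E16 :=
  ![![⟨.z, .z⟩, ⟨.o, .z⟩, ⟨.o, .z⟩], ![⟨.z, .z⟩, ⟨.o, .z⟩, ⟨.w, .u⟩], ![⟨.z, .z⟩, ⟨.o, .z⟩, ⟨.w, .w⟩],
    ![⟨.z, .z⟩, ⟨.o, .z⟩, ⟨.z, .w⟩], ![⟨.z, .z⟩, ⟨.o, .z⟩, ⟨.o, .u⟩], ![⟨.o, .z⟩, ⟨.z, .z⟩, ⟨.o, .z⟩],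
    ![⟨.o, .z⟩, ⟨.z, .z⟩, ⟨.w, .u⟩], ![⟨.o, .z⟩, ⟨.z, .z⟩, ⟨.w, .w⟩], ![⟨.o, .z⟩, ⟨.z, .z⟩, ⟨.z, .w⟩],
    ![⟨.o, .z⟩, ⟨.z, .z⟩, ⟨.o, .u⟩], ![⟨.o, .z⟩, ⟨.o, .z⟩, ⟨.z, .z⟩], ![⟨.o, .z⟩, ⟨.z, .o⟩, ⟨.w, .o⟩],
    ![⟨.o, .z⟩, ⟨.z, .o⟩, ⟨.u, .o⟩], ![⟨.o, .z⟩, ⟨.z, .o⟩, ⟨.w, .z⟩], ![⟨.o, .z⟩, ⟨.z, .o⟩, ⟨.u, .u⟩],
    ![⟨.o, .z⟩, ⟨.z, .o⟩, ⟨.z, .u⟩], ![⟨.o, .z⟩, ⟨.o, .o⟩, ⟨.w, .o⟩], ![⟨.o, .z⟩, ⟨.o, .o⟩, ⟨.u, .o⟩],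
    ![⟨.o, .z⟩, ⟨.o, .o⟩, ⟨.w, .z⟩], ![⟨.o, .z⟩, ⟨.o, .o⟩, ⟨.u, .u⟩], ![⟨.o, .z⟩, ⟨.o, .o⟩, ⟨.z, .u⟩],
    ![⟨.o, .z⟩, ⟨.w, .o⟩, ⟨.z, .o⟩], ![⟨.o, .z⟩, ⟨.w, .o⟩, ⟨.o, .o⟩], ![⟨.o, .z⟩, ⟨.w, .o⟩, ⟨.u, .z⟩],
    ![⟨.o, .z⟩, ⟨.w, .o⟩, ⟨.u, .w⟩], ![⟨.o, .z⟩, ⟨.w, .o⟩, ⟨.o, .w⟩], ![⟨.o, .z⟩, ⟨.u, .o⟩, ⟨.z, .o⟩],
    ![⟨.o, .z⟩, ⟨.u, .o⟩, ⟨.o, .o⟩], ![⟨.o, .z⟩, ⟨.u, .o⟩, ⟨.u, .z⟩], ![⟨.o, .z⟩, ⟨.u, .o⟩, ⟨.u, .w⟩],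
    ![⟨.o, .z⟩, ⟨.u, .o⟩, ⟨.o, .w⟩], ![⟨.o, .z⟩, ⟨.w, .z⟩, ⟨.z, .o⟩], ![⟨.o, .z⟩, ⟨.w, .z⟩, ⟨.o, .o⟩],
    ![⟨.o, .z⟩, ⟨.w, .z⟩, ⟨.u, .z⟩], ![⟨.o, .z⟩, ⟨.w, .z⟩, ⟨.u, .w⟩], ![⟨.o, .z⟩, ⟨.w, .z⟩, ⟨.o, .w⟩],
    ![⟨.o, .z⟩, ⟨.u, .z⟩, ⟨.w, .o⟩], ![⟨.o, .z⟩, ⟨.u, .z⟩, ⟨.u, .o⟩], ![⟨.o, .z⟩, ⟨.u, .z⟩, ⟨.w, .z⟩],
    ![⟨.o, .z⟩, ⟨.u, .z⟩, ⟨.u, .u⟩], ![⟨.o, .z⟩, ⟨.u, .z⟩, ⟨.z, .u⟩], ![⟨.o, .z⟩, ⟨.w, .u⟩, ⟨.z, .z⟩],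
    ![⟨.o, .z⟩, ⟨.u, .u⟩, ⟨.z, .o⟩], ![⟨.o, .z⟩, ⟨.u, .u⟩, ⟨.o, .o⟩], ![⟨.o, .z⟩, ⟨.u, .u⟩, ⟨.u, .z⟩],
    ![⟨.o, .z⟩, ⟨.u, .u⟩, ⟨.u, .w⟩], ![⟨.o, .z⟩, ⟨.u, .u⟩, ⟨.o, .w⟩], ![⟨.o, .z⟩, ⟨.w, .w⟩, ⟨.z, .z⟩],
    ![⟨.o, .z⟩, ⟨.u, .w⟩, ⟨.w, .o⟩], ![⟨.o, .z⟩, ⟨.u, .w⟩, ⟨.u, .o⟩], ![⟨.o, .z⟩, ⟨.u, .w⟩, ⟨.w, .z⟩],
    ![⟨.o, .z⟩, ⟨.u, .w⟩, ⟨.u, .u⟩], ![⟨.o, .z⟩, ⟨.u, .w⟩, ⟨.z, .u⟩], ![⟨.o, .z⟩, ⟨.z, .w⟩, ⟨.z, .z⟩],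
    ![⟨.o, .z⟩, ⟨.o, .w⟩, ⟨.w, .o⟩], ![⟨.o, .z⟩, ⟨.o, .w⟩, ⟨.u, .o⟩], ![⟨.o, .z⟩, ⟨.o, .w⟩, ⟨.w, .z⟩],
    ![⟨.o, .z⟩, ⟨.o, .w⟩, ⟨.u, .u⟩], ![⟨.o, .z⟩, ⟨.o, .w⟩, ⟨.z, .u⟩], ![⟨.o, .z⟩, ⟨.z, .u⟩, ⟨.z, .o⟩],
    ![⟨.o, .z⟩, ⟨.z, .u⟩, ⟨.o, .o⟩], ![⟨.o, .z⟩, ⟨.z, .u⟩, ⟨.u, .z⟩], ![⟨.o, .z⟩, ⟨.z, .u⟩, ⟨.u, .w⟩],
    ![⟨.o, .z⟩, ⟨.z, .u⟩, ⟨.o, .w⟩], ![⟨.o, .z⟩, ⟨.o, .u⟩, ⟨.z, .z⟩]]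

def g13 : Matrix (Fin 3) (Fin 3) E16 := !![⟨.o, .w⟩, ⟨.u, .z⟩, ⟨.o, .z⟩; ⟨.z, .w⟩, ⟨.u, .z⟩, ⟨.u, .w⟩; ⟨.z, .o⟩, ⟨.z, .w⟩, ⟨.u, .z⟩]
def g10 : Matrix (Fin 3) (Fin 3) E16 := !![⟨.w, .w⟩, ⟨.o, .o⟩, ⟨.o, .o⟩; ⟨.u, .z⟩, ⟨.u, .w⟩, ⟨.w, .w⟩; ⟨.z, .o⟩, ⟨.o, .z⟩, ⟨.o, .w⟩]
def g15 : Matrix (Fin 3) (Fin 3) E16 := !![⟨.z, .w⟩, ⟨.u, .w⟩, ⟨.o, .o⟩; ⟨.w, .u⟩, ⟨.z, .o⟩, ⟨.o, .o⟩; ⟨.o, .u⟩, ⟨.w, .w⟩, ⟨.w, .w⟩]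

/-- The permutation of the points induced by `g13`. -/
def sig : Fin 65 → Fin 65 := ![11, 6, 39, 22, 45, 16, 43, 13, 10, 63, 54, 28, 44,
    33, 23, 61, 4, 25, 26, 14, 18, 2, 58, 24, 38, 60,
    35, 20, 9, 21, 55, 50, 52, 48, 49, 51, 5, 62, 36,
    17, 30, 1, 59, 15, 0, 53, 8, 12, 41, 27, 57, 3,
    7, 42, 56, 31, 47, 29, 37, 19, 40, 64, 34, 46, 32]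

/-- The scalars of `g13`. -/
def scal : Fin 65 → E16 := ![⟨.w, .z⟩, ⟨.o, .u⟩, ⟨.o, .w⟩, ⟨.u, .w⟩, ⟨.w, .u⟩,
    ⟨.z, .w⟩, ⟨.u, .o⟩, ⟨.u, .z⟩, ⟨.o, .z⟩, ⟨.z, .o⟩,
    ⟨.w, .w⟩, ⟨.u, .z⟩, ⟨.w, .z⟩, ⟨.u, .o⟩, ⟨.w, .w⟩,
    ⟨.o, .w⟩, ⟨.o, .u⟩, ⟨.o, .z⟩, ⟨.z, .o⟩, ⟨.o, .w⟩,
    ⟨.w, .w⟩, ⟨.w, .z⟩, ⟨.o, .z⟩, ⟨.u, .o⟩, ⟨.u, .u⟩,
    ⟨.o, .u⟩, ⟨.u, .z⟩, ⟨.w, .z⟩, ⟨.z, .o⟩, ⟨.z, .u⟩,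
    ⟨.w, .u⟩, ⟨.z, .u⟩, ⟨.o, .u⟩, ⟨.u, .w⟩, ⟨.u, .z⟩,
    ⟨.o, .z⟩, ⟨.o, .u⟩, ⟨.z, .u⟩, ⟨.o, .w⟩, ⟨.z, .o⟩,
    ⟨.u, .o⟩, ⟨.o, .z⟩, ⟨.u, .o⟩, ⟨.w, .o⟩, ⟨.z, .o⟩,
    ⟨.z, .w⟩, ⟨.w, .w⟩, ⟨.z, .u⟩, ⟨.o, .w⟩, ⟨.z, .w⟩,
    ⟨.o, .u⟩, ⟨.w, .o⟩, ⟨.u, .z⟩, ⟨.o, .u⟩, ⟨.z, .w⟩,
    ⟨.o, .w⟩, ⟨.z, .u⟩, ⟨.o, .z⟩, ⟨.w, .z⟩, ⟨.o, .o⟩,
    ⟨.z, .o⟩, ⟨.w, .z⟩, ⟨.w, .w⟩, ⟨.z, .w⟩, ⟨.w, .z⟩]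

/-- Orbit number and position under `g13`. -/
def orb : Fin 65 → Fin 5 × Fin 13 := ![(0, 0), (1, 0), (2, 0), (3, 0), (4, 0), (4, 11), (1, 1), (1, 8),
    (0, 6), (0, 3), (0, 7), (0, 1), (0, 11), (1, 9), (4, 6), (1, 3),
    (4, 12), (2, 2), (3, 9), (4, 5), (3, 8), (2, 12), (3, 1), (4, 7),
    (4, 8), (2, 3), (3, 10), (3, 7), (0, 2), (2, 11), (2, 6), (2, 8),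
    (1, 6), (1, 10), (3, 5), (3, 11), (4, 10), (3, 3), (4, 9), (2, 1),
    (2, 5), (1, 12), (4, 3), (1, 2), (0, 12), (4, 1), (0, 5), (0, 10),
    (1, 11), (3, 6), (2, 9), (3, 12), (1, 7), (4, 2), (0, 8), (2, 7),
    (0, 9), (2, 10), (3, 2), (4, 4), (2, 4), (1, 4), (3, 4), (0, 4),
    (1, 5)]

/-- Orbit representatives. -/
def rep : Fin 5 → Fin 65 := ![0, 1, 2, 3, 4]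

/-- Four anisotropic vectors whose blocks determine the fixed functions. -/
def blk : Fin 4 → Fin 3 → E16 := ![![⟨.z, .z⟩, ⟨.z, .z⟩, ⟨.o, .z⟩], ![⟨.z, .z⟩, ⟨.o, .z⟩, ⟨.z, .o⟩], ![⟨.z, .z⟩, ⟨.o, .z⟩, ⟨.o, .o⟩], ![⟨.z, .z⟩, ⟨.o, .z⟩, ⟨.u, .o⟩]]

/-- A nonconstant function summing to zero on every block. -/
def witness : Fin 65 → ZMod 5 := ![0, 3, 3, 4, 0, 2, 1, 0, 2, 0, 0, 1, 4,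
    0, 2, 3, 1, 3, 0, 1, 0, 0, 0, 4, 3, 3,
    0, 1, 3, 2, 4, 2, 0, 4, 4, 0, 1, 1, 4,
    2, 2, 0, 3, 4, 4, 1, 3, 0, 2, 2, 1, 0,
    0, 0, 0, 0, 0, 0, 0, 0, 0, 0, 0, 0, 0]

/-- The points on the block of `n`. -/
def blockSet (n : Fin 3 → E16) : List (Fin 65) := (List.finRange 65).filter (fun j => hf (pt j) n = 0)

/-- What a block must satisfy. -/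
def BlockOK (n : Fin 3 → E16) : Prop :=
  hf n n ≠ 0 → (blockSet n).length % 5 = 0 ∧ ((blockSet n).map witness).sum = 0

instance decidable_blockOK (n : Fin 3 → E16) : Decidable (BlockOK n) := by unfold BlockOK; infer_instance

theorem pt_cover_affine : ∀ a b : E16, 1 + a ^ 5 + b ^ 5 = 0 → ∃ j, pt j = ![1, a, b] := by decide +kernel

theorem pt_cover_line : ∀ b : E16, 1 + b ^ 5 = 0 → ∃ j, pt j = ![0, 1, b] := by decide +kernel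

theorem pt_head : ∀ i, pt i 0 = 1 ∨ (pt i 0 = 0 ∧ pt i 1 = 1) := by decide +kernel

theorem pt_inj : ∀ i j, pt i = pt j → i = j := by decide +kernel

theorem pt_iso : ∀ i, hf (pt i) (pt i) = 0 := by decide +kernel

theorem block_affine : ∀ a b : E16, BlockOK ![1, a, b] := by decide +kernel

theorem block_line : ∀ b : E16, BlockOK ![0, 1, b] := by decide +kernel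

theorem block_point : BlockOK ![0, 0, 1] := by decide +kernel

theorem sig_spec : ∀ i, g13 *ᵥ pt i = scal i • pt (sig i) := by decide +kernel

theorem orb_spec : ∀ i, sig^[(orb i).2.val] (rep (orb i).1) = i := by decide +kernel

theorem sig_period : ∀ i, sig^[13] i = i := by decide +kernel

theorem blk_spec : (∀ k, hf (blk k) (blk k) ≠ 0) ∧ ∀ a : Fin 5 → ZMod 5,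
    (∀ k, (((blockSet (blk k)).map (fun j => (orb j).1)).map a).sum = 0) → ∀ r, a r = a 0 := by
  refine ⟨by decide +kernel, ?_⟩
  decide +kernel

theorem coeff_spectrum : ∀ t : E16, ∃ e ∈ ({4, 10, 13, 15} : Finset ℕ),
    RecogA.powCoeff t (t ^ 4) e = (0, 0, 1) := by decide +kernel

theorem elements_ok :
    (g13.det = 1 ∧ g13ᵀ * g13.map (· ^ 4) = 1 ∧ g13 ^ 13 = 1 ∧ g13 ≠ 1) ∧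
    (g10.det = 1 ∧ g10ᵀ * g10.map (· ^ 4) = 1 ∧ g10 ^ 10 = 1 ∧ g10 ^ 5 ≠ 1 ∧ g10 ^ 2 ≠ 1) ∧
    (g15.det = 1 ∧ g15ᵀ * g15.map (· ^ 4) = 1 ∧ g15 ^ 15 = 1 ∧ g15 ^ 5 ≠ 1 ∧ g15 ^ 3 ≠ 1) := by
  decide +kernel

end Cfsg.Agent.GKTools.U34
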